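import Cfsg.Agent.H5.PG
import Cfsg.Agent.FT.Defs
import Cfsg.Prelude.Def_CaseTheorems
import Cfsg.Prelude.Def_Classical

/-!
Groups with Sylow 2-subgroups of type `A₈`: the model `UT` of the Sylow subgroup (unitriangular
4 × 4 matrices over the field with two elements) and the interfaces between the parts of the proof.
Bits: `a = 1` (entry 12), `b = 2` (23), `c = 4` (34), `d = 8` (13), `e = 16` (24), `z = 32` (14).
-/

set_option autoImplicit false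
set_option maxRecDepth 100000

namespace Cfsg.A8

open Subgroup Cfsg.H5 Cfsg.FT Cfsg.H8

abbrev UT : Type := TN 88 64

def bt (x i : ℕ) : ℕ := Nat.land (Nat.shiftRight x i) 1

def umN (x y : ℕ) : ℕ :=
  Nat.xor (Nat.xor (Nat.xor (Nat.xor x y) (Nat.mul (Nat.land (bt x 0) (bt y 1)) 8))
    (Nat.mul (Nat.land (bt x 1) (bt y 2)) 16))
    (Nat.mul (Nat.xor (Nat.land (bt x 0) (bt y 4)) (Nat.land (bt x 3) (bt y 2))) 32)

theorem umN_lt : ∀ x y : UT, umN x.val y.val < 64 := by decide +kernel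

def UT.mul (x y : UT) : UT := ⟨umN x.val y.val, umN_lt x y⟩
def UT.one : UT := ⟨0, by norm_num⟩
def UT.inv (x : UT) : UT := UT.mul x (UT.mul x x)

theorem UT.assoc : ∀ x y z : UT, UT.mul (UT.mul x y) z = UT.mul x (UT.mul y z) := by decide +kernel

instance instGroupUT : Group UT where
  mul := UT.mul
  one := UT.one
  inv := UT.inv
  mul_assoc := UT.assoc
  one_mul := by decide +kernel
  mul_one := by decide +kernel
  inv_mul_cancel := by decide +kernel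

/-- the element with bit mask `n` -/
def el (n : ℕ) : UT := ⟨n % 64, Nat.mod_lt _ (by norm_num)⟩

theorem card_UT : Nat.card UT = 64 := TN.card_eq

/-- the subgroup of the elements whose bits lie inside the mask `m` (for suitable `m`) -/
def msk (m : ℕ) (h : ∀ x y : UT, Nat.land x.val m = x.val → Nat.land y.val m = y.val →
    Nat.land (x * y).val m = (x * y).val) : Subgroup UT where
  carrier := {x | Nat.land x.val m = x.val}
  mul_mem' := h _ _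
  one_mem' := Nat.zero_and m
  inv_mem' := fun {x} hx => h x (x * x) hx (h x x hx hx)

instance instDecMsk (m : ℕ) (h : _) (x : UT) : Decidable (x ∈ msk m h) :=
  inferInstanceAs (Decidable (Nat.land x.val m = x.val))

/-- `Q = ⟨a, c, d, e⟩`, extraspecial of order 32 -/
def Qu : Subgroup UT := msk 61 (by decide +kernel)
/-- `A = ⟨b, d, e, z⟩`, elementary abelian of order 16 -/
def Au : Subgroup UT := msk 58 (by decide +kernel)
/-- `U₁ = ⟨a, d, z⟩` -/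
def U1u : Subgroup UT := msk 41 (by decide +kernel)
/-- `U₂ = ⟨c, e, z⟩` -/
def U2u : Subgroup UT := msk 52 (by decide +kernel)
/-- `A⟨c⟩ = C(e)` -/
def R1u : Subgroup UT := msk 62 (by decide +kernel)
/-- `A⟨a⟩ = C(d)` -/
def R3u : Subgroup UT := msk 59 (by decide +kernel)

instance instDecQu (x : UT) : Decidable (x ∈ Qu) := instDecMsk _ _ x
instance instDecAu (x : UT) : Decidable (x ∈ Au) := instDecMsk _ _ x
instance instDecU1u (x : UT) : Decidable (x ∈ U1u) := instDecMsk _ _ x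
instance instDecU2u (x : UT) : Decidable (x ∈ U2u) := instDecMsk _ _ x
instance instDecR1u (x : UT) : Decidable (x ∈ R1u) := instDecMsk _ _ x
instance instDecR3u (x : UT) : Decidable (x ∈ R3u) := instDecMsk _ _ x

variable {G : Type*} [Group G]

/-- `O(H)` -/
abbrev OO (H : Subgroup G) : Subgroup G := H7.pPrimeCoreOf 2 H

/-- the hypotheses of the theorem, with `ι.range` as Sylow subgroup -/
structure Hyp (ι : UT →* G) : Prop where
  inj : Function.Injective ι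
  syl : IsSyl 2 ι.range ⊤
  res : pResidual 2 G = ⊤
  core : pCore 2 G = ⊥
  odd : pPrimeCore 2 G = ⊥
  sol : Sol (𝒞₁ (ι (el 32)))

/-- conjugation by `g` maps `el p.1` to `el p.2` for the pairs `p` of the list -/
def Acts (ι : UT →* G) (g : G) (L : List (ℕ × ℕ)) : Prop :=
  ∀ p ∈ L, g * ι (el p.1) * g⁻¹ = ι (el p.2)

/-- fusion of type `A₈ = L₄(2)`; `s₁, s₂, s₃` act like the permutation matrices -/
structure T8 (ι : UT →* G) (s₁ s₂ s₃ : G) : Prop extends Hyp ι where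
  a1 : Acts ι s₁ [(2, 8), (8, 2), (4, 4), (16, 32), (32, 16)]
  a2 : Acts ι s₂ [(1, 8), (8, 1), (4, 16), (16, 4), (32, 32)]
  a3 : Acts ι s₃ [(1, 1), (2, 16), (16, 2), (8, 32), (32, 8)]
  cz : ∀ g ∈ 𝒞₁ (ι (el 32)), ∃ o ∈ OO (𝒞₁ (ι (el 32))), ∃ n ∈ ι.range ⊔ zpowers s₂, g = o * n
  nc : ¬ IsConj (ι (el 32)) (ι (el 24))

/-- fusion of type `PSp₄(3)`; `h` normalizes the Sylow subgroup, `w` normalizes `A` -/
structure TS (ι : UT →* G) (s₂ h w : G) : Prop extends Hyp ι where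
  a2 : Acts ι s₂ [(1, 8), (8, 1), (4, 16), (16, 4), (32, 32)]
  ah : Acts ι h [(1, 4), (2, 2), (4, 5), (8, 16), (16, 56), (32, 32)]
  aw : Acts ι w [(32, 2), (2, 32), (8, 50), (16, 42)]
  cz : ∀ g ∈ 𝒞₁ (ι (el 32)), ∃ o ∈ OO (𝒞₁ (ι (el 32))),
    ∃ n ∈ ι.range ⊔ zpowers s₂ ⊔ zpowers h, g = o * n
  nc : ¬ IsConj (ι (el 32)) (ι (el 8))

/-- task F -/
def TaskF : Prop := ∀ (G : Type) [Group G] [Finite G] (ι : UT →* G), Hyp ι →
  (∃ (κ : UT →* G) (s₁ s₂ s₃ : G), T8 κ s₁ s₂ s₃) ∨ ∃ (κ : UT →* G) (s₂ h w : G), TS κ s₂ h w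

/-- task W8: `t = el 24`, `B₁ = {1, el 24, el 42, el 50}` -/
def TaskW8 : Prop := ∀ (G : Type) [Group G] [Finite G] (ι : UT →* G) (s₁ s₂ s₃ : G),
  T8 ι s₁ s₂ s₃ → OO (𝒞₁ (ι (el 32))) = ⊥ ∧ ∀ g ∈ 𝒞₁ (ι (el 24)),
    g * ι (el 42) * g⁻¹ = ι (el 42) ∨ g * ι (el 42) * g⁻¹ = ι (el 50)

/-- task WS: `t = el 8`, `D = {1, el 8, el 2, el 10}` -/
def TaskWS : Prop := ∀ (G : Type) [Group G] [Finite G] (ι : UT →* G) (s₂ h w : G),
  TS ι s₂ h w → OO (𝒞₁ (ι (el 32))) = ⊥ ∧ ∀ g ∈ 𝒞₁ (ι (el 8)),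
    g * ι (el 2) * g⁻¹ = ι (el 2) ∨ g * ι (el 2) * g⁻¹ = ι (el 10)

/-- task E8 -/
def TaskE8 : Prop := ∀ (G : Type) [Group G] [Finite G] (ι : UT →* G) (s₁ s₂ s₃ : G),
  T8 ι s₁ s₂ s₃ → OO (𝒞₁ (ι (el 32))) = ⊥ → (∀ g ∈ 𝒞₁ (ι (el 24)),
    g * ι (el 42) * g⁻¹ = ι (el 42) ∨ g * ι (el 42) * g⁻¹ = ι (el 50)) →
  Nonempty (G ≃* alternatingGroup (Fin 8)) ∨ Nonempty (G ≃* alternatingGroup (Fin 9))

/-- task ES -/
def TaskES : Prop := ∀ (G : Type) [Group G] [Finite G] (ι : UT →* G) (s₂ h w : G),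
  TS ι s₂ h w → OO (𝒞₁ (ι (el 32))) = ⊥ → (∀ g ∈ 𝒞₁ (ι (el 8)),
    g * ι (el 2) * g⁻¹ = ι (el 2) ∨ g * ι (el 2) * g⁻¹ = ι (el 10)) →
  Nonempty (G ≃* Cfsg.PSp 2 (ZMod 3))

end Cfsg.A8
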