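import Cfsg.Agent.A8.D0
import Cfsg.Agent.H5.Model3

/-! Interfaces between the parts of task E8. -/

set_option autoImplicit false
set_option maxRecDepth 100000

namespace Cfsg.A8

open Subgroup Cfsg.H5 Cfsg.FT Cfsg.H8

abbrev Al (n : ℕ) : Type := alternatingGroup (Fin n)

/-- the product of two transpositions; `dt i k i j` is the three-cycle `(i j k)` -/
def dt {n : ℕ} (i j k l : Fin n) (h : i ≠ j ∧ k ≠ l := by decide) : Al n :=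
  ⟨Equiv.swap i j * Equiv.swap k l, by
    rw [Equiv.Perm.mem_alternatingGroup, map_mul, Equiv.Perm.sign_swap h.1,
      Equiv.Perm.sign_swap h.2]; rfl⟩

/-- the images of `a, b, c, s₁, s₂, s₃` (letters `1, …, 6`) -/
def p8 : ℕ → Al 8
  | 1 => dt 0 4 1 5 * dt 2 6 3 7
  | 2 => dt 0 1 2 3 * dt 4 7 5 6
  | 3 => dt 0 5 1 4 * dt 2 6 3 7
  | 4 => dt 0 5 1 7 * dt 2 6 3 4
  | 5 => dt 0 1 2 5 * dt 3 4 6 7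
  | 6 => dt 0 7 1 5 * dt 2 6 3 4
  | _ => 1

/-- the embedding of the Sylow subgroup: `24 ↦ (01)(23)`, `42 ↦ (02)(13)`, `50 ↦ (03)(12)`,
`56 ↦ (45)(67)`, `34 ↦ (46)(57)`, `26 ↦ (47)(56)`, `5 ↦ (01)(45)`, `32 ↦ (01)(23)(45)(67)` -/
def jA (x : UT) : Al 8 :=
  (dt 0 1 2 3 * dt 4 5 6 7) ^ bt x.val 5 * (dt 0 3 1 2 * dt 4 6 5 7) ^ bt x.val 4 *
    p8 3 ^ bt x.val 2 * (dt 0 2 1 3 * dt 4 6 5 7) ^ bt x.val 3 * p8 2 ^ bt x.val 1 * p8 1 ^ bt x.val 0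

theorem jA_val : jA (el 24) = dt 0 1 2 3 ∧ jA (el 42) = dt 0 2 1 3 ∧ jA (el 50) = dt 0 3 1 2 ∧
    jA (el 56) = dt 4 5 6 7 ∧ jA (el 34) = dt 4 6 5 7 ∧ jA (el 26) = dt 4 7 5 6 ∧
    jA (el 5) = dt 0 1 4 5 ∧ jA (el 32) = dt 0 1 2 3 * dt 4 5 6 7 := by decide +kernel

variable {G : Type*} [Group G]

/-- the relations of the corrected generators -/
structure R8 (ι : UT →* G) (r₁ r₂ r₃ : G) : Prop extends T8 ι r₁ r₂ r₃ where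
  q1 : r₁ * r₁ = 1
  q2 : r₂ * r₂ = 1
  q3 : r₃ * r₃ = 1
  t1 : (ι (el 1) * r₁) ^ 3 = 1
  t2 : (ι (el 2) * r₂) ^ 3 = 1
  t3 : (ι (el 4) * r₃) ^ 3 = 1
  c13 : (r₁ * r₃) ^ 2 = 1
  c12 : (r₁ * r₂) ^ 3 = 1 ∨ (r₁ * r₂) ^ 3 = ι (el 52)
  c23 : (r₂ * r₃) ^ 3 = 1 ∨ (r₂ * r₃) ^ 3 = ι (el 41)
  czr : 𝒞₁ (ι (el 32)) ≤ ι.range ⊔ zpowers r₂

/-- the subgroup `A₈` -/
structure E8 (ι : UT →* G) (r₁ r₂ r₃ : G) (Φ : Al 8 →* G) : Prop extends T8 ι r₁ r₂ r₃ where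
  finj : Function.Injective Φ
  fj : ∀ x, ι x = Φ (jA x)
  f1 : r₁ = Φ (p8 4)
  f2 : r₂ = Φ (p8 5)
  f3 : r₃ = Φ (p8 6)
  czf : 𝒞₁ (ι (el 32)) ≤ Φ.range

/-- `C(t)` normalizes `B₁` -/
def HT (ι : UT →* G) : Prop := ∀ g ∈ 𝒞₁ (ι (el 24)),
  g * ι (el 42) * g⁻¹ = ι (el 42) ∨ g * ι (el 42) * g⁻¹ = ι (el 50)

/-- `C(B₁) = B₁ × A₅` -/
structure F5 (Φ : Al 8 →* G) (ψ : A0 →* G) : Prop where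
  pinj : Function.Injective ψ
  pw : ψ A0.w = Φ (dt 4 5 6 7)
  pt : ψ A0.t = Φ (dt 4 6 4 5)
  c1 : ∀ s, Φ (dt 0 1 2 3) * ψ s = ψ s * Φ (dt 0 1 2 3)
  c2 : ∀ s, Φ (dt 0 2 1 3) * ψ s = ψ s * Φ (dt 0 2 1 3)
  all : ∀ g, Φ (dt 0 1 2 3) * g = g * Φ (dt 0 1 2 3) → Φ (dt 0 2 1 3) * g = g * Φ (dt 0 2 1 3) →
    ∃ i j : ℕ, ∃ s, g = Φ (dt 0 1 2 3 ^ i * dt 0 2 1 3 ^ j) * ψ s

def TaskE8R : Prop := ∀ (G : Type) [Group G] [Finite G] (ι : UT →* G) (s₁ s₂ s₃ : G),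
  T8 ι s₁ s₂ s₃ → OO (𝒞₁ (ι (el 32))) = ⊥ → ∃ r₁ r₂ r₃, R8 ι r₁ r₂ r₃

def TaskE8P : Prop := ∀ (G : Type) [Group G] [Finite G] (ι : UT →* G) (r₁ r₂ r₃ : G),
  R8 ι r₁ r₂ r₃ → ∃ Φ, E8 ι r₁ r₂ r₃ Φ

def TaskE8B : Prop := ∀ (G : Type) [Group G] [Finite G] (ι : UT →* G) (r₁ r₂ r₃ : G)
  (Φ : Al 8 →* G), E8 ι r₁ r₂ r₃ Φ → HT ι → 𝒞₁ (ι (el 24)) ≤ Φ.range ∨ ∃ ψ, F5 Φ ψ

def TaskE8C : Prop := ∀ (G : Type) [Group G] [Finite G] (ι : UT →* G) (r₁ r₂ r₃ : G)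
  (Φ : Al 8 →* G) (ψ : A0 →* G), E8 ι r₁ r₂ r₃ Φ → HT ι → F5 Φ ψ →
  ∃ Ψ : Al 9 →* G, Function.Injective Ψ ∧ Φ.range ≤ Ψ.range ∧ 𝒞₁ (ι (el 24)) ≤ Ψ.range

def TaskE8F : Prop := ∀ (G : Type) [Group G] [Finite G] (ι : UT →* G) (r₁ r₂ r₃ : G)
  (Φ : Al 8 →* G) (M : Subgroup G), E8 ι r₁ r₂ r₃ Φ → Φ.range ≤ M → 𝒞₁ (ι (el 24)) ≤ M → M = ⊤

theorem taskE8_of (hR : TaskE8R) (hP : TaskE8P) (hB : TaskE8B) (hC : TaskE8C) (hF : TaskE8F) :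
    TaskE8 := by
  intro G _ _ ι s₁ s₂ s₃ H hO ht
  obtain ⟨r₁, r₂, r₃, R⟩ := hR G ι s₁ s₂ s₃ H hO
  obtain ⟨Φ, E⟩ := hP G ι r₁ r₂ r₃ R
  rcases hB G ι r₁ r₂ r₃ Φ E ht with h | ⟨ψ, F⟩
  · exact Or.inl ⟨(MulEquiv.ofBijective Φ
      ⟨E.finj, MonoidHom.range_eq_top.mp (hF G ι r₁ r₂ r₃ Φ _ E le_rfl h)⟩).symm⟩
  · obtain ⟨Ψ, h1, h2, h3⟩ := hC G ι r₁ r₂ r₃ Φ ψ E ht F
    exact Or.inr ⟨(MulEquiv.ofBijective Ψ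
      ⟨h1, MonoidHom.range_eq_top.mp (hF G ι r₁ r₂ r₃ Φ _ E h2 h3)⟩).symm⟩

end Cfsg.A8
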