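import Cfsg.Agent.A8.V1

/-! Task W8. -/

set_option autoImplicit false
set_option maxRecDepth 100000
set_option linter.unusedSectionVars false

namespace Cfsg.A8.V

open Subgroup Cfsg.L0 Cfsg.H8 Cfsg.FT Cfsg.GS.SFx
open scoped commutatorElement

variable {G : Type} [Group G] [Finite G] {K M W Y : Subgroup G} {g u : G} {ι : UT →* G}
  {s₁ s₂ s₃ : G} {a b : UT}

theorem cmm (e : a * b = b * a) : ι a ∈ 𝒞₁ (ι b) := mem_cent1.2 (by rw [← map_mul, e, map_mul])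

theorem sqq (e : a * a = 1) : ι a * ι a = 1 := by rw [← map_mul, e, map_one]

theorem mm {c : UT} (e : a * b = c) : ι a * ι b = ι c := by rw [← map_mul, e]

section
variable (h : T8 ι s₁ s₂ s₃)
include h

theorem cm (e : ι a ∈ 𝒞₁ (ι b)) : a * b = b * a :=
  h.inj (by rw [map_mul, map_mul]; exact mem_cent1.1 e)

theorem ne1 (e : a ≠ 1) : ι a ≠ 1 := fun q => e (h.inj (q.trans (map_one ι).symm))

theorem nee (e : a ≠ b) : ι a ≠ ι b := fun q => e (h.inj q)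

theorem cjz (k : zc a = true) : IsConj (ι (el 32)) (ι a) := by
  obtain ⟨m, -, e⟩ := ok_spec (M := ⊤) h le_top trivial trivial trivial _ _ _ (hz a k)
  exact (isConj_iff.2 ⟨m, e⟩).symm

theorem cjt (k : tc a = true) : IsConj (ι (el 24)) (ι a) := by
  obtain ⟨m, -, e⟩ := ok_spec (M := ⊤) h le_top trivial trivial trivial _ _ _ (ht a k)
  exact (isConj_iff.2 ⟨m, e⟩).symm

theorem ncj (k : zc a = true) (l : tc b = true) (e : g * ι a * g⁻¹ = ι b) : False :=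
  h.nc (((cjz h k).trans (isConj_iff.2 ⟨g, e⟩)).trans (cjt h l).symm)

theorem ncj' (k : tc a = true) (l : zc b = true) (e : g * ι a * g⁻¹ = ι b) : False :=
  ncj h (g := g⁻¹) l k (by rw [← e]; group)

theorem solz (k : zc a = true) : Sol (𝒞₁ (ι a)) := sol_cj h.sol (cjz h k)

theorem hyC (k : ∀ x y : UT, x * a ≠ a * x → y * a ≠ a * y → x * y * a = a * (x * y)) :
    Hy ι.range (ι.range ⊓ 𝒞₁ (ι a)) := ⟨inf_le_left, by
  rintro _ ⟨x, rfl⟩ _ ⟨y, rfl⟩ p q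
  rw [← map_mul]
  exact ⟨⟨_, rfl⟩, cmm (k x y (fun e => p ⟨⟨_, rfl⟩, cmm e⟩) fun e => q ⟨⟨_, rfl⟩, cmm e⟩)⟩⟩

theorem lth (ho : Odd ♯Y) (hn : ι.range ≤ 𝒩 Y) {n : ℕ} (k : n ∈ [32, 8, 40, 16, 48]) :
    Y ⊓ 𝒞₁ (ι (el n)) ≤ th (ι (el n)) := by
  have : ∀ n ∈ [32, 8, 40, 16, 48], zc (el n) = true ∧ ∀ x y : UT, x * el n ≠ el n * x →
      y * el n ≠ el n * y → x * y * el n = el n * (x * y) := by decide +kernel
  exact le_th h.syl (solz h (this n k).1) (hyC h (this n k).2) ho hn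

theorem genD (ho : Odd ♯Y) (hn : ι.range ≤ 𝒩 Y) (K : Subgroup G) (h1 : th (ι (el 8)) ≤ K)
    (h2 : th (ι (el 32)) ≤ K) (h3 : th (ι (el 8) * ι (el 32)) ≤ K) : Y ≤ K := by
  have e : ι (el 8) * ι (el 32) = ι (el 40) := mm (by decide +kernel)
  refine gen4 (x := ι (el 8)) (y := ι (el 32)) (sqq (by decide +kernel)) (sqq (by decide +kernel))
    (mem_cent1.1 (cmm (by decide +kernel))) (ne1 h (by decide +kernel)) (ne1 h (by decide +kernel))
    (nee h (by decide +kernel)) ho (hn ⟨_, rfl⟩) (hn ⟨_, rfl⟩) ((lth h ho hn (by simp)).trans h1)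
    ((lth h ho hn (by simp)).trans h2) ?_
  rw [e] at h3 ⊢
  exact (lth h ho hn (by simp)).trans h3

theorem genE (ho : Odd ♯Y) (hn : ι.range ≤ 𝒩 Y) (K : Subgroup G) (h1 : th (ι (el 16)) ≤ K)
    (h2 : th (ι (el 32)) ≤ K) (h3 : th (ι (el 16) * ι (el 32)) ≤ K) : Y ≤ K := by
  have e : ι (el 16) * ι (el 32) = ι (el 48) := mm (by decide +kernel)
  refine gen4 (x := ι (el 16)) (y := ι (el 32)) (sqq (by decide +kernel)) (sqq (by decide +kernel))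
    (mem_cent1.1 (cmm (by decide +kernel))) (ne1 h (by decide +kernel)) (ne1 h (by decide +kernel))
    (nee h (by decide +kernel)) ho (hn ⟨_, rfl⟩) (hn ⟨_, rfl⟩) ((lth h ho hn (by simp)).trans h1)
    ((lth h ho hn (by simp)).trans h2) ?_
  rw [e] at h3 ⊢
  exact (lth h ho hn (by simp)).trans h3

theorem exU (U : Subgroup UT) (k1 : ∀ x ∈ U, ∀ y ∈ U, x * y = y * x) (k2 : ∀ x ∈ U, x * x = 1)
    (k3 : ∀ x ∈ U, x = 1 ∨ zc x = true) (k4 : ∀ c, ∀ x ∈ U, c * x * c⁻¹ ∈ U) (k5 : ♯U = 8) :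
    ∃ W : Subgroup G, Odd ♯W ∧ ι.range ≤ 𝒩 W ∧ ∀ x ∈ U, x ≠ 1 → th (ι x) ≤ W := by
  have k := fnc (E := U.map ι) ⟨by
      rintro _ ⟨x, hx, rfl⟩ _ ⟨y, hy, rfl⟩
      rw [← map_mul, ← map_mul, k1 x hx y hy], by
      rintro _ ⟨x, hx, rfl⟩
      rw [sq, sqq (k2 x hx)]⟩ (by rw [card_map_of_injective h.inj, k5]) (by
    rintro _ ⟨⟨x, hx, rfl⟩, e⟩
    exact solz h ((k3 x hx).resolve_left fun q => e (by rw [q, map_one])))
  refine ⟨_, k.odd, ?_, fun x hx e => le_Gn ⟨⟨x, hx, rfl⟩, ne1 h e⟩⟩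
  rintro _ ⟨c, rfl⟩
  refine nGn ?_
  rintro _ ⟨x, hx, rfl⟩
  exact ⟨_, k4 c x hx, by rw [map_mul, map_mul, map_inv]⟩

theorem exW : ∃ W : Subgroup G, Odd ♯W ∧ ι.range ≤ 𝒩 W ∧ s₁ ∈ 𝒩 W ∧ s₂ ∈ 𝒩 W ∧ s₃ ∈ 𝒩 W ∧
    th (ι (el 32)) ≤ W := by
  obtain ⟨W, o, n, l⟩ := exU h U1u (by decide +kernel) (by decide +kernel) (by decide +kernel)
    (by decide +kernel) ((Nat.subtype_card ([0, 1, 8, 9, 32, 33, 40, 41].map el).toFinset
      (by decide +kernel)).trans (by decide +kernel))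
  obtain ⟨W', o', n', l'⟩ := exU h U2u (by decide +kernel) (by decide +kernel) (by decide +kernel)
    (by decide +kernel) ((Nat.subtype_card ([0, 4, 16, 20, 32, 36, 48, 52].map el).toFinset
      (by decide +kernel)).trans (by decide +kernel))
  have k : ∀ n ∈ [1, 8, 32, 33, 40], th (ι (el n)) ≤ W := fun n hn =>
    l _ ((by decide +kernel : ∀ n ∈ [1, 8, 32, 33, 40], el n ∈ U1u) n hn)
      ((by decide +kernel : ∀ n ∈ [1, 8, 32, 33, 40], el n ≠ 1) n hn)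
  have le : W' ≤ W := genD h o' n' W (k 8 (by simp)) (k 32 (by simp))
    (by rw [mm (c := el 40) (by decide +kernel)]; exact k 40 (by simp))
  have k16 := (l' (el 16) (by decide +kernel) (by decide +kernel)).trans le
  have k48 := (l' (el 48) (by decide +kernel) (by decide +kernel)).trans le
  refine ⟨W, o, n, nrm_of (genE h o n) ?_ ?_ ?_, nrm_of (genD h o n) ?_ ?_ ?_,
    nrm_of (genD h o n) ?_ ?_ ?_, k 32 (by simp)⟩
  · rw [h.a1 (16, 32) (by simp)]; exact k 32 (by simp)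
  · rw [h.a1 (32, 16) (by simp)]; exact k16
  · rw [h.a1 (16, 32) (by simp), h.a1 (32, 16) (by simp), mm (c := el 48) (by decide +kernel)]
    exact k48
  · rw [h.a2 (8, 1) (by simp)]; exact k 1 (by simp)
  · rw [h.a2 (32, 32) (by simp)]; exact k 32 (by simp)
  · rw [h.a2 (8, 1) (by simp), h.a2 (32, 32) (by simp), mm (c := el 33) (by decide +kernel)]
    exact k 33 (by simp)
  · rw [h.a3 (8, 32) (by simp)]; exact k 32 (by simp)
  · rw [h.a3 (32, 8) (by simp)]; exact k 8 (by simp)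
  · rw [h.a3 (8, 32) (by simp), h.a3 (32, 8) (by simp), mm (c := el 40) (by decide +kernel)]
    exact k 40 (by simp)

theorem syT : IsSyl 2 (ι.range ⊓ 𝒞₁ (ι (el 24))) (𝒞₁ (ι (el 24))) :=
  sylT (z := ι (el 32)) h.syl (by
    rintro _ ⟨x, rfl⟩ k
    have : ∀ x : UT, (∀ c, c * x = x * c) → x = 1 ∨ x = el 32 := by decide +kernel
    rcases this x fun c => cm h (k ⟨c, rfl⟩) with q | q
    · exact Or.inl (by rw [q, map_one])
    · exact Or.inr (by rw [q])) (sqq (by decide +kernel)) (ne1 h (by decide +kernel)) h.nc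
    (hyC h (by decide +kernel))

omit h in
theorem cj_t (hg : g ∈ 𝒞₁ u) {x y : G} (e : g * x * g⁻¹ = y) : g * (x * u) * g⁻¹ = y * u := by
  rw [← conj_mul, e, mem_cent1.1 hg, mul_inv_cancel_right]

theorem syA : IsSyl 2 (ι.range ⊓ 𝒞₁ (ι (el 24)) ⊓ 𝒞₁ (ι (el 42)))
    (𝒞₁ (ι (el 24)) ⊓ 𝒞₁ (ι (el 42))) := by
  refine sylH (syT h) (cmm (by decide +kernel)) (sqq (by decide +kernel)) ?_ ⟨inf_le_left, ?_⟩
  · rintro g hg ⟨⟨x, e⟩, c⟩ k
    rw [← e] at c k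
    have e2 := cj_t hg e.symm
    rw [← map_mul, ← map_mul] at e2
    have : ∀ x : UT, x * el 24 = el 24 * x → (∀ c, c * el 24 = el 24 * c → c * x = x * c) →
        x = 1 ∨ x * el 24 = 1 ∨ zc x = true ∨ zc (x * el 24) = true := by decide +kernel
    rcases this x (cm h c) fun c hc => cm h (k ⟨⟨c, rfl⟩, cmm hc⟩) with q | q | q | q
    · rw [q, map_one, eq_comm, conj_eq_one_iff] at e
      exact ne1 h (by decide +kernel) e
    · rw [q, map_one, conj_eq_one_iff] at e2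
      exact ne1 h (by decide +kernel) e2
    · exact ncj' h (by decide +kernel) q e.symm
    · exact ncj' h (by decide +kernel) q e2
  · rintro _ ⟨⟨x, rfl⟩, hx⟩ _ ⟨⟨y, rfl⟩, hy⟩ p q
    have : ∀ x y : UT, x * el 24 = el 24 * x → y * el 24 = el 24 * y → x * el 42 ≠ el 42 * x →
      y * el 42 ≠ el 42 * y → x * y * el 42 = el 42 * (x * y) := by decide +kernel
    refine ⟨mul_mem ⟨⟨x, rfl⟩, hx⟩ ⟨⟨y, rfl⟩, hy⟩, ?_⟩
    rw [← map_mul]
    exact cmm (this x y (cm h hx) (cm h hy) (fun e => p ⟨⟨⟨_, rfl⟩, hx⟩, cmm e⟩)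
      fun e => q ⟨⟨⟨_, rfl⟩, hy⟩, cmm e⟩)

theorem wcl : ∀ g ∈ 𝒞₁ (ι (el 24)), g * ι (el 42) * g⁻¹ ∈ ι.range ⊓ 𝒞₁ (ι (el 24)) →
    g * ι (el 42) * g⁻¹ = ι (el 42) ∨ g * ι (el 42) * g⁻¹ = ι (el 42) * ι (el 24) := by
  have : Fact (Nat.Prime 2) := ⟨Nat.prime_two⟩
  rintro g hg ⟨⟨x, e⟩, c⟩
  rw [← e] at c ⊢
  have e2 := cj_t hg e.symm
  rw [← map_mul, ← map_mul] at e2
  have x2 : x * x = 1 := h.inj (by
    rw [map_mul, e, conj_mul, sqq (by decide +kernel), map_one, mul_one, mul_inv_cancel])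
  have : ∀ x : UT, x * el 24 = el 24 * x → x * x = 1 → x = 1 ∨ x * el 24 = 1 ∨ zc x = true ∨
      zc (x * el 24) = true ∨ x = el 42 ∨ x = el 42 * el 24 ∨
      (tc (el 56 * x) = true ∧ el 56 * x = x * el 56) := by decide +kernel
  rcases this x (cm h c) x2 with q | q | q | q | q | q | ⟨q, q'⟩
  · rw [q, map_one, eq_comm, conj_eq_one_iff] at e
    exact absurd e (ne1 h (by decide +kernel))
  · rw [q, map_one, conj_eq_one_iff] at e2
    exact absurd e2 (ne1 h (by decide +kernel))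
  · exact (ncj' h (by decide +kernel) q e.symm).elim
  · exact (ncj' h (by decide +kernel) q e2).elim
  · exact Or.inl (by rw [q])
  · exact Or.inr (by rw [q, map_mul])
  exfalso
  have v1 : g⁻¹ * ι (el 56) * g ∈ 𝒞₁ (ι (el 24)) ⊓ 𝒞₁ (ι (el 42)) :=
    mem_inf.2 ⟨mul_mem (mul_mem (inv_mem hg) (cmm (by decide +kernel))) hg, by
      rw [← mem_cj, cj_cent1, ← e]; exact cmm q'⟩
  obtain ⟨k, hk, ⟨⟨w, ew⟩, w1⟩, w2⟩ := (syA h).exists_conj_mem v1 ⟨1, by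
    rw [pow_one, sq, ← mul_assoc, mul_assoc _ g, mul_inv_cancel_left, mul_assoc g⁻¹,
      sqq (by decide +kernel), mul_one, inv_mul_cancel]⟩
  rw [← ew] at w1 w2
  have f1 : k * g⁻¹ * ι (el 56) * (k * g⁻¹)⁻¹ = ι w := by rw [ew]; group
  have f2 := cj_t (mul_mem hk.1 (inv_mem hg)) f1
  have f3 : k * g⁻¹ * (ι (el 56) * ι x) * (k * g⁻¹)⁻¹ = ι w * ι (el 42) := by
    rw [← conj_mul, f1, e, mul_right_inj]
    calc _ = k * ι (el 42) * k⁻¹ := by group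
      _ = _ := by rw [mem_cent1.1 hk.2, mul_inv_cancel_right]
  rw [← map_mul, ← map_mul] at f2 f3
  have : ∀ w : UT, w * el 24 = el 24 * w → w * el 42 = el 42 * w → zc w = true ∨
      tc (w * el 24) = true ∨ w * el 24 = 1 ∨ zc (w * el 42) = true := by decide +kernel
  rcases this w (cm h w1) (cm h w2) with r | r | r | r
  · exact ncj' h (by decide +kernel) r f1
  · exact ncj h (by decide +kernel) r f2
  · rw [r, map_one, conj_eq_one_iff] at f2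
    exact ne1 h (by decide +kernel) f2
  · exact ncj' h q r f3

theorem dec : ∀ g ∈ 𝒞₁ (ι (el 24)), ∃ o ∈ th (ι (el 24)), ∃ n ∈ 𝒞₁ (ι (el 24)), g = o * n ∧
    (n * ι (el 42) * n⁻¹ = ι (el 42) ∨ n * ι (el 42) * n⁻¹ = ι (el 42) * ι (el 24)) :=
  zs (sqq (by decide +kernel)) (sqq (by decide +kernel)) (syT h)
    ⟨⟨_, rfl⟩, cmm (by decide +kernel)⟩ (wcl h)

theorem O1_le : Op {2}ᶜ (𝒞₁ (ι (el 24)) ⊓ 𝒞₁ (ι (el 42))) ≤ th (ι (el 24)) := by
  have n1 : Op {2}ᶜ (𝒞₁ (ι (el 24)) ⊓ 𝒞₁ (ι (el 42))) ≤ 𝒩 (th (ι (el 24))) :=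
    ((Op_le _ _).trans inf_le_left).trans (th_nrm _).norm
  refine le_sup_right.trans (le_Op2 (N := th (ι (el 24)) ⊔ _)
    (((th_odd _).mul (odd_Op _)).of_dvd_nat (card_sup_dvd n1))
    ⟨sup_le (th_nrm _).le ((Op_le _ _).trans inf_le_left), fun g hg => ?_⟩)
  obtain ⟨o, ho, n, hn, rfl, e⟩ := dec h g hg
  refine mul_mem (le_norm _ (mem_sup_left ho)) (le_norm_sup (A := zpowers n)
    (zpowers_le.2 ((th_nrm _).norm hn)) (zpowers_le.2 (norm_le_norm_Op _ _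
      (mem_norm_of_cj_le ?_))) (mem_zpowers n))
  rw [cj_inf, cj_cent1, cj_cent1, mem_cent1.1 hn, mul_inv_cancel_right]
  rcases e with e | e <;> rw [e]
  refine fun c hc => mem_inf.2 ⟨hc.1, mem_cent1.2 ?_⟩
  have c1 := mem_cent1.1 hc.1
  have c2 := mem_cent1.1 hc.2
  rw [← mul_left_inj (ι (el 24)), mul_assoc, c2, mul_assoc, mul_assoc, c1]

variable (n0 : ι.range ≤ 𝒩 W) (n1 : s₁ ∈ 𝒩 W) (n2 : s₂ ∈ 𝒩 W) (n3 : s₃ ∈ 𝒩 W)
include n0 n1 n2 n3

theorem inv {x : G} (hx : x ∈ 𝒩 W) (x2 : x * x = 1) (x1 : x ≠ 1) :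
    ∃ m ∈ 𝒩 W, m * x * m⁻¹ = ι (el 32) ∨ m * x * m⁻¹ = ι (el 24) := by
  have : Fact (Nat.Prime 2) := ⟨Nat.prime_two⟩
  obtain ⟨c, hc, a, e⟩ := (h.syl.mono n0 le_top).exists_conj_mem hx ⟨1, by rw [pow_one, sq, x2]⟩
  have a2 : a * a = 1 := h.inj (by rw [map_mul, e, conj_mul, x2, map_one, mul_one, mul_inv_cancel])
  have a1 : a ≠ 1 := fun q => x1 (by rwa [q, map_one, eq_comm, conj_eq_one_iff] at e)
  rcases zt a a2 a1 with q | q
  · obtain ⟨m, hm, e2⟩ := ok_spec h n0 n1 n2 n3 _ _ _ (hz a q)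
    exact ⟨m * c, mul_mem hm hc, Or.inl (by rw [← e2, e]; group)⟩
  · obtain ⟨m, hm, e2⟩ := ok_spec h n0 n1 n2 n3 _ _ _ (ht a q)
    exact ⟨m * c, mul_mem hm hc, Or.inr (by rw [← e2, e]; group)⟩

omit h n0 n1 n2 n3 in
theorem th_cj {m x y : G} (hm : m ∈ 𝒩 W) (e : m * x * m⁻¹ = y) (l : th y ≤ W) : th x ≤ W := by
  rwa [← e, ← cj_th, cj_le_iff, cj_eq_of_mem_norm (inv_mem hm)] at l

omit h n0 n1 n2 n3 in
theorem cw_cj {m x y : G} (hm : m ∈ 𝒩 W) (e : m * x * m⁻¹ = y) (l : W ⊓ 𝒞₁ y ≤ th y) :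
    W ⊓ 𝒞₁ x ≤ th x := by
  rwa [← e, ← cj_th, ← cj_cent1, ← cj_eq_of_mem_norm hm, ← cj_inf, cj_le_cj_iff] at l

variable (lz : th (ι (el 32)) ≤ W)
include lz

theorem cz_le : 𝒞₁ (ι (el 32)) ≤ 𝒩 W := fun g hg => by
  obtain ⟨o, ho, n, hn, rfl⟩ := h.cz g hg
  rw [th_eq] at ho
  exact mul_mem (le_norm _ (lz ho)) (sup_le n0 (zpowers_le.2 n2) hn)

theorem ti (hu : u ∈ 𝒩 W) (k : IsConj (ι (el 32)) u) (hg : g⁻¹ * u * g ∈ 𝒩 W) : g ∈ 𝒩 W := by
  have z2 : ι (el 32) * ι (el 32) = 1 := sqq (by decide +kernel)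
  have l : ∀ v ∈ 𝒩 W, IsConj (ι (el 32)) v → ∃ m ∈ 𝒩 W, m * v * m⁻¹ = ι (el 32) := fun v hv k => by
    obtain ⟨c, e⟩ := isConj_iff.1 k
    obtain ⟨m, hm, q | q⟩ := inv h n0 n1 n2 n3 hv
      (by rw [← e, conj_mul, z2, mul_one, mul_inv_cancel])
      (by rw [← e, Ne, conj_eq_one_iff]; exact ne1 h (by decide +kernel))
    · exact ⟨m, hm, q⟩
    · exact absurd (k.trans (isConj_iff.2 ⟨m, q⟩)) h.nc
  obtain ⟨m, hm, e⟩ := l u hu k
  obtain ⟨m', hm', e'⟩ := l _ hg (k.trans (isConj_iff.2 ⟨g⁻¹, by rw [inv_inv]⟩))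
  have : m * g * m'⁻¹ ∈ 𝒩 W := cz_le h n0 n1 n2 n3 lz (mem_cent1.2 (by
    rw [← mul_inv_eq_iff_eq_mul]
    nth_rewrite 1 [← e']
    rw [← e]; group))
  rwa [mul_mem_cancel_right (inv_mem hm'), mul_mem_cancel_left hm] at this

theorem lzc (k : zc a = true) : th (ι a) ≤ W := by
  obtain ⟨m, hm, e⟩ := ok_spec h n0 n1 n2 n3 _ _ _ (hz a k)
  exact th_cj hm e lz

theorem ltc (k : tc a = true) : th (ι a) ≤ W := by
  obtain ⟨m, hm, e⟩ := ok_spec h n0 n1 n2 n3 _ _ _ (ht a k)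
  refine th_cj hm e (gen4 (x := ι (el 8)) (y := ι (el 32)) (sqq (by decide +kernel))
    (sqq (by decide +kernel)) (mem_cent1.1 (cmm (by decide +kernel))) (ne1 h (by decide +kernel))
    (ne1 h (by decide +kernel)) (nee h (by decide +kernel)) (th_odd _)
    ((th_nrm _).norm (cmm (by decide +kernel))) ((th_nrm _).norm (cmm (by decide +kernel))) ?_ ?_ ?_)
  rotate_left 2
  rw [← map_mul]
  all_goals exact (bal (solz h (by decide +kernel)) (sqq (by decide +kernel))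
    (cmm (by decide +kernel))).trans (lzc h n0 n1 n2 n3 lz (by decide +kernel))

variable (o : Odd ♯W)
include o

theorem cB : W ⊓ (𝒞₁ (ι (el 24)) ⊓ 𝒞₁ (ι (el 42))) ≤ th (ι (el 24)) := by
  have : Fact (Nat.Prime 2) := ⟨Nat.prime_two⟩
  refine le_trans ?_ (O1_le h)
  have nY : W ⊓ (𝒞₁ (ι (el 24)) ⊓ 𝒞₁ (ι (el 42))) ⊴ 𝒩 W ⊓ (𝒞₁ (ι (el 24)) ⊓ 𝒞₁ (ι (el 42))) :=
    ⟨inf_le_inf_right _ (le_norm W), le_norm_inf inf_le_left (inf_le_right.trans (le_norm _))⟩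
  by_cases q : 𝒞₁ (ι (el 24)) ⊓ 𝒞₁ (ι (el 42)) ≤ 𝒩 W
  · rw [inf_eq_right.2 q] at nY
    exact le_Op2 (odd_of_le o inf_le_left) nY
  have t2 : ι (el 24) * ι (el 24) = 1 := sqq (by decide +kernel)
  have y2 : ι (el 42) * ι (el 42) = 1 := sqq (by decide +kernel)
  have c : ι (el 24) * ι (el 42) = ι (el 42) * ι (el 24) := mem_cent1.1 (cmm (by decide +kernel))
  have el2 := four_elem t2 y2 c
  have mB : ∀ a, ι a ∈ four _ _ t2 y2 c → a = 1 ∨ a = el 24 ∨ a = el 42 ∨ a = el 24 * el 42 := by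
    rintro a (e | e | e | e)
    exacts [Or.inl (h.inj (e.trans (map_one ι).symm)), Or.inr (Or.inl (h.inj e)),
      Or.inr (Or.inr (Or.inl (h.inj e))), Or.inr (Or.inr (Or.inr (h.inj (e.trans (map_mul ι _ _).symm))))]
  have cB : four _ _ t2 y2 c ≤ 𝒞 (𝒞₁ (ι (el 24)) ⊓ 𝒞₁ (ι (el 42))) := by
    rintro _ (rfl | rfl | rfl | rfl)
    exacts [one_mem _, le_cent1_iff.1 inf_le_left, le_cent1_iff.1 inf_le_right,
      mul_mem (le_cent1_iff.1 inf_le_left) (le_cent1_iff.1 inf_le_right)]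
  have BM : four _ _ t2 y2 c ≤ 𝒩 W := by
    rintro _ (rfl | rfl | rfl | rfl)
    exacts [one_mem _, n0 ⟨_, rfl⟩, n0 ⟨_, rfl⟩, mul_mem (n0 ⟨_, rfl⟩) (n0 ⟨_, rfl⟩)]
  refine se_mod (B := four _ _ t2 y2 c) (x := ι (el 32)) (y := ι (el 8)) (le_inf (le_inf
    (el2.1.trans (cent_le_cent1 (Or.inr (Or.inl rfl))))
    (el2.1.trans (cent_le_cent1 (Or.inr (Or.inr (Or.inl rfl)))))) cB)
    (fun x => ⟨1, Subtype.ext (el2.2 x x.2)⟩) BM q
    ⟨n0 ⟨_, rfl⟩, cmm (by decide +kernel), cmm (by decide +kernel)⟩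
    ⟨cmm (by decide +kernel), cmm (by decide +kernel)⟩ (sqq (by decide +kernel))
    (sqq (by decide +kernel)) (mem_cent1.1 (cmm (by decide +kernel)))
    (fun e => absurd (mB _ e) (by decide +kernel)) (fun e => absurd (mB _ e) (by decide +kernel))
    (fun e => absurd (mB _ (by rwa [map_mul])) (by decide +kernel)) ?_ nY (odd_of_le o inf_le_left)
  intro g hg u hu u1 u2 k
  obtain ⟨d, hd, ⟨⟨w, e⟩, w1⟩, w2⟩ := (syA h).exists_conj_mem hu.2
    ⟨2, by rw [show 2 ^ 2 = 2 * 2 from rfl, pow_mul, sq u]; exact el2.2 _ u2⟩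
  rw [← e] at w1 w2
  have : ∀ w : UT, w * el 24 = el 24 * w → w * el 42 = el 42 * w → zc w = true ∨
      zc (w * el 24) = true ∨ w = 1 ∨ w = el 24 ∨ w = el 42 ∨ w = el 24 * el 42 := by decide +kernel
  have nB : ι w ∉ four _ _ t2 y2 c := fun l => u1 (by
    have : u = ι w := by
      rw [← mul_right_inj d, mem_cent.1 (cB l) d hd, e, inv_mul_cancel_right]
    rwa [this])
  rcases this w (cm h w1) (cm h w2) with r | r | r | r | r | r
  · exact ti h n0 n1 n2 n3 lz hu.1 ((cjz h r).trans (isConj_iff.2 ⟨d, e.symm⟩).symm) k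
  · refine ti h n0 n1 n2 n3 lz (u := u * ι (el 24)) (mul_mem hu.1 (n0 ⟨_, rfl⟩))
      ((cjz h r).trans (isConj_iff.2 ⟨d, ?_⟩).symm) ?_
    · rw [map_mul]; exact cj_t hd.1 e.symm
    · rw [← mul_assoc, mul_assoc, ← mem_cent1.1 hg.1, ← mul_assoc]
      exact mul_mem k (n0 ⟨_, rfl⟩)
  · exact absurd (by rw [r, map_one]; exact one_mem _) nB
  · exact absurd (by rw [r]; exact Or.inr (Or.inl rfl)) nB
  · exact absurd (by rw [r]; exact Or.inr (Or.inr (Or.inl rfl))) nB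
  · exact absurd (by rw [r, map_mul]; exact Or.inr (Or.inr (Or.inr rfl))) nB

theorem cT : W ⊓ 𝒞₁ (ι (el 24)) ≤ th (ι (el 24)) := by
  have t2 : ι (el 24) * ι (el 24) = 1 := sqq (by decide +kernel)
  have y2 : ι (el 42) * ι (el 42) = 1 := sqq (by decide +kernel)
  have yt : ι (el 42) ∈ 𝒞₁ (ι (el 24)) := cmm (by decide +kernel)
  have oY : Odd ♯(W ⊓ 𝒞₁ (ι (el 24))) := odd_of_le o inf_le_left
  have ny : zpowers (ι (el 42)) ≤ 𝒩 (W ⊓ 𝒞₁ (ι (el 24))) :=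
    le_norm_inf (zpowers_le.2 (n0 ⟨_, rfl⟩)) (le_norm_cent1 (zpowers_le.2 yt))
  rw [← (mkCA_p Nat.prime_two ny (sq_pg y2) oY.not_two_dvd_nat).comm_sup_cent, cent_zpowers,
    inf_assoc]
  refine sup_le (commutator_le.2 fun g hg a ha => ?_) (cB h n0 n1 n2 n3 lz o)
  rcases BS.R.mem_zp2 y2 ha with rfl | rfl
  · rw [commutatorElement_one_right]; exact one_mem _
  have k := comm_le_left ny (commutator_mem_commutator hg ha)
  obtain ⟨p, hp, n, hn, rfl, e⟩ := dec h g hg.2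
  have l : p * (ι (el 42) * p⁻¹ * (ι (el 42))⁻¹) ∈ th (ι (el 24)) :=
    mul_mem hp ((th_nrm _).conj_mem yt (inv_mem hp))
  have e0 : ⁅p * n, ι (el 42)⁆ = p * (n * ι (el 42) * n⁻¹) * p⁻¹ * (ι (el 42))⁻¹ := by
    rw [commutatorElement_def]; group
  rcases e with e | e <;> rw [e0, e] at k ⊢
  · simpa only [mul_assoc] using l
  · exfalso
    have n4 : W ⊓ 𝒞₁ (ι (el 24)) ≤ 𝒩 (th (ι (el 24))) := inf_le_right.trans (th_nrm _).norm
    have o2 := ((th_odd _).mul oY).of_dvd_nat (card_sup_dvd n4)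
    have m := mul_mem (inv_mem (mem_sup_left (T := W ⊓ 𝒞₁ (ι (el 24))) l)) (mem_sup_right k)
    have c1 := mem_cent1.1 (inv_mem ((th_nrm _).le hp))
    have c2 := mem_cent1.1 (inv_mem yt)
    have c3 : p * (ι (el 42) * ι (el 24)) * p⁻¹ * (ι (el 42))⁻¹ =
        p * (ι (el 42) * p⁻¹ * (ι (el 42))⁻¹) * ι (el 24) :=
      calc _ = p * ι (el 42) * (ι (el 24) * p⁻¹) * (ι (el 42))⁻¹ := by simp only [mul_assoc]
        _ = p * ι (el 42) * p⁻¹ * (ι (el 24) * (ι (el 42))⁻¹) := by rw [← c1]; simp only [mul_assoc]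
        _ = _ := by rw [← c2]; simp only [mul_assoc]
    rw [c3, inv_mul_cancel_left] at m
    exact o2.not_two_dvd_nat (H9.dvd_card_of_mem (hp := ⟨Nat.prime_two⟩) m
      (ne1 h (by decide +kernel)) (by rw [sq, t2]))

theorem ct_le : 𝒞₁ (ι (el 24)) ≤ 𝒩 W := fun g hg => by
  have k : ∀ a, tc a = true → W ⊓ 𝒞₁ (ι a) ≤ th (ι a) := fun a k => by
    obtain ⟨m, hm, e⟩ := ok_spec h n0 n1 n2 n3 _ _ _ (ht a k)
    exact cw_cj hm e (cT h n0 n1 n2 n3 lz o)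
  obtain ⟨p, hp, n, hn, rfl, e⟩ := dec h g hg
  refine mul_mem (le_norm _ (ltc h n0 n1 n2 n3 lz (by decide +kernel) hp))
    (nrm_of (x := ι (el 24)) (y := ι (el 42)) (fun K k1 k2 k3 => gen4 (sqq (by decide +kernel))
      (sqq (by decide +kernel)) (mem_cent1.1 (cmm (by decide +kernel))) (ne1 h (by decide +kernel))
      (ne1 h (by decide +kernel)) (nee h (by decide +kernel)) o (n0 ⟨_, rfl⟩) (n0 ⟨_, rfl⟩)
      ((k _ (by decide +kernel)).trans k1) ((k _ (by decide +kernel)).trans k2) (by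
        rw [← map_mul] at k3 ⊢
        exact (k _ (by decide +kernel)).trans k3)) ?_ ?_ ?_)
  · rw [mem_cent1.1 hn, mul_inv_cancel_right]
    exact ltc h n0 n1 n2 n3 lz (by decide +kernel)
  · rcases e with e | e <;> rw [e]
    · exact ltc h n0 n1 n2 n3 lz (by decide +kernel)
    · rw [← map_mul]; exact ltc h n0 n1 n2 n3 lz (by decide +kernel)
  · rw [mem_cent1.1 hn, mul_inv_cancel_right]
    rcases e with e | e <;> rw [e]
    · rw [← map_mul]; exact ltc h n0 n1 n2 n3 lz (by decide +kernel)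
    · rw [← map_mul, ← map_mul]; exact ltc h n0 n1 n2 n3 lz (by decide +kernel)

end

end Cfsg.A8.V

namespace Cfsg.A8

open Subgroup Cfsg.FT

theorem taskW8 : TaskW8 := by
  intro G _ _ ι s₁ s₂ s₃ h
  obtain ⟨W, o, n0, n1, n2, n3, lz⟩ := V.exW h
  have top := fin (V.sqq (by decide +kernel)) (V.sqq (by decide +kernel))
    (V.ne1 h (by decide +kernel)) h.nc (V.cz_le h n0 n1 n2 n3 lz) (V.ct_le h n0 n1 n2 n3 lz o)
    fun x hx => V.inv h n0 n1 n2 n3 hx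
  have : W.Normal := normalizer_eq_top_iff.1 top
  have b : W = ⊥ := eq_bot_of_le h.odd (H7.le_pPrimeCore (Nat.coprime_two_right.2 o))
  refine ⟨(th_eq _).trans (eq_bot_of_le b lz), fun g hg => ?_⟩
  obtain ⟨p, hp, n, -, rfl, e⟩ := V.dec h g hg
  rw [eq_one_of_mem b (V.ltc h n0 n1 n2 n3 lz (by decide +kernel) hp), one_mul]
  rwa [V.mm (c := el 50) (by decide +kernel)] at e

end Cfsg.A8
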