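import Cfsg.Agent.A8.E0
import Cfsg.Agent.A8.V2
import Cfsg.Agent.H5.A5Rec

/-! Tasks E8B and E8F. -/

set_option autoImplicit false
set_option maxRecDepth 100000
set_option linter.unusedSectionVars false

namespace Cfsg.A8

open Subgroup Cfsg.H5 Cfsg.L0 Cfsg.H8 Cfsg.FT

theorem taskE8F : TaskE8F := by
  intro G _ _ ι r₁ r₂ r₃ Φ M E hM ht
  have h := E.toT8
  have n0 : ι.range ≤ M := by
    rintro _ ⟨x, rfl⟩
    exact hM ⟨_, (E.fj x).symm⟩
  have n1 : r₁ ∈ M := hM ⟨_, E.f1.symm⟩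
  have n2 : r₂ ∈ M := hM ⟨_, E.f2.symm⟩
  have n3 : r₃ ∈ M := hM ⟨_, E.f3.symm⟩
  refine fin (V.sqq (by decide +kernel)) (V.sqq (by decide +kernel)) (V.ne1 h (by decide +kernel))
    h.nc (E.czf.trans hM) ht fun x hx x2 x1 => ?_
  have : Fact (Nat.Prime 2) := ⟨Nat.prime_two⟩
  obtain ⟨c, hc, a, e⟩ := (h.syl.mono n0 le_top).exists_conj_mem hx ⟨1, by rw [pow_one, sq, x2]⟩
  have a2 : a * a = 1 := h.inj (by rw [map_mul, e, conj_mul, x2, map_one, mul_one, mul_inv_cancel])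
  have a1 : a ≠ 1 := fun q => x1 (by rwa [q, map_one, eq_comm, conj_eq_one_iff] at e)
  rcases V.zt a a2 a1 with q | q
  · obtain ⟨m, hm, e2⟩ := V.ok_spec h n0 n1 n2 n3 _ _ _ (V.hz a q)
    exact ⟨m * c, mul_mem hm hc, Or.inl (by rw [← e2, e]; group)⟩
  · obtain ⟨m, hm, e2⟩ := V.ok_spec h n0 n1 n2 n3 _ _ _ (V.ht a q)
    exact ⟨m * c, mul_mem hm hc, Or.inr (by rw [← e2, e]; group)⟩

namespace EB

def b1 (i : Fin 4) : Al 8 := ![1, dt 0 1 2 3, dt 0 2 1 3, dt 0 1 2 3 * dt 0 2 1 3] i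

def b2 (i : Fin 4) : Al 8 := ![1, dt 4 5 6 7, dt 4 6 4 5 * dt 4 5 6 7 * (dt 4 6 4 5)⁻¹,
  (dt 4 6 4 5)⁻¹ * dt 4 5 6 7 * dt 4 6 4 5] i

def ff (i j k : Fin 8) : Fin 8 → Fin 8 :=
  ![i, (b1 1).1 i, (b1 2).1 i, (b1 3).1 i, j, (b2 1).1 j, k, (b2 1).1 k]

theorem key : ∀ i j k : Fin 8, (b2 1).1 i = i → (b1 1).1 j = j → (b1 1).1 k = k → j ≠ k →
    j ≠ (b2 1).1 k → ∃ u w : Fin 4, (∀ n, (b1 u * b2 w).1 n = ff i j k n) ∨
      ∀ n, (b1 u * b2 w).1 (Equiv.swap 6 7 n) = ff i j k n := by decide +kernel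

theorem cenA (p : Al 8) (h1 : p * b1 1 = b1 1 * p) (h2 : p * b1 2 = b1 2 * p)
    (h3 : p * b2 1 = b2 1 * p) : ∃ u w : Fin 4, p = b1 u * b2 w := by
  have c : ∀ {a : Al 8}, p * a = a * p → ∀ n m, a.1 n = m → p.1 m = a.1 (p.1 n) := fun e n m q => by
    rw [← q]
    exact congrArg (fun s : Al 8 => s.1 n) e
  have h4 : p * b1 3 = b1 3 * p := by
    change p * (b1 1 * b1 2) = b1 1 * b1 2 * p
    rw [← mul_assoc, h1, mul_assoc, h2, mul_assoc]
  have e : ∀ n, p.1 n = ff (p.1 0) (p.1 4) (p.1 6) n := by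
    intro n
    fin_cases n
    exacts [rfl, c h1 0 1 (by decide), c h2 0 2 (by decide), c h4 0 3 (by decide), rfl,
      c h3 4 5 (by decide), rfl, c h3 6 7 (by decide)]
  obtain ⟨u, w, k | k⟩ := key (p.1 0) (p.1 4) (p.1 6) (c h3 0 0 (by decide)).symm
    (c h1 4 4 (by decide)).symm (c h1 6 6 (by decide)).symm
    (fun q => absurd (p.1.injective q) (by decide))
    (fun q => absurd (p.1.injective (q.trans (c h3 6 7 (by decide)).symm)) (by decide))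
  · exact ⟨u, w, Subtype.ext (Equiv.ext fun n => (e n).trans (k n).symm)⟩
  · have q : p.1 = (b1 u * b2 w).1 * Equiv.swap 6 7 := Equiv.ext fun n => (e n).trans (k n).symm
    have s1 := Equiv.Perm.mem_alternatingGroup.1 p.2
    rw [q, map_mul, Equiv.Perm.mem_alternatingGroup.1 (b1 u * b2 w).2,
      Equiv.Perm.sign_swap (by decide)] at s1
    exact absurd s1 (by decide)

theorem cls : ∀ u w : Fin 4, u ≠ 0 → b1 u * b1 u = 1 ∧ b1 u * b2 w = b2 w * b1 u ∧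
    ∃ a : UT, V.zc a = true ∧ jA a = b2 1 * b1 u ∧
      (w = 0 ∨ ∃ b : UT, V.tc b = true ∧ jA b = b2 w) := by
  have k1 : ∀ u : Fin 4, u ≠ 0 → ∃ n ∈ [32, 18, 10], V.zc (el n) = true ∧
      jA (el n) = b2 1 * b1 u := by decide +kernel
  have k2 : ∀ w : Fin 4, w = 0 ∨ ∃ n ∈ [56, 34, 26], V.tc (el n) = true ∧ jA (el n) = b2 w := by
    decide +kernel
  have k3 : ∀ u w : Fin 4, b1 u * b1 u = 1 ∧ b1 u * b2 w = b2 w * b1 u := by decide +kernel
  intro u w hu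
  obtain ⟨n, -, a1, a2⟩ := k1 u hu
  refine ⟨(k3 u w).1, (k3 u w).2, _, a1, a2, ?_⟩
  rcases k2 w with q | ⟨m, -, q⟩
  exacts [Or.inl q, Or.inr ⟨_, q⟩]

end EB

open EB in
theorem taskE8B : TaskE8B := by
  intro G _ _ ι r₁ r₂ r₃ Φ E ht
  have h := E.toT8
  obtain ⟨j24, j42, j50, j56, -, -, j5, j32⟩ := jA_val
  have e24 : ι (el 24) = Φ (b1 1) := by rw [E.fj, j24]; rfl
  have e42 : ι (el 42) = Φ (b1 2) := by rw [E.fj, j42]; rfl
  have e32 : ι (el 32) = Φ (b1 1) * Φ (b2 1) := by rw [E.fj, j32, map_mul]; rfl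
  obtain ⟨χ₀, hv, hx⟩ := B0.exists_hom (v := (dt 4 5 6 7 : Al 8)) (x := dt 4 6 4 5)
    ⟨by decide +kernel, by decide +kernel, by decide +kernel⟩
  have hvv : ∀ w, χ₀ (B0.vv w) = b2 w := by
    intro w
    fin_cases w
    · exact map_one _
    · exact hv
    · change χ₀ (B0.x * B0.v * B0.x⁻¹) = _
      rw [map_mul, map_mul, map_inv, hv, hx]; rfl
    · change χ₀ (B0.x⁻¹ * B0.v * B0.x) = _
      rw [map_mul, map_mul, map_inv, hv, hx]; rfl
  have c0 : ∀ u b, b1 u * χ₀ b = χ₀ b * b1 u := fun u b => by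
    have : (𝒞₁ (b1 u)).comap χ₀ = ⊤ := B0.eq_top _
      (by rw [mem_comap, hv, mem_cent1]; revert u; decide +kernel)
      (by rw [mem_comap, hx, mem_cent1]; revert u; decide +kernel)
    exact (mem_cent1.1 (show b ∈ (𝒞₁ (b1 u)).comap χ₀ from this ▸ mem_top b)).symm
  let H : Subgroup G := 𝒞₁ (Φ (b1 1)) ⊓ 𝒞₁ (Φ (b1 2))
  have cH : ∀ u, ∀ g ∈ H, g * Φ (b1 u) = Φ (b1 u) * g := by
    intro u g hg
    fin_cases u
    · change g * Φ 1 = Φ 1 * g
      rw [map_one, mul_one, one_mul]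
    · exact mem_cent1.1 hg.1
    · exact mem_cent1.1 hg.2
    · change g * Φ (b1 1 * b1 2) = Φ (b1 1 * b1 2) * g
      rw [map_mul, ← mul_assoc, mem_cent1.1 hg.1, mul_assoc, mem_cent1.1 hg.2, mul_assoc]
  have bH : ∀ u, Φ (b1 u) ∈ H := fun u => by
    have : ∀ u v, b1 u * b1 v = b1 v * b1 u := by decide +kernel
    exact ⟨mem_cent1.2 (by rw [← map_mul, this, map_mul]),
      mem_cent1.2 (by rw [← map_mul, this, map_mul])⟩
  let χ : B0 →* H := (Φ.comp χ₀).codRestrict H fun b =>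
    ⟨mem_cent1.2 (by rw [MonoidHom.comp_apply, ← map_mul, ← c0, map_mul]),
      mem_cent1.2 (by rw [MonoidHom.comp_apply, ← map_mul, ← c0, map_mul])⟩
  have hχ : ∀ b, (χ b : G) = Φ (χ₀ b) := fun _ => rfl
  let Z : Subgroup H :=
    { carrier := {g | ∃ u, (g : G) = Φ (b1 u)}
      one_mem' := ⟨0, (map_one Φ).symm⟩
      mul_mem' := by
        have : ∀ u v, ∃ w, b1 u * b1 v = b1 w := by decide +kernel
        rintro a b ⟨u, hu⟩ ⟨v, hv⟩
        obtain ⟨w, hw⟩ := this u v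
        exact ⟨w, by rw [coe_mul, hu, hv, ← map_mul, hw]⟩
      inv_mem' := by
        have : ∀ u, (b1 u)⁻¹ = b1 u := by decide +kernel
        rintro a ⟨u, hu⟩
        exact ⟨u, by rw [coe_inv, hu, ← map_inv, this]⟩ }
  have pZ : IsPGroup 2 Z := by
    have : ∀ u, b1 u ^ 2 ^ 1 = 1 := by decide +kernel
    rintro ⟨a, u, hu⟩
    refine ⟨1, Subtype.ext (Subtype.ext ?_)⟩
    change (a : G) ^ 2 ^ 1 = 1
    rw [hu, ← map_pow, this, map_one]
  have cen : ∀ g : H, g * χ B0.v = χ B0.v * g → ∃ u w, (g : G) = Φ (b1 u * b2 w) := by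
    intro g hg
    have k : (g : G) * Φ (b2 1) = Φ (b2 1) * g := by
      have := congrArg Subtype.val hg
      rwa [coe_mul, coe_mul, hχ, hv] at this
    obtain ⟨p, hp⟩ := E.czf (show (g : G) ∈ 𝒞₁ (ι (el 32)) from mem_cent1.2 (by
      rw [e32, ← mul_assoc, cH 1 g g.2, mul_assoc, k, mul_assoc]))
    obtain ⟨u, w, e⟩ := cenA p (E.finj (by rw [map_mul, map_mul, hp, cH 1 g g.2]))
      (E.finj (by rw [map_mul, map_mul, hp, cH 2 g g.2])) (E.finj (by rw [map_mul, map_mul, hp, k]))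
    exact ⟨u, w, by rw [← hp, e]⟩
  have R : RecHyp Z χ := by
    refine ⟨B0.injective fun q => ?_, ?_, ?_, fun g hg => ?_, fun s hs hc => ?_, fun q => ?_,
      Or.inr pZ⟩
    · have := congrArg Subtype.val q
      rw [hχ, hv] at this
      exact absurd (E.finj (this.trans (map_one Φ).symm)) (by decide +kernel)
    · rintro ζ ⟨u, hu⟩ b
      exact Subtype.ext (by rw [coe_mul, coe_mul, hu, cH u _ (χ b).2])
    · rintro ζ ⟨u, hu⟩ b -
      exact Subtype.ext (by rw [coe_mul, coe_mul, hu, cH u _ b.2])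
    · obtain ⟨u, w, e⟩ := cen g hg
      have k : ∀ w, B0.vv w * B0.vv w = 1 := by decide +kernel
      refine ⟨⟨_, bH u⟩, ⟨u, rfl⟩, B0.vv w, k w, Subtype.ext ?_⟩
      rw [e, coe_mul, hχ, hvv, map_mul]
    · obtain ⟨u, w, e⟩ := cen s hc
      by_cases hu : u = 0
      · refine ⟨B0.vv w, Subtype.ext ?_⟩
        rw [e, hχ, hvv, hu]
        exact congrArg Φ (one_mul _)
      exfalso
      obtain ⟨k1, k2, a, ha, ja, hw⟩ := cls u w hu
      obtain ⟨g, hg⟩ := isConj_iff.1 hs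
      have k3 : (g : G) * ι a * (g : G)⁻¹ = Φ (b2 w) := by
        have := congrArg Subtype.val hg
        rw [coe_mul, coe_mul, coe_inv, hχ, hv, e] at this
        rw [E.fj, ja, map_mul, ← mul_assoc, mul_assoc _ (Φ (b1 u)), ← cH u _ (inv_mem g.2),
          ← mul_assoc]
        change (g : G) * Φ (dt 4 5 6 7) * (g : G)⁻¹ * _ = _
        rw [this, ← map_mul, k2, mul_assoc, k1, mul_one]
      rcases hw with rfl | ⟨b, hb, jb⟩
      · rw [show b2 0 = 1 from rfl, map_one, conj_eq_one_iff] at k3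
        exact V.ne1 h (by rintro rfl; exact absurd ha (by decide +kernel)) k3
      · exact V.ncj h ha hb (k3.trans (by rw [E.fj, jb]))
    · have : Fact (Nat.Prime 2) := ⟨Nat.prime_two⟩
      obtain ⟨n, hn⟩ := IsPGroup.iff_card.1 pZ
      rw [hn] at q
      exact absurd (Nat.prime_three.dvd_of_dvd_pow q) (by norm_num)
  rcases R.main with k | ⟨ψ, pi, pw, pt, pc, pa⟩
  · have l : H ≤ Φ.range := fun g hg => by
      obtain ⟨ζ, ⟨u, hu⟩, b, e⟩ := k ⟨g, hg⟩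
      have := congrArg Subtype.val e
      rw [coe_mul, hu, hχ, ← map_mul] at this
      exact ⟨_, this.symm⟩
    refine Or.inl fun g hg => ?_
    rcases ht g hg with q | q
    · exact l ⟨e24 ▸ hg, e42 ▸ mem_cent1.2 (mul_inv_eq_iff_eq_mul.1 q)⟩
    · have m5 : ι (el 5) ∈ Φ.range := ⟨_, (E.fj _).symm⟩
      have q5 : ι (el 5) * ι (el 42) * (ι (el 5))⁻¹ = ι (el 50) := by
        rw [← map_inv, ← map_mul, ← map_mul]
        exact congrArg ι (by decide +kernel)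
      have c5 : ι (el 5) ∈ 𝒞₁ (ι (el 24)) := V.cmm (by decide +kernel)
      have c6 : (ι (el 5))⁻¹ * g ∈ 𝒞₁ (ι (el 24)) := mul_mem (inv_mem c5) hg
      have : (ι (el 5))⁻¹ * g ∈ H := ⟨e24 ▸ c6,
        e42 ▸ mem_cent1.2 (by
          rw [mul_assoc, mul_inv_eq_iff_eq_mul.1 q, ← q5]; group)⟩
      simpa using mul_mem m5 (l this)
  · refine Or.inr ⟨H.subtype.comp ψ, H.subtype_injective.comp pi, ?_, ?_, fun s => ?_, fun s => ?_,
      fun g g1 g2 => ?_⟩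
    · rw [MonoidHom.comp_apply, pw, coe_subtype, hχ, hv]
    · rw [MonoidHom.comp_apply, pt, coe_subtype, hχ, hx]
    · exact (cH 1 _ (ψ s).2).symm
    · exact (cH 2 _ (ψ s).2).symm
    · obtain ⟨ζ, ⟨u, hu⟩, s, e⟩ := pa ⟨g, mem_cent1.2 g1.symm, mem_cent1.2 g2.symm⟩
      have := congrArg Subtype.val e
      rw [coe_mul, hu] at this
      have k : ∀ u, ∃ i j : Fin 2, b1 u = dt 0 1 2 3 ^ i.val * dt 0 2 1 3 ^ j.val := by
        decide +kernel
      obtain ⟨i, j, k⟩ := k u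
      exact ⟨i, j, s, k ▸ this⟩

end Cfsg.A8
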