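import Cfsg.Agent.A8.E0
import Cfsg.Agent.H6.HNR.Carm

/-! Part C of task E8: the alternating group of degree nine. -/

set_option autoImplicit false
set_option maxRecDepth 100000

namespace Cfsg.A8

open Subgroup Cfsg.H5 Cfsg.FT Cfsg.H8
open Cfsg.H6 (gen evL Lab dvChk unp UB map_gen evL_mem_gen evL_singleton gen_le)
open Cfsg.H6.Carm (L mem_L step)

namespace EC

/-- The three-cycles. -/
def cy (n x : ℕ) : Al (n + 1) :=
  ⟨Equiv.swap (Fin.ofNat _ n) (Fin.ofNat _ (x - 1)) * Equiv.swap (Fin.ofNat _ (n - 1)) (Fin.ofNat _ (x - 1)) *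
    (Equiv.swap (Fin.ofNat _ n) (Fin.ofNat _ (x - 1)) * Equiv.swap (Fin.ofNat _ (n - 1)) (Fin.ofNat _ (x - 1))), by
    rw [Equiv.Perm.mem_alternatingGroup, map_mul]; exact Int.units_mul_self _⟩

/-- The table of the three-cycles. -/
def tb (n x p : ℕ) : ℕ :=
  if p = x - 1 then n - 2 else if p = n - 2 then n - 1 else if p = n - 1 then x - 1 else p

theorem lab8 : Lab (alternatingGroup (Fin 8)).subtype (cy 7) (Fin.ofNat 8) (tb 8) 8 7 :=
  ⟨fun x h1 h2 => by interval_cases x <;> decide +kernel, by decide +kernel⟩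

theorem v8_1 : dvChk (tb 8) 8 7 0 [[1]] (L 0) [0, 6, 7] (unp 2 (nat_lit 0x60000000000)) = true := by
  decide +kernel

theorem v8_2 : dvChk (tb 8) 8 7 1 [[2]] (L 1) [0, 1, 6, 7] (unp 3 (nat_lit 0x7010000060000000100)) = true := by
  decide +kernel

theorem v8_3 : dvChk (tb 8) 8 7 2 [[3]] (L 2) [0, 1, 2, 6, 7] (unp 4 (nat_lit 0x702000007010000060000000200)) = true := by
  decide +kernel

theorem v8_4 : dvChk (tb 8) 8 7 3 [[4]] (L 3) [0, 1, 2, 3, 6, 7] (unp 5 (nat_lit 0x70300000702000007010000060000000300)) = true := by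
  decide +kernel

theorem v8_5 : dvChk (tb 8) 8 7 4 [[5]] (L 4) [0, 1, 2, 3, 4, 6, 7] (unp 6 (nat_lit 0x7040000070300000702000007010000060000000400)) = true := by
  decide +kernel

theorem v8_6 : dvChk (tb 8) 8 7 5 [[6]] (L 5) [0, 1, 2, 3, 4, 5, 6, 7] (unp 7 (nat_lit 0x705000007040000070300000702000007010000060000000500)) = true := by
  decide +kernel

theorem card8 : Nat.card (Al 8) = 20160 := by
  rw [nat_card_alternatingGroup, Nat.card_fin]; rfl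

theorem top8 : gen (cy 7) (L 6) = ⊤ :=
  Subgroup.eq_top_of_le_card _ (card8 ▸ Nat.le_of_dvd Nat.card_pos
    (Dvd.dvd.trans (by decide +kernel) (lab8.dvd v8_6 (lab8.dvd v8_5 (lab8.dvd v8_4 (lab8.dvd v8_3 (lab8.dvd v8_2 (lab8.dvd v8_1 (one_dvd _)))))))))

theorem lab9 : Lab (alternatingGroup (Fin 9)).subtype (cy 8) (Fin.ofNat 9) (tb 9) 9 8 :=
  ⟨fun x h1 h2 => by interval_cases x <;> decide +kernel, by decide +kernel⟩

theorem v9_1 : dvChk (tb 9) 9 8 0 [[1]] (L 0) [0, 7, 8] (unp 2 (nat_lit 0x70000000000)) = true := by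
  decide +kernel

theorem v9_2 : dvChk (tb 9) 9 8 1 [[2]] (L 1) [0, 1, 7, 8] (unp 3 (nat_lit 0x8010000070000000100)) = true := by
  decide +kernel

theorem v9_3 : dvChk (tb 9) 9 8 2 [[3]] (L 2) [0, 1, 2, 7, 8] (unp 4 (nat_lit 0x802000008010000070000000200)) = true := by
  decide +kernel

theorem v9_4 : dvChk (tb 9) 9 8 3 [[4]] (L 3) [0, 1, 2, 3, 7, 8] (unp 5 (nat_lit 0x80300000802000008010000070000000300)) = true := by
  decide +kernel

theorem v9_5 : dvChk (tb 9) 9 8 4 [[5]] (L 4) [0, 1, 2, 3, 4, 7, 8] (unp 6 (nat_lit 0x8040000080300000802000008010000070000000400)) = true := by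
  decide +kernel

theorem v9_6 : dvChk (tb 9) 9 8 5 [[6]] (L 5) [0, 1, 2, 3, 4, 5, 7, 8] (unp 7 (nat_lit 0x805000008040000080300000802000008010000070000000500)) = true := by
  decide +kernel

theorem v9_7 : dvChk (tb 9) 9 8 6 [[7]] (L 6) [0, 1, 2, 3, 4, 5, 6, 7, 8] (unp 8 (nat_lit 0x80600000805000008040000080300000802000008010000070000000600)) = true := by
  decide +kernel

theorem card9 : Nat.card (Al 9) = 181440 := by
  rw [nat_card_alternatingGroup, Nat.card_fin]; rfl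

theorem top9 : gen (cy 8) (L 7) = ⊤ :=
  Subgroup.eq_top_of_le_card _ (card9 ▸ Nat.le_of_dvd Nat.card_pos
    (Dvd.dvd.trans (by decide +kernel) (lab9.dvd v9_7 (lab9.dvd v9_6 (lab9.dvd v9_5 (lab9.dvd v9_4 (lab9.dvd v9_3 (lab9.dvd v9_2 (lab9.dvd v9_1 (one_dvd _))))))))))

variable {G : Type*} [Group G]

theorem exists_alt9 (x : ℕ → G) (h : ∀ i < 7, x (i + 1) ^ 3 = 1 ∧
    ∀ j < i, (x (i + 1) * x (j + 1)) ^ 2 = 1) (h1 : x 1 ≠ 1) :
    ∃ Ψ : Al 9 →* G, Function.Injective Ψ ∧ ∀ i < 7, x (i + 1) ∈ Ψ.range := by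
  let y : ℕ → G × Al 9 := fun i => (x i, cy 8 i)
  have hc : ∀ i < 7, cy 8 (i + 1) ^ 3 = 1 ∧ ∀ j < i, (cy 8 (i + 1) * cy 8 (j + 1)) ^ 2 = 1 := by
    decide +kernel
  have ub : ∀ n ≤ 7, UB (gen y (L n)) ((n + 2).factorial / 2) := fun n => by
    induction n with
    | zero => exact fun _ => UB.bot
    | succ n ih =>
      intro hn
      have := (ih (by omega)).cover (step y n
        (fun i hi => Prod.ext (h i (by omega)).1 (hc i (by omega)).1)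
        fun i hi j hj => Prod.ext ((h i (by omega)).2 j hj) ((hc i (by omega)).2 j hj))
      refine ⟨this.1, this.2.trans (le_of_eq ?_)⟩
      have : n < 7 := hn
      interval_cases n <;> rfl
  obtain ⟨hf, hb⟩ := ub 7 le_rfl
  let s := (MonoidHom.snd G _).comp (gen y (L 7)).subtype
  have sj : Function.Surjective s := fun a => by
    have : a ∈ (gen y (L 7)).map (MonoidHom.snd G _) := by
      rw [map_gen]; exact top9 ▸ Subgroup.mem_top a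
    obtain ⟨b, hb, e⟩ := this
    exact ⟨⟨b, hb⟩, e⟩
  let e := MulEquiv.ofBijective s (sj.bijective_of_nat_card_le (card9 ▸ hb))
  have := alternatingGroup.isSimpleGroup (α := Fin 9) (by simp)
  have := e.isSimpleGroup
  let f := (MonoidHom.fst G _).comp (gen y (L 7)).subtype
  have m : ∀ i < 7, evL y [i + 1] ∈ gen y (L 7) := fun i hi =>
    evL_mem_gen y (mem_L.mpr ⟨i, hi, rfl⟩)
  have fi : Function.Injective f := H6.injective_of_simple f (x := ⟨evL y [1], m 0 (by omega)⟩) (by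
      show (evL y [1]).1 ≠ 1
      rwa [evL_singleton])
  refine ⟨f.comp e.symm.toMonoidHom, fi.comp e.symm.injective, fun i hi => ⟨e ⟨_, m i hi⟩, ?_⟩⟩
  change f (e.symm (e _)) = _
  rw [e.symm_apply_apply]
  show (evL y [i + 1]).1 = _
  rw [evL_singleton]

variable {Φ : Al 8 →* G} {ψ : A0 →* G}

theorem ord3 (F : F5 Φ ψ) {g : G} (h1 : Φ (dt 0 1 2 3) * g = g * Φ (dt 0 1 2 3))
    (h2 : Φ (dt 0 2 1 3) * g = g * Φ (dt 0 2 1 3)) (h3 : g ^ 3 = 1) : ∃ s, g = ψ s ∧ s ^ 3 = 1 := by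
  obtain ⟨i, j, s, e⟩ := F.all g h1 h2
  have c : ∀ s, Commute (Φ (dt 0 1 2 3 ^ i * dt 0 2 1 3 ^ j)) (ψ s) := fun s => by
    rw [map_mul, map_pow, map_pow]
    exact (Commute.pow_left (F.c1 s) i).mul_left (Commute.pow_left (F.c2 s) j)
  have b2 : Φ (dt 0 1 2 3 ^ i * dt 0 2 1 3 ^ j) ^ 2 = 1 := by
    have k : Commute (dt 0 1 2 3 : Al 8) (dt 0 2 1 3) := by
      unfold Commute SemiconjBy; decide +kernel
    have k1 : (dt 0 1 2 3 : Al 8) ^ 2 = 1 := by decide +kernel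
    have k2 : (dt 0 2 1 3 : Al 8) ^ 2 = 1 := by decide +kernel
    rw [← map_pow, (k.pow_pow i j).mul_pow, ← pow_mul, ← pow_mul, mul_comm i, mul_comm j, pow_mul,
      pow_mul, k1, k2, one_pow, one_pow, one_mul, map_one]
  generalize Φ (dt 0 1 2 3 ^ i * dt 0 2 1 3 ^ j) = b at e c b2
  rw [e, (c s).mul_pow, pow_succ, b2, one_mul, ← map_pow, mul_eq_one_iff_eq_inv, ← map_inv] at h3
  have z : ∀ s : A0, s * A0.w = A0.w * s → s * A0.t = A0.t * s → s = 1 := by decide +kernel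
  have k : (s ^ 3)⁻¹ = 1 := z _ (F.pinj (by rw [map_mul, map_mul, ← h3]; exact c _))
    (F.pinj (by rw [map_mul, map_mul, ← h3]; exact c _))
  exact ⟨s, by rw [e, h3, k, map_one, one_mul], inv_eq_one.mp k⟩

theorem cjc {x y g : G} (h : x * g = g * x) (k : G) (e : k * x * k⁻¹ = y) :
    y * (k * g * k⁻¹) = k * g * k⁻¹ * y := by
  rw [← e]
  calc _ = k * (x * g) * k⁻¹ := by group
    _ = _ := by rw [h]; group

theorem mc {x y g : G} (h : x * g = g * x) (k : y * g = g * y) : x * y * g = g * (x * y) :=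
  (Commute.mul_left h k).eq

theorem cjP (Φ : Al 8 →* G) {k x y : Al 8} (e : k * x * k⁻¹ = y) : Φ k * Φ x * (Φ k)⁻¹ = Φ y := by
  rw [← e, map_mul, map_mul, map_inv]

theorem tau (F : F5 Φ ψ) : Φ (dt 0 1 4 5) * ψ (A0.u * A0.w) = ψ (A0.u * A0.w) * Φ (dt 0 1 4 5) := by
  have h3 : ψ (A0.u * A0.w) ^ 3 = 1 := by
    rw [← map_pow, A0.rel5.uv, map_one]
  obtain ⟨s, e, -⟩ := ord3 F (g := Φ (dt 0 1 4 5) * ψ (A0.u * A0.w) * (Φ (dt 0 1 4 5))⁻¹)
    (cjc (F.c1 _) _ (cjP Φ (by decide +kernel)))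
    (cjc (mc (F.c1 _) (F.c2 _)) _ (by rw [← map_mul]; exact cjP Φ (by decide +kernel)))
    (by rw [conj_pow, h3]; group)
  have cw : Φ (dt 0 1 4 5) * ψ A0.w * (Φ (dt 0 1 4 5))⁻¹ = ψ A0.w := by
    rw [F.pw]; exact cjP Φ (by decide +kernel)
  have ct : Φ (dt 0 1 4 5) * ψ A0.t⁻¹ * (Φ (dt 0 1 4 5))⁻¹ = ψ A0.t := by
    rw [map_inv, F.pt, ← map_inv]; exact cjP Φ (by decide +kernel)
  have z : ∀ s : A0, s ^ 3 = 1 → (s * A0.w) ^ 2 = 1 → (s * A0.w * A0.t) ^ 2 = 1 →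
      s = A0.u * A0.w := by decide +kernel
  have k : ∀ {p q : A0} {n : ℕ}, Φ (dt 0 1 4 5) * ψ p * (Φ (dt 0 1 4 5))⁻¹ = ψ q → p ^ n = 1 →
      q ^ n = 1 := fun {p q n} h1 h2 => F.pinj (by
    rw [map_pow, ← h1, conj_pow, ← map_pow, h2, map_one]; group)
  have m : ∀ {p q p' q' : A0}, Φ (dt 0 1 4 5) * ψ p * (Φ (dt 0 1 4 5))⁻¹ = ψ q →
      Φ (dt 0 1 4 5) * ψ p' * (Φ (dt 0 1 4 5))⁻¹ = ψ q' →
      Φ (dt 0 1 4 5) * ψ (p * p') * (Φ (dt 0 1 4 5))⁻¹ = ψ (q * q') := fun h1 h2 => by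
    rw [map_mul, map_mul, ← h1, ← h2]; group
  rw [z s (k e (by decide +kernel)) (k (m e cw) (by decide +kernel))
    (k (m (m e cw) ct) (by decide +kernel))] at e
  exact mul_inv_eq_iff_eq_mul.mp e

theorem kap (F : F5 Φ ψ) (ht : ∀ g, Φ (dt 0 1 2 3) * g = g * Φ (dt 0 1 2 3) →
      g * Φ (dt 0 2 1 3) * g⁻¹ = Φ (dt 0 2 1 3) ∨ g * Φ (dt 0 2 1 3) * g⁻¹ = Φ (dt 0 3 1 2)) :
    Φ (dt 2 4 3 5) * ψ (A0.u * A0.w) = ψ (A0.u * A0.w) * Φ (dt 2 4 3 5) := by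
  have h3 : ψ (A0.u * A0.w) ^ 3 = 1 := by
    rw [← map_pow, A0.rel5.uv, map_one]
  obtain ⟨g, hg⟩ : ∃ g, g = Φ (dt 2 4 3 5) * ψ (A0.u * A0.w) * (Φ (dt 2 4 3 5))⁻¹ := ⟨_, rfl⟩
  have g3 : g ^ 3 = 1 := by rw [hg, conj_pow, h3]; group
  have c1 : Φ (dt 0 1 2 3) * g = g * Φ (dt 0 1 2 3) :=
    hg ▸ cjc (tau F) _ (cjP Φ (by decide +kernel))
  have c3 : Φ (dt 0 1 4 5) * g = g * Φ (dt 0 1 4 5) :=
    hg ▸ cjc (F.c1 _) _ (cjP Φ (by decide +kernel))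
  have c2 : Φ (dt 0 2 1 3) * g = g * Φ (dt 0 2 1 3) := by
    rcases ht g c1 with e | e
    · exact (mul_inv_eq_iff_eq_mul.mp e).symm
    · have e1 : Φ (dt 0 3 1 2) = Φ (dt 0 1 2 3) * Φ (dt 0 2 1 3) := by
        rw [← map_mul]; exact congrArg Φ (by decide +kernel)
      have e2 : Φ (dt 0 1 2 3) * Φ (dt 0 1 2 3) = 1 := by
        rw [← map_mul, ← map_one Φ]; exact congrArg Φ (by decide +kernel)
      have e3 : Commute (g * g) (Φ (dt 0 2 1 3)) := mul_inv_eq_iff_eq_mul.mp (by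
        calc _ = g * (g * Φ (dt 0 2 1 3) * g⁻¹) * g⁻¹ := by group
          _ = g * (Φ (dt 0 1 2 3) * Φ (dt 0 2 1 3)) * g⁻¹ := by rw [e, e1]
          _ = g * Φ (dt 0 1 2 3) * g⁻¹ * (g * Φ (dt 0 2 1 3) * g⁻¹) := by group
          _ = _ := by rw [← c1, e, e1, mul_inv_cancel_right, ← mul_assoc, e2, one_mul])
      have e4 : g * g * (g * g) = g := by
        calc _ = g ^ 3 * g := by simp only [pow_succ, pow_zero, one_mul, mul_assoc]
          _ = g := by rw [g3, one_mul]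
      exact e4 ▸ (e3.mul_left e3).symm.eq
  obtain ⟨s, e, s3⟩ := ord3 F c1 c2 g3
  have iv : ψ A0.w * g * (ψ A0.w)⁻¹ = g⁻¹ := by
    have k1 : Φ (dt 2 4 3 5) * ψ A0.w * (Φ (dt 2 4 3 5))⁻¹ =
        ψ A0.w * (Φ (dt 0 1 2 3) * Φ (dt 0 1 4 5)) := by
      rw [F.pw, ← map_mul Φ (dt 0 1 2 3), ← map_mul Φ (dt 4 5 6 7)]; exact cjP Φ (by decide +kernel)
    have k2 : ψ A0.w * ψ (A0.u * A0.w) * (ψ A0.w)⁻¹ = (ψ (A0.u * A0.w))⁻¹ := by
      rw [← map_inv, ← map_inv, ← map_mul, ← map_mul]; exact congrArg ψ (by decide +kernel)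
    calc _ = ψ A0.w * (Φ (dt 0 1 2 3) * Φ (dt 0 1 4 5) * g) *
          (ψ A0.w * (Φ (dt 0 1 2 3) * Φ (dt 0 1 4 5)))⁻¹ := by rw [mc c1 c3]; group
      _ = Φ (dt 2 4 3 5) * (ψ A0.w * ψ (A0.u * A0.w) * (ψ A0.w)⁻¹) * (Φ (dt 2 4 3 5))⁻¹ := by
        rw [← mul_assoc, ← k1, hg]; group
      _ = _ := by rw [k2, hg]; group
  have z : ∀ s : A0, s ^ 3 = 1 → A0.w * s * A0.w⁻¹ = s⁻¹ → s = 1 ∨ s = A0.u * A0.w ∨
      s = (A0.u * A0.w)⁻¹ ∨ s = A0.u * A0.w * A0.t⁻¹ * (A0.u * A0.w)⁻¹ ∨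
      s = A0.u * A0.w * A0.t * (A0.u * A0.w)⁻¹ := by decide +kernel
  have ct : Φ (dt 0 1 4 5) * ψ A0.t * (Φ (dt 0 1 4 5))⁻¹ = (ψ A0.t)⁻¹ := by
    rw [F.pt, ← map_inv Φ (dt 4 6 4 5)]; exact cjP Φ (by decide +kernel)
  have nt : ¬ Φ (dt 0 1 4 5) * (ψ (A0.u * A0.w) * ψ A0.t * (ψ (A0.u * A0.w))⁻¹) =
      ψ (A0.u * A0.w) * ψ A0.t * (ψ (A0.u * A0.w))⁻¹ * Φ (dt 0 1 4 5) := fun c => by
    have k := cjc c (ψ (A0.u * A0.w))⁻¹ (y := Φ (dt 0 1 4 5)) (by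
      rw [inv_inv, mul_assoc, tau F, inv_mul_cancel_left])
    rw [show (ψ (A0.u * A0.w))⁻¹ * (ψ (A0.u * A0.w) * ψ A0.t * (ψ (A0.u * A0.w))⁻¹) *
      (ψ (A0.u * A0.w))⁻¹⁻¹ = ψ A0.t by group] at k
    rw [k, mul_inv_cancel_right, ← map_inv] at ct
    exact absurd (F.pinj ct) (by decide +kernel)
  rw [e, ← map_inv, ← map_inv, ← map_mul, ← map_mul] at iv
  rcases z s s3 (F.pinj iv) with rfl | rfl | rfl | rfl | rfl
  · rw [hg, map_one, mul_inv_eq_one, mul_eq_left, ← map_one ψ] at e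
    exact absurd (F.pinj e) (by decide +kernel)
  · exact mul_inv_eq_iff_eq_mul.mp (hg ▸ e)
  · exfalso
    rw [hg, map_inv] at e
    have k1 : Φ (dt 2 4 3 5 * dt 0 2 1 3) * ψ (A0.u * A0.w) * (Φ (dt 2 4 3 5 * dt 0 2 1 3))⁻¹ =
        (ψ (A0.u * A0.w))⁻¹ := by
      rw [← e, map_mul Φ, mul_assoc (Φ _) (Φ _), F.c2]; group
    have k2 : Φ (dt 2 4 3 5 * dt 0 2 1 3) ^ 3 = 1 := by
      rw [← map_pow, ← map_one Φ]; exact congrArg Φ (by decide +kernel)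
    generalize Φ (dt 2 4 3 5 * dt 0 2 1 3) = y at k1 k2
    have k3 : y * (ψ (A0.u * A0.w))⁻¹ * y⁻¹ = ψ (A0.u * A0.w) := by
      rw [← inv_inj]
      nth_rewrite 2 [← k1]
      group
    have k4 : ψ (A0.u * A0.w) = (ψ (A0.u * A0.w))⁻¹ := by
      calc _ = y ^ 3 * ψ (A0.u * A0.w) * (y ^ 3)⁻¹ := by rw [k2]; group
        _ = y * (y * (y * ψ (A0.u * A0.w) * y⁻¹) * y⁻¹) * y⁻¹ := by
          simp only [pow_succ, pow_zero]; group
        _ = _ := by rw [k1, k3, k1]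
    rw [← map_inv] at k4
    exact absurd (F.pinj k4) (by decide +kernel)
  · refine (nt ?_).elim
    rw [e, map_mul ψ _ _⁻¹, map_mul ψ _ _⁻¹, map_inv, map_inv] at c3
    have := (Commute.inv_right c3).eq
    rwa [show (ψ (A0.u * A0.w) * (ψ A0.t)⁻¹ * (ψ (A0.u * A0.w))⁻¹)⁻¹ =
      ψ (A0.u * A0.w) * ψ A0.t * (ψ (A0.u * A0.w))⁻¹ by group] at this
  · refine (nt ?_).elim
    rwa [e, map_mul ψ _ _⁻¹, map_mul ψ _ A0.t, map_inv] at c3

end EC

open EC in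
theorem taskE8C : TaskE8C := by
  intro G _ _ ι r₁ r₂ r₃ Φ ψ E ht F
  obtain ⟨j1, j2, j3, -⟩ := jA_val
  have ht' : ∀ g, Φ (dt 0 1 2 3) * g = g * Φ (dt 0 1 2 3) →
      g * Φ (dt 0 2 1 3) * g⁻¹ = Φ (dt 0 2 1 3) ∨ g * Φ (dt 0 2 1 3) * g⁻¹ = Φ (dt 0 3 1 2) :=
    fun g h => by
      have := ht g (Subgroup.mem_centralizer_singleton_iff.mpr (by rw [E.fj, j1]; exact h.symm))
      rwa [E.fj, E.fj, j2, j3] at this
  let K : Subgroup (Al 8) := (𝒞₁ (ψ (A0.u * A0.w))).comap Φ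
  have k1 : dt 0 1 2 3 ∈ K := Subgroup.mem_centralizer_singleton_iff.mpr (F.c1 _)
  have k2 : dt 0 2 1 3 ∈ K := Subgroup.mem_centralizer_singleton_iff.mpr (F.c2 _)
  have k3 : dt 0 1 4 5 ∈ K := Subgroup.mem_centralizer_singleton_iff.mpr (tau F)
  have k4 : dt 2 4 3 5 ∈ K := Subgroup.mem_centralizer_singleton_iff.mpr (kap F ht')
  have b : (ψ (A0.u * A0.w) * Φ (cy 7 5)) ^ 2 = 1 := by
    have : cy 7 5 = (dt 4 6 4 5)⁻¹ * dt 4 5 6 7 * (dt 4 6 4 5)⁻¹ * dt 4 5 6 7 * dt 4 6 4 5 := by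
      decide +kernel
    rw [this]
    simp only [map_mul Φ, map_inv Φ, ← F.pw, ← F.pt, ← map_inv ψ, ← map_mul ψ, ← map_pow ψ]
    rw [← map_one ψ]
    exact congrArg ψ (by decide +kernel)
  have b' : ∀ h ∈ K, ∀ i, h * cy 7 5 * h⁻¹ = cy 7 i → (ψ (A0.u * A0.w) * Φ (cy 7 i)) ^ 2 = 1 :=
    fun h hh i e => by
      have c : Φ h * ψ (A0.u * A0.w) = ψ (A0.u * A0.w) * Φ h := Subgroup.mem_centralizer_singleton_iff.mp hh
      rw [← cjP Φ e, ← mul_assoc, ← mul_assoc, ← c, mul_assoc (Φ h), conj_pow, b]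
      group
  let x : ℕ → G := fun i => if i = 7 then ψ (A0.u * A0.w) else Φ (cy 7 i)
  have hx : ∀ i < 6, x (i + 1) = Φ (cy 7 (i + 1)) := fun i hi => if_neg (by omega)
  have hc : ∀ i < 6, cy 7 (i + 1) ^ 3 = 1 ∧ ∀ j < i, (cy 7 (i + 1) * cy 7 (j + 1)) ^ 2 = 1 := by
    decide +kernel
  obtain ⟨Ψ, h1, h2⟩ := exists_alt9 x (fun i hi => by
    by_cases c : i < 6
    · refine ⟨by rw [hx i c, ← map_pow, (hc i c).1, map_one], fun j hj => ?_⟩
      rw [hx i c, hx j (by omega), ← map_mul, ← map_pow, (hc i c).2 j hj, map_one]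
    · obtain rfl : i = 6 := by omega
      refine ⟨?_, fun j hj => ?_⟩
      · change ψ (A0.u * A0.w) ^ 3 = 1
        rw [← map_pow, A0.rel5.uv, map_one]
      · rw [hx j hj]
        change (ψ (A0.u * A0.w) * _) ^ 2 = 1
        interval_cases j
        · exact b' _ (mul_mem k2 k4) _ (by decide +kernel)
        · exact b' _ (mul_mem k1 (mul_mem k2 k4)) _ (by decide +kernel)
        · exact b' _ k4 _ (by decide +kernel)
        · exact b' _ (mul_mem k1 k4) _ (by decide +kernel)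
        · exact b
        · exact b' _ k3 _ (by decide +kernel)) (by
      rw [hx 0 (by norm_num), ← map_one Φ]
      exact fun e => absurd (E.finj e) (by decide +kernel))
  have r1 : ∀ p, Φ p ∈ Ψ.range := fun p => by
    have : gen (cy 7) (L 6) ≤ Ψ.range.comap Φ := gen_le fun w hw => by
      obtain ⟨i, hi, rfl⟩ := mem_L.mp hw
      rw [evL_singleton]
      exact mem_comap.mpr (hx i hi ▸ h2 i (by omega))
    exact this (top8 ▸ mem_top p)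
  have r2 : ∀ s, ψ s ∈ Ψ.range := fun s => by
    have w : A0.w ∈ Ψ.range.comap ψ := mem_comap.mpr (F.pw ▸ r1 _)
    have := A0.eq_top5 (Ψ.range.comap ψ) w (mem_comap.mpr (F.pt ▸ r1 _))
      ((mul_mem_cancel_right w).mp (h2 6 (by norm_num)))
    exact mem_comap.mp (this ▸ mem_top s)
  have r3 : ∀ g, Φ (dt 0 1 2 3) * g = g * Φ (dt 0 1 2 3) →
      g * Φ (dt 0 2 1 3) * g⁻¹ = Φ (dt 0 2 1 3) → g ∈ Ψ.range := fun g a b => by
    obtain ⟨i, j, s, e⟩ := F.all g a (mul_inv_eq_iff_eq_mul.mp b).symm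
    exact e ▸ mul_mem (r1 _) (r2 _)
  refine ⟨Ψ, h1, by rintro _ ⟨p, rfl⟩; exact r1 p, fun g hg => ?_⟩
  have a := (Subgroup.mem_centralizer_singleton_iff.mp hg).symm
  rw [E.fj, j1] at a
  rcases ht' g a with e | e
  · exact r3 g a e
  · refine (mul_mem_cancel_left (r1 (dt 0 1 4 5))).mp (r3 _ ?_ ?_)
    · have c : Commute (Φ (dt 0 1 2 3)) (Φ (dt 0 1 4 5)) := by
        refine Commute.map ?_ Φ
        unfold Commute SemiconjBy; decide +kernel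
      exact (c.mul_right a).eq
    · calc _ = Φ (dt 0 1 4 5) * (g * Φ (dt 0 2 1 3) * g⁻¹) * (Φ (dt 0 1 4 5))⁻¹ := by group
        _ = _ := by rw [e]; exact cjP Φ (by decide +kernel)

end Cfsg.A8
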