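import Cfsg.Agent.A8.E0
import Cfsg.Agent.H6.MRep
import Cfsg.Agent.H6.A8P.C1.Main
import Cfsg.Agent.H6.A8P.C2.Main
import Cfsg.Agent.H6.A8P.C3.Main
import Cfsg.Agent.H6.A8P.C4.Main
import Cfsg.Agent.H6.A8P.K1.Main
import Cfsg.Agent.H6.A8P.K2.Main

/-! The presentation of `A₈` on the generators of the three minimal parabolic subgroups. -/

set_option autoImplicit false
set_option maxRecDepth 100000
set_option synthInstance.maxSize 100000

namespace Cfsg.A8.EP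

open Subgroup Cfsg.H5 Cfsg.FT Cfsg.H8 Cfsg.H6

def tab (x p : ℕ) : ℕ := (([[], [4, 5, 6, 7, 0, 1, 2, 3], [1, 0, 3, 2, 7, 6, 5, 4],
  [5, 4, 6, 7, 1, 0, 2, 3], [5, 7, 6, 4, 3, 0, 2, 1], [1, 0, 5, 4, 3, 2, 7, 6],
  [7, 5, 6, 4, 3, 1, 2, 0]] : List (List ℕ)).getD x []).getD p 0

theorem lab : Lab (alternatingGroup (Fin 8)).subtype p8 (Fin.ofNat 8) tab 8 7 :=
  ⟨fun x h1 h2 => by interval_cases x <;> decide +kernel, by decide +kernel⟩

theorem v5 : dvChk tab 8 7 5 [[2,1,3,2,4,6]] [] [5,6,7] (unp 2 (nat_lit 0x70000000500)) = true := by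
  decide +kernel

theorem v4 : dvChk tab 8 7 4 [[1,3,4,6]] [[2,1,3,2,4,6]] [4,5,6,7] (unp 3 (nat_lit 0x7010000070000000400)) = true := by
  decide +kernel

theorem v3 : dvChk tab 8 7 3 [[1,2,5,2,3,4,6,5]] [[1,3,4,6], [2,1,3,2,4,6]] [3,4,5,6,7] (unp 4 (nat_lit 0x501000007020000070000000300)) = true := by
  decide +kernel

theorem v2 : dvChk tab 8 7 2 [[2,5]] [[1,2,5,2,3,4,6,5], [1,3,4,6], [2,1,3,2,4,6]] [2,3,4,5,6,7] (unp 5 (nat_lit 0x60300000402000004010000040000000200)) = true := by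
  decide +kernel

theorem v1 : dvChk tab 8 7 1 [[3,4]] [[2,5], [1,2,5,2,3,4,6,5], [1,3,4,6], [2,1,3,2,4,6]] [1,2,3,4,5,6,7] (unp 6 (nat_lit 0x6010000050300000502000003020000030100000100)) = true := by
  decide +kernel

theorem v0 : dvChk tab 8 7 0 [[1], [2], [3], [4], [5], [6]] [[3,4], [2,5], [1,2,5,2,3,4,6,5], [1,3,4,6], [2,1,3,2,4,6]] [0,1,2,3,4,5,6,7] (unp 7 (nat_lit 0x504000004070000040300000005000000020000000100000000)) = true := by
  decide +kernel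

def XX : List (List ℕ) := [[1], [2], [3], [4], [5], [6], [3, 4], [2, 5], [1, 2, 5, 2, 3, 4, 6, 5],
  [1, 3, 4, 6], [2, 1, 3, 2, 4, 6]]

theorem dv : 20160 ∣ Nat.card (gen p8 XX) :=
  Dvd.dvd.trans (by decide +kernel) (lab.dvd v0 (lab.dvd v1 (lab.dvd v2 (lab.dvd v3 (lab.dvd v4
    (lab.dvd v5 (one_dvd _)))))))

theorem ca : Nat.card (Al 8) = 20160 := by
  rw [nat_card_alternatingGroup, Nat.card_fin]; rfl

theorem top : gen p8 XX = ⊤ := Subgroup.eq_top_of_le_card _ (ca ▸ Nat.le_of_dvd Nat.card_pos dv)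

theorem good_inv {G : Type*} [Group G] {ev : ℕ → G} (h0 : ev 0 = 1) (h1 : ∀ l, 7 ≤ l → ev l = 1)
    (h : ∀ l < 7, ev l * ev l = 1) : Good ev 1694364648734976 := by
  refine good_of_rels h0 h1 (by norm_num) fun r hr => ?_
  obtain ⟨l, hl, rfl⟩ := List.mem_map.mp hr
  have hl' := List.mem_range.mp hl
  have e : invL 1694364648734976 l = l := by interval_cases l <;> decide +kernel
  rw [e, evL_cons, evL_singleton]
  exact h l hl'

theorem good8 : Good p8 1694364648734976 :=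
  good_inv rfl (fun l hl => by
    obtain ⟨k, rfl⟩ := Nat.exists_eq_add_of_le' hl
    rfl) (by decide +kernel)

theorem rels8 : Rels p8 A8P.R := by
  unfold Rels
  decide +kernel

def evU (l : ℕ) : UT := [1, el 1, el 2, el 4].getD l 1

variable {G : Type} [Group G] {ι : UT →* G} {r₁ r₂ r₃ : G}

def ev (ι : UT →* G) (r₁ r₂ r₃ : G) (l : ℕ) : G :=
  [1, ι (el 1), ι (el 2), ι (el 4), r₁, r₂, r₃].getD l 1

theorem wU (w : List ℕ) (h : w.all (· < 4) = true) : evL (ev ι r₁ r₂ r₃) w = ι (evL evU w) := by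
  rw [map_evL]
  refine evL_congr fun x hx => ?_
  have : x < 4 := by simpa using List.all_eq_true.mp h x hx
  interval_cases x
  · exact (map_one ι).symm
  all_goals rfl

theorem pure (w : List ℕ) (h : w.all (· < 4) = true ∧ evL evU w = 1) :
    evL (ev ι r₁ r₂ r₃) w = 1 := by rw [wU w h.1, h.2, map_one]

theorem act {g : ℕ} {r : G} (e : ev ι r₁ r₂ r₃ g = r) (q : r * r = 1) {x y : ℕ}
    (a : r * ι (el x) * r⁻¹ = ι (el y)) (u w : List ℕ) (h : u.all (· < 4) = true ∧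
    w.all (· < 4) = true ∧ evL evU u = el x ∧ el y * evL evU w = 1) :
    evL (ev ι r₁ r₂ r₃) (g :: (u ++ g :: w)) = 1 := by
  rw [evL_cons, evL_append, evL_cons, wU u h.1, wU w h.2.1, h.2.2.1, e,
    ← mul_assoc, ← mul_assoc]
  rw [inv_eq_of_mul_eq_one_right q] at a
  rw [a, ← map_mul, h.2.2.2, map_one]

theorem pw {g h : ℕ} {k : ℕ} (e : (ev ι r₁ r₂ r₃ g * ev ι r₁ r₂ r₃ h) ^ k = 1) :
    evL (ev ι r₁ r₂ r₃) (rp k [g, h]) = 1 := by
  rw [evL_rp, evL_cons, evL_singleton, e]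

theorem sq (H : R8 ι r₁ r₂ r₃) : ∀ l < 7, ev ι r₁ r₂ r₃ l * ev ι r₁ r₂ r₃ l = 1 := fun l hl => by
  interval_cases l
  · exact one_mul 1
  · exact (map_mul ι _ _).symm.trans ((congrArg ι (by decide +kernel)).trans (map_one ι))
  · exact (map_mul ι _ _).symm.trans ((congrArg ι (by decide +kernel)).trans (map_one ι))
  · exact (map_mul ι _ _).symm.trans ((congrArg ι (by decide +kernel)).trans (map_one ι))
  exacts [H.q1, H.q2, H.q3]

theorem good (H : R8 ι r₁ r₂ r₃) : Good (ev ι r₁ r₂ r₃) 1694364648734976 :=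
  good_inv rfl (fun l hl => by
    obtain ⟨k, rfl⟩ := Nat.exists_eq_add_of_le' hl
    rfl) (sq H)

def Rb : List (List ℕ) := [[1, 2, 1, 2, 1, 2, 1, 2], [2, 3, 2, 3, 2, 3, 2, 3], [1, 3, 1, 3],
  [1, 2, 3, 2, 1, 2, 3, 2, 1, 2, 3, 2, 1, 2, 3, 2], [1, 2, 1, 2, 3, 2, 3, 1, 2, 1, 2, 3, 2, 3],
  [4, 2, 4, 2, 1, 2, 1], [4, 3, 4, 3], [4, 2, 3, 2, 3, 4, 3, 2, 3, 2, 1, 3, 2, 3, 2, 1],
  [5, 1, 5, 2, 1, 2, 1], [5, 3, 5, 3, 2, 3, 2], [6, 1, 6, 1], [6, 2, 6, 3, 2, 3, 2],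
  [6, 1, 2, 1, 2, 6, 3, 2, 3, 2, 1, 3, 2, 3, 2, 1], [1, 4, 1, 4, 1, 4], [2, 5, 2, 5, 2, 5],
  [3, 6, 3, 6, 3, 6], [4, 6, 4, 6], [1, 1], [2, 2], [3, 3], [4, 4], [5, 5], [6, 6]]

theorem relsb (H : R8 ι r₁ r₂ r₃) : Rels (ev ι r₁ r₂ r₃) Rb := by
  have s : ∀ l < 7, evL (ev ι r₁ r₂ r₃) [l, l] = 1 := fun l hl => by
    rw [evL_cons, evL_singleton]; exact sq H l hl
  intro r hr
  simp only [Rb, List.mem_cons, List.not_mem_nil, or_false] at hr
  rcases hr with rfl | rfl | rfl | rfl | rfl | rfl | rfl | rfl | rfl | rfl | rfl | rfl | rfl | rfl |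
    rfl | rfl | rfl | rfl | rfl | rfl | rfl | rfl | rfl
  · exact pure _ (by decide +kernel)
  · exact pure _ (by decide +kernel)
  · exact pure _ (by decide +kernel)
  · exact pure _ (by decide +kernel)
  · exact pure _ (by decide +kernel)
  · exact act rfl H.q1 (H.a1 (2, 8) (by decide)) [2] _ (by decide +kernel)
  · exact act rfl H.q1 (H.a1 (4, 4) (by decide)) [3] _ (by decide +kernel)
  · exact act rfl H.q1 (H.a1 (16, 32) (by decide)) [2, 3, 2, 3] _ (by decide +kernel)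
  · exact act rfl H.q2 (H.a2 (1, 8) (by decide)) [1] _ (by decide +kernel)
  · exact act rfl H.q2 (H.a2 (4, 16) (by decide)) [3] _ (by decide +kernel)
  · exact act rfl H.q3 (H.a3 (1, 1) (by decide)) [1] _ (by decide +kernel)
  · exact act rfl H.q3 (H.a3 (2, 16) (by decide)) [2] _ (by decide +kernel)
  · exact act rfl H.q3 (H.a3 (8, 32) (by decide)) [1, 2, 1, 2] _ (by decide +kernel)
  · exact pw (k := 3) H.t1
  · exact pw (k := 3) H.t2
  · exact pw (k := 3) H.t3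
  · exact pw (k := 2) H.c13
  all_goals exact s _ (by norm_num)

theorem rels_cons {ev : ℕ → G} {w : List ℕ} {R : List (List ℕ)} (h : evL ev w = 1)
    (hR : Rels ev R) : Rels ev (w :: R) := fun r hr =>
  (List.mem_cons.mp hr).elim (fun e => e ▸ h) (hR r)

theorem bad {g h x : ℕ} (e : (ev ι r₁ r₂ r₃ g * ev ι r₁ r₂ r₃ h) ^ 3 = ι (el x)) (w : List ℕ)
    (hw : w.all (· < 4) = true ∧ el x * evL evU w = 1) :
    evL (ev ι r₁ r₂ r₃) (rp 3 [g, h] ++ w) = 1 := by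
  rw [evL_append, evL_rp, evL_cons, evL_singleton, e, wU w hw.1, ← map_mul, hw.2, map_one]

theorem zne (H : R8 ι r₁ r₂ r₃) :
    evL (ev ι r₁ r₂ r₃) [1, 2, 3, 2, 3, 1, 2, 3, 2, 3] ∉ gen (ev ι r₁ r₂ r₃) [] := fun h => by
  have := gen_le (K := ⊥) (by simp) h
  rw [Subgroup.mem_bot, wU _ (by decide), ← map_one ι] at this
  exact absurd (H.inj this) (by decide +kernel)

theorem rels (H : R8 ι r₁ r₂ r₃) : Rels (ev ι r₁ r₂ r₃) A8P.R := by
  rcases H.c12 with h1 | h1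
  · rcases H.c23 with h2 | h2
    · exact (rels_cons (pw (g := 4) (h := 5) h1) (rels_cons (pw (g := 5) (h := 6) h2)
        (relsb H))).mono (by decide +kernel)
    · exact absurd (A8P.K2.mem (good H) ((rels_cons (bad (g := 5) (h := 6) h2
        [3, 2, 3, 2, 1, 3, 2, 3, 2, 1, 2, 1, 2] (by decide +kernel)) (relsb H)).mono
        (by decide +kernel)) _ (List.mem_singleton.mpr rfl)) (zne H)
  · exact absurd (A8P.K1.mem (good H) ((rels_cons (bad (g := 4) (h := 5) h1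
      [3, 2, 3, 2, 1, 3, 2, 3, 2, 1, 3, 2, 3, 2, 3] (by decide +kernel)) (relsb H)).mono
      (by decide +kernel)) _ (List.mem_singleton.mpr rfl)) (zne H)

theorem exists_hom (H : R8 ι r₁ r₂ r₃) :
    ∃ Φ : Al 8 →* G, ∀ l, Φ (p8 l) = ev ι r₁ r₂ r₃ l := by
  have g := H5.pg_good 1694364648734976 A8P.R
  have r := H5.pg_rels 1694364648734976 A8P.R
  have hX : gen (H5.pgEv 1694364648734976 A8P.R) XX = ⊤ :=
    H5.pg_gen (n := 7) (by norm_num) (by decide +kernel)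
  have hY : gen (H5.pgEv 1694364648734976 A8P.R) A8P.C1.X = ⊤ :=
    H5.pg_gen (n := 7) (by norm_num) (by decide +kernel)
  refine exists_hom_of_UB good8 rels8 (good H) (rels H) hX (N := 20160) ?_ top ca.ge
  rw [hX, ← hY]
  exact (((UB.bot.cover (A8P.C4.cover g r)).cover (A8P.C3.cover g r)).cover
    (A8P.C2.cover g r)).cover (A8P.C1.cover g r)

theorem jA_eq : ∀ x : UT, ∃ w : List ℕ, w.all (· < 4) = true ∧ evL evU w = x ∧ evL p8 w = jA x := by
  have : ∀ x : UT, ∀ w : List ℕ, w = rp (bt x.val 5) [1, 2, 3, 2, 3, 1, 2, 3, 2, 3] ++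
      rp (bt x.val 4) [2, 3, 2, 3] ++ rp (bt x.val 2) [3] ++ rp (bt x.val 3) [1, 2, 1, 2] ++
      rp (bt x.val 1) [2] ++ rp (bt x.val 0) [1] →
      w.all (· < 4) = true ∧ evL evU w = x ∧ evL p8 w = jA x := by
    intro x w hw
    subst hw
    revert x
    decide +kernel
  exact fun x => ⟨_, this x _ rfl⟩

end Cfsg.A8.EP

namespace Cfsg.A8

open Subgroup Cfsg.H5 Cfsg.FT Cfsg.H8 Cfsg.H6

theorem taskE8P : TaskE8P := by
  intro G _ _ ι r₁ r₂ r₃ H
  obtain ⟨Φ, h⟩ := EP.exists_hom H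
  have fj : ∀ x, ι x = Φ (jA x) := fun x => by
    obtain ⟨w, h1, h2, h3⟩ := EP.jA_eq x
    rw [← h3, map_evL, ← h2, ← EP.wU (r₁ := r₁) (r₂ := r₂) (r₃ := r₃) w h1]
    exact evL_congr fun l _ => (h l).symm
  have := alternatingGroup.isSimpleGroup (α := Fin 8) (by simp)
  refine ⟨Φ, H.toT8, injective_of_simple Φ (x := jA (el 1)) ?_, fj, (h 4).symm, (h 5).symm,
    (h 6).symm, H.czr.trans (sup_le ?_ ?_)⟩
  · rw [← fj, ← map_one ι]
    exact fun e => absurd (H.inj e) (by decide +kernel)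
  · rintro _ ⟨x, rfl⟩
    exact ⟨_, (fj x).symm⟩
  · rw [zpowers_le]
    exact ⟨_, h 5⟩

end Cfsg.A8
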