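import Cfsg.Agent.A8.ER
import Cfsg.Agent.A8.EP
import Cfsg.Agent.A8.EB
import Cfsg.Agent.A8.EC

/-! Groups with fusion of type `A₈` and trivial cores are `A₈` or `A₉`. -/

namespace Cfsg.A8

theorem taskE8 : TaskE8 := taskE8_of taskE8R taskE8P taskE8B taskE8C taskE8F

end Cfsg.A8
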