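import Cfsg.Agent.A8.ES1

/-! From points and lines to the graph on the lines; comparison of two groups of automorphisms. -/

set_option autoImplicit false

namespace Cfsg.A8.ES

open H7.R3 MulAction

/-- points and lines of a generalized quadrangle of order `(4, 2)` -/
structure PL {P X : Type*} (I : P → X → Prop) : Prop where
  ext : ∀ {L M}, (∀ p, I p L ↔ I p M) → L = M
  U : ∀ {p s q L M K}, I p L → I s L → p ≠ s → I q M → I p M → I q K → I s K → I q L
  gq : ∀ {p K} (L), I p K → ∃ M q, I p M ∧ I q M ∧ I q L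
  five : ∀ L, ∃ u : Fin 5 → P, Function.Injective u ∧ ∀ q, I q L ↔ ∃ i, q = u i
  three : ∀ {p L}, I p L → ∃ M K, I p M ∧ I p K ∧ L ≠ M ∧ L ≠ K ∧ M ≠ K ∧
    ∀ N, I p N → N = L ∨ N = M ∨ N = K

/-- meeting lines -/
def adj {P X : Type*} (I : P → X → Prop) (L M : X) : Prop := L ≠ M ∧ ∃ p, I p L ∧ I p M

namespace PL

variable {P X : Type*} {I : P → X → Prop} (h : PL I)
include h

theorem one {p q : P} {L M : X} (n : L ≠ M) (a : I p L) (b : I p M) (c : I q L) (d : I q M) :
    p = q := by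
  by_contra e
  exact n (h.ext fun s => ⟨fun t => h.U b d e t a t c, fun t => h.U a c e t b t d⟩)

theorem conc {p : P} {L M K : X} (n : L ≠ M) (a : I p L) (b : I p M) (c : adj I L K)
    (d : adj I M K) : I p K := by
  obtain ⟨-, s, s1, s2⟩ := c
  obtain ⟨-, q, q1, q2⟩ := d
  by_cases e : p = s
  · exact e ▸ s2
  · exact h.one n (h.U a s1 e q1 b q2 s2) q1 a b ▸ q2

theorem gQ : GQ (adj I) where
  sym := fun ⟨a, p, b, c⟩ => ⟨a.symm, p, c, b⟩
  irr := fun a => a.1 rfl
  uq := by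
    rintro x y w v ⟨n, p, a, b⟩ c d e f
    obtain ⟨M, K, -, -, -, -, -, t⟩ := h.three a
    have := t y b
    have := t w (h.conc n a b c d)
    have := t v (h.conc n a b e f)
    have := c.1; have := d.1; have := e.1; have := f.1
    grind
  gq := by
    rintro x y w ⟨n, p, a, b⟩ c d v
    have pw := h.conc n a b c d
    obtain ⟨M, K, -, -, -, -, -, t⟩ := h.three a
    obtain ⟨N, q, q1, q2, q3⟩ := h.gq v a
    have k : N = x ∨ N = y ∨ N = w := by
      have := t y b
      have := t w pw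
      have := t N q1
      have := c.1; have := d.1
      grind
    by_cases e : v = N
    · subst e
      rcases k with rfl | rfl | rfl
      exacts [.inr (.inl ⟨n, p, a, b⟩), .inl ⟨n.symm, p, b, a⟩, .inl ⟨c.1.symm, p, pw, a⟩]
    · have : adj I v N := ⟨e, q, q3, q2⟩
      rcases k with rfl | rfl | rfl
      exacts [.inl this, .inr (.inl this), .inr (.inr this)]
  five := fun x => by
    obtain ⟨p, inj, hp⟩ := h.five x
    have px : ∀ i, I (p i) x := fun i => (hp _).2 ⟨i, rfl⟩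
    choose u v a b c d e f using fun i => h.three (px i)
    refine ⟨u, v, fun i => ⟨⟨c i, _, px i, a i⟩, ⟨d i, _, px i, b i⟩, ⟨e i, _, a i, b i⟩⟩, ?_, ?_⟩
    · rintro w ⟨n, q, q1, q2⟩
      obtain ⟨i, rfl⟩ := (hp q).1 q1
      exact ⟨i, (f i w q2).resolve_left n.symm⟩
    · rintro i j (t | t | t)
      exacts [inj (h.one (c i) (px i) (a i) (px j) (t ▸ a j)),
        inj (h.one (c i) (px i) (a i) (px j) (t ▸ b j)),
        inj (h.one (d i) (px i) (b i) (px j) (t ▸ b j))]

end PL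

theorem iso_of_gq {G X : Type*} [Group G] [Finite G] [MulAction G X] [FaithfulSMul G X]
    (h2 : ∀ L : Subgroup G, L.index ≠ 2) {r : X → X → Prop} (e : Fin 27 ≃ X)
    (he : ∀ p q, r0 p q ↔ r (e p) (e q)) (hX : ∀ (g : G) u v, r (g • u) (g • v) ↔ r u v)
    (hc : 25920 ≤ Nat.card G) {Y : Subgroup (Equiv.Perm (Fin 27))} (hY : Y ≤ Aut r0)
    (cY : Nat.card Y = 25920) : Nonempty (G ≃* Y) := by
  let ψ : G →* Equiv.Perm (Fin 27) := e.symm.permCongrHom.toMonoidHom.comp (toPermHom G X)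
  have inj : Function.Injective ψ := e.symm.permCongrHom.injective.comp toPerm_injective
  have hG : ψ.range ≤ Aut r0 := by
    rintro _ ⟨g, rfl⟩ u v
    rw [he, he, ← hX g (e u)]
    simp [ψ]
  have a : Y.relIndex (Aut r0) * 25920 = Nat.card (Aut r0) := by
    rw [← cY, ← Nat.card_congr (Subgroup.subgroupOfEquivOfLe hY).toEquiv]
    exact Subgroup.index_mul_card _
  have a0 : Y.relIndex (Aut r0) ≠ 0 := Subgroup.index_ne_zero_of_finite
  have b : (Y.comap ψ).index ≤ 2 := by
    rw [Subgroup.index_comap]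
    exact (Subgroup.relIndex_le_of_le_right hG a0).trans (by have := card_aut; omega)
  have b0 : (Y.comap ψ).index ≠ 0 := Subgroup.index_ne_zero_of_finite
  have c : Y.comap ψ = ⊤ := Subgroup.index_eq_one.1 (by have := h2 (Y.comap ψ); omega)
  have d : ψ.range ≤ Y := by rintro _ ⟨g, rfl⟩; exact (c.ge trivial : g ∈ Y.comap ψ)
  have e : ψ.range = Y := Subgroup.eq_of_le_of_card_ge d
    (by rw [cY, ← Nat.card_congr (MonoidHom.ofInjective inj).toEquiv]; exact hc)
  exact ⟨(MonoidHom.ofInjective inj).trans (MulEquiv.subgroupCongr e)⟩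

theorem isConj_of_odd {Γ : Type*} [Group Γ] {u v : Γ} (hu : u * u = 1) (hv : v * v = 1) {k : ℕ}
    (h : (u * v) ^ (2 * k + 1) = 1) : IsConj u v := by
  have hu' := inv_eq_of_mul_eq_one_right hu
  have hv' := inv_eq_of_mul_eq_one_right hv
  have h1 : ∀ j : ℕ, u * (u * v) ^ j = ((u * v) ^ j)⁻¹ * u := fun j => by
    rw [← inv_pow, mul_inv_rev, hu', hv']
    have : SemiconjBy u (u * v) (v * u) := by
      rw [SemiconjBy, ← mul_assoc, hu, mul_assoc, hu, one_mul, mul_one]
    exact this.pow_right j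
  refine isConj_iff.mpr ⟨(u * v) ^ k, ?_⟩
  have h2 : (u * v) ^ k * u = u * ((u * v) ^ k)⁻¹ := by
    have := congrArg (·⁻¹) (h1 k)
    simp only [mul_inv_rev, inv_inv, hu'] at this
    rw [eq_mul_inv_iff_mul_eq, mul_assoc, h1 k]; group
  have h3 : ((u * v) ^ k)⁻¹ * ((u * v) ^ k)⁻¹ = u * v := by
    rw [← mul_inv_rev, ← pow_add, inv_eq_iff_mul_eq_one, ← pow_succ, ← two_mul, h]
  rw [h2, mul_assoc, h3, ← mul_assoc, hu, one_mul]

theorem exists_cen {Γ : Type*} [Group Γ] [Finite Γ] {u v : Γ} (hu : u * u = 1) (hv : v * v = 1)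
    (h : ¬ IsConj u v) : ∃ c, c ≠ 1 ∧ c * c = 1 ∧ Commute u c ∧ Commute v c := by
  obtain ⟨k, hk | hk⟩ := Nat.even_or_odd' (orderOf (u * v))
  · have h1 : (u * v) ^ k * (u * v) ^ k = 1 := by rw [← pow_add, ← two_mul, ← hk, pow_orderOf_eq_one]
    have h0 := orderOf_pos (u * v)
    have h2 : Commute u ((u * v) ^ k) := by
      have : SemiconjBy u (u * v) (u * v)⁻¹ := by
        rw [SemiconjBy, mul_inv_rev, inv_eq_of_mul_eq_one_right hu, inv_eq_of_mul_eq_one_right hv,
          ← mul_assoc, hu, mul_assoc, hu, one_mul, mul_one]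
      have := this.pow_right k
      rwa [inv_pow, inv_eq_of_mul_eq_one_right h1] at this
    refine ⟨_, pow_ne_one_of_lt_orderOf (by omega) (by omega), h1, h2, ?_⟩
    have := h2.mul_left (Commute.self_pow (u * v) k)
    rwa [← mul_assoc, hu, one_mul] at this
  · exact absurd (isConj_of_odd hu hv (hk ▸ pow_orderOf_eq_one _)) h

theorem dvd_ord {Γ : Type*} [Group Γ] {p : ℕ} (hp : p.Prime) {n x : Γ} (a : Commute (n ^ p) x)
    (b : ¬ Commute n x) : p ∣ orderOf n := by
  by_contra e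
  obtain ⟨m, hm⟩ := exists_pow_eq_self_of_coprime ((hp.coprime_iff_not_dvd).2 e)
  exact b (hm ▸ a.pow_left m)

end Cfsg.A8.ES
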