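import Cfsg.Agent.A8.D0
import Cfsg.Agent.A8.ES3

/-! Fusion of type `PSp₄(3)`: the five conjugates of `z` in the Sylow subgroup and their normalizer. -/

set_option autoImplicit false
set_option maxRecDepth 100000

namespace Cfsg.A8.ES

open Subgroup Cfsg.H5 Cfsg.FT Cfsg.H8 MulAction

def pk (m i : ℕ) (x : UT) : UT := if Nat.land x.val m = 0 then 1 else el i

def sg (a b c d e z : ℕ) (x : UT) : UT :=
  pk 4 c x * pk 2 b x * pk 8 d x * pk 16 e x * pk 32 z x * pk 1 a x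

theorem dec : ∀ x : UT, sg 1 2 4 8 16 32 x = x := by decide +kernel

def σ2 : UT → UT := sg 8 0 16 1 4 32
def σh : UT → UT := sg 4 2 5 16 56 32
def σw : UT → UT := sg 0 32 0 50 42 2

/-- the five points -/
def p5 : Fin 5 → UT := ![el 32, el 2, el 10, el 18, el 58]

def P5 (x : UT) : Prop := ∃ i, x = p5 i

instance instDecP5 (x : UT) : Decidable (P5 x) := inferInstanceAs (Decidable (∃ _, _))

def mv (i : ℕ) (x : UT) : UT :=
  if i = 0 then el 1 * x * (el 1)⁻¹ else if i = 1 then el 4 * x * (el 4)⁻¹ else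
    if i = 2 then σh x else σw x

def run (l : List ℕ) (x : UT) : UT := l.foldr mv x

theorem u1 : ∀ x ∈ Au, el 1 * x * (el 1)⁻¹ ∈ Au ∧ el 4 * x * (el 4)⁻¹ ∈ Au ∧ σh x ∈ Au ∧
    σw x ∈ Au ∧ Nat.land x.val 1 = 0 ∧ Nat.land x.val 4 = 0 := by decide +kernel

theorem u2 : ∀ x ∈ Qu, σ2 x ∈ Qu ∧ σh x ∈ Qu ∧ Nat.land x.val 2 = 0 ∧
    ∀ s : UT, s * x * s⁻¹ ∈ Qu := by decide +kernel

theorem u3 : ∀ i, p5 i ∈ Au ∧ p5 i ≠ 1 ∧ P5 (σh (p5 i)) ∧ P5 (σw (p5 i)) ∧ p5 i * p5 i = 1 ∧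
    p5 i * el 16 = el 16 * p5 i ∧ (∀ s : UT, P5 (s * p5 i * s⁻¹)) ∧ ∀ j, p5 i * p5 j = p5 j * p5 i ∧
      (i ≠ j → p5 i ≠ p5 j ∧ p5 i * p5 j ∈ Au ∧ p5 i * p5 j ≠ 1 ∧ ¬ P5 (p5 i * p5 j)) := by
  decide +kernel

theorem u4 : ∀ x ∈ Au, x ≠ 1 → ∃ l ∈ [[], [3], [0, 3], [1, 3], [1, 0, 3], [1], [2], [2, 1], [2, 2],
    [3, 2], [2, 2, 1]], run l (if P5 x then el 32 else el 8) = x := by decide +kernel

theorem u5 : ∀ x : UT, x * x = 1 → x ∈ Au ∨ ∃ v, v ∈ Au ∧ v ∈ Qu ∧ ¬ P5 v ∧ v ≠ 1 ∧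
    (x = σ2 v ∨ x = el 2 * σ2 v * (el 2)⁻¹) := by decide +kernel

theorem u6 : ∀ x : UT, x * el 32 = el 32 * x ∧ (x ∈ Qu ∨ el 50 * x ∈ Qu) := by decide +kernel

theorem u7 : ∀ x : UT, (∀ i, x * p5 i = p5 i * x) → x ∈ Au := by decide +kernel

variable {G : Type*} [Group G] {ι : UT →* G} {s₂ h w : G}

theorem cj_pk {g : G} {m i : ℕ} {x : UT}
    (e : Nat.land x.val m = 0 ∨ g * ι (el m) * g⁻¹ = ι (el i)) :
    g * ι (pk m m x) * g⁻¹ = ι (pk m i x) := by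
  unfold pk
  split_ifs with t
  · simp
  · exact e.resolve_left t

theorem cj_sg {g : G} {a b c d e z : ℕ} {x : UT}
    (e1 : Nat.land x.val 1 = 0 ∨ g * ι (el 1) * g⁻¹ = ι (el a))
    (e2 : Nat.land x.val 2 = 0 ∨ g * ι (el 2) * g⁻¹ = ι (el b))
    (e3 : Nat.land x.val 4 = 0 ∨ g * ι (el 4) * g⁻¹ = ι (el c))
    (e4 : g * ι (el 8) * g⁻¹ = ι (el d)) (e5 : g * ι (el 16) * g⁻¹ = ι (el e))
    (e6 : g * ι (el 32) * g⁻¹ = ι (el z)) : g * ι x * g⁻¹ = ι (sg a b c d e z x) := by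
  conv_lhs => rw [← dec x]
  simp only [sg, map_mul, ← cj_pk e1, ← cj_pk e2, ← cj_pk e3, ← cj_pk (.inr e4),
    ← cj_pk (.inr e5), ← cj_pk (.inr e6)]
  group

/-- sets of elements, with the action by conjugation -/
def St (G : Type*) : Type _ := G → Prop

instance instAct : MulAction G (St G) where
  smul g L := fun x => L (g⁻¹ * x * g)
  one_smul L := funext fun x => congrArg L (by simp)
  mul_smul g k L := funext fun x => congrArg L (by simp [mul_assoc])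

theorem sm (g : G) (L : St G) (x : G) : (g • L) x ↔ L (g⁻¹ * x * g) := Iff.rfl

/-- the basic line -/
def F (ι : UT →* G) : St G := fun x => ∃ i, x = ι (p5 i)

/-- its normalizer -/
abbrev N (ι : UT →* G) : Subgroup G := stabilizer G (F ι)

theorem memN {g : G} (e : ∀ i, ∃ y, P5 y ∧ g * ι (p5 i) * g⁻¹ = ι y) : g ∈ N ι := by
  have : Finite {x | F ι x} := Set.Finite.subset (Set.finite_range fun i => ι (p5 i))
    fun x ⟨i, t⟩ => ⟨i, t.symm⟩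
  have k : g ∈ normalizer {x | F ι x} := mem_normalizer_fintype (by
    rintro _ ⟨i, rfl⟩
    obtain ⟨_, ⟨j, rfl⟩, t⟩ := e i
    exact ⟨j, t⟩)
  exact funext fun x => propext (mem_set_normalizer_iff''.1 k x).symm

theorem FN {g x : G} (hg : g ∈ N ι) : F ι (g⁻¹ * x * g) ↔ F ι x :=
  Iff.of_eq (congrArg (fun L : St G => L x) (show g • F ι = F ι from hg))

theorem SN (s : UT) : ι s ∈ N ι :=
  memN fun i => ⟨_, (u3 i).2.2.2.2.2.2.1 s, by simp⟩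

theorem Fcomm {x y : G} (a : F ι x) (b : F ι y) : Commute x y := by
  obtain ⟨i, rfl⟩ := a
  obtain ⟨j, rfl⟩ := b
  exact Commute.map ((u3 i).2.2.2.2.2.2.2 j).1 ι

variable (T : TS ι s₂ h w)
include T

theorem c2 {x : UT} (hx : x ∈ Qu) : s₂ * ι x * s₂⁻¹ = ι (σ2 x) :=
  cj_sg (.inr (T.a2 (1, 8) (by simp))) (.inl (u2 x hx).2.2.1) (.inr (T.a2 (4, 16) (by simp)))
    (T.a2 (8, 1) (by simp)) (T.a2 (16, 4) (by simp)) (T.a2 (32, 32) (by simp))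

theorem ch (x : UT) : h * ι x * h⁻¹ = ι (σh x) :=
  cj_sg (.inr (T.ah (1, 4) (by simp))) (.inr (T.ah (2, 2) (by simp)))
    (.inr (T.ah (4, 5) (by simp))) (T.ah (8, 16) (by simp)) (T.ah (16, 56) (by simp))
    (T.ah (32, 32) (by simp))

theorem cw {x : UT} (hx : x ∈ Au) : w * ι x * w⁻¹ = ι (σw x) :=
  cj_sg (.inl (u1 x hx).2.2.2.2.1) (.inr (T.aw (2, 32) (by simp))) (.inl (u1 x hx).2.2.2.2.2)
    (T.aw (8, 50) (by simp)) (T.aw (16, 42) (by simp)) (T.aw (32, 2) (by simp))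

theorem hN : h ∈ N ι := memN fun i => ⟨_, (u3 i).2.2.1, ch T _⟩

theorem wN : w ∈ N ι := memN fun i => ⟨_, (u3 i).2.2.2.1, cw T (u3 i).1⟩

theorem exists_run (l : List ℕ) : ∃ n ∈ N ι, ∀ x ∈ Au, run l x ∈ Au ∧ n * ι x * n⁻¹ = ι (run l x) := by
  induction l with
  | nil => exact ⟨1, one_mem _, fun x hx => ⟨hx, by simp [run]⟩⟩
  | cons i l ih =>
    obtain ⟨n, hn, e⟩ := ih
    have k : ∃ m ∈ N ι, ∀ x ∈ Au, mv i x ∈ Au ∧ m * ι x * m⁻¹ = ι (mv i x) := by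
      unfold mv
      split_ifs
      exacts [⟨_, SN (el 1), fun x hx => ⟨(u1 x hx).1, by simp⟩⟩,
        ⟨_, SN (el 4), fun x hx => ⟨(u1 x hx).2.1, by simp⟩⟩,
        ⟨_, hN T, fun x hx => ⟨(u1 x hx).2.2.1, ch T x⟩⟩,
        ⟨_, wN T, fun x hx => ⟨(u1 x hx).2.2.2.1, cw T hx⟩⟩]
    obtain ⟨m, hm, e'⟩ := k
    refine ⟨m * n, mul_mem hm hn, fun x hx => ⟨(e' _ (e x hx).1).1, ?_⟩⟩
    rw [show run (i :: l) x = mv i (run l x) from rfl, ← (e' _ (e x hx).1).2, ← (e x hx).2]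
    group

theorem cn {x : UT} (hx : x ∈ Au) (h1 : x ≠ 1) :
    ∃ n ∈ N ι, n * ι (if P5 x then el 32 else el 8) * n⁻¹ = ι x := by
  obtain ⟨l, -, e⟩ := u4 x hx h1
  obtain ⟨n, hn, k⟩ := exists_run T l
  refine ⟨n, hn, ((k _ ?_).2.trans (congrArg ι e))⟩
  split_ifs <;> decide

theorem cz5 (i : Fin 5) : ∃ n ∈ N ι, n * ι (el 32) * n⁻¹ = ι (p5 i) := by
  have := cn T (u3 i).1 (u3 i).2.1
  rwa [if_pos ⟨i, rfl⟩] at this

theorem ct {x : UT} (hx : x ∈ Au) (h1 : x ≠ 1) (h2 : ¬ P5 x) :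
    ∃ n ∈ N ι, n * ι (el 8) * n⁻¹ = ι x := by
  have := cn T hx h1
  rwa [if_neg h2] at this

/-- the involutions of `S` outside the five points -/
theorem ct3 {x : UT} (hx : x * x = 1) (h1 : x ≠ 1) (h2 : ¬ P5 x) : ∃ n ∈ N ι, ∃ k,
    (k = 1 ∨ k = s₂ ∨ k = ι (el 2) * s₂) ∧ k * n * ι (el 8) * (k * n)⁻¹ = ι x := by
  rcases u5 x hx with a | ⟨v, a, b, c, d, e⟩
  · obtain ⟨n, hn, t⟩ := ct T a h1 h2
    exact ⟨n, hn, 1, .inl rfl, by rw [one_mul, t]⟩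
  · obtain ⟨n, hn, t⟩ := ct T a d c
    rcases e with rfl | rfl
    · exact ⟨n, hn, _, .inr (.inl rfl), by rw [← c2 T b, ← t]; group⟩
    · exact ⟨n, hn, _, .inr (.inr rfl), by rw [map_mul, map_mul, map_inv, ← c2 T b, ← t]; group⟩

omit T in
theorem z2 : ι (el 32) * ι (el 32) = 1 := by rw [← map_mul]; exact ι.map_one

omit T in
theorem t2 : ι (el 8) * ι (el 8) = 1 := by rw [← map_mul]; exact ι.map_one

theorem ne1 {x : UT} (a : x ≠ 1) : ι x ≠ 1 := fun e => a (T.inj (e.trans ι.map_one.symm))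

theorem sqz {x : G} (a : IsConj (ι (el 32)) x) : x * x = 1 ∧ x ≠ 1 := by
  obtain ⟨c, rfl⟩ := isConj_iff.1 a
  exact ⟨by rw [conj_mul, z2]; simp, by simpa using ne1 T (x := el 32) (by decide)⟩

theorem f1 {x : UT} (a : IsConj (ι (el 32)) (ι x)) : P5 x := by
  by_contra b
  obtain ⟨n, -, k, -, t⟩ := ct3 T (T.inj (by rw [map_mul, (sqz T a).1, map_one]))
    (fun e => (sqz T a).2 (by rw [e, map_one])) b
  exact T.nc (a.trans (isConj_iff.2 ⟨_, t⟩).symm)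

theorem Fz {x : G} (a : F ι x) : IsConj (ι (el 32)) x := by
  obtain ⟨i, rfl⟩ := a
  obtain ⟨n, -, t⟩ := cz5 T i
  exact isConj_iff.2 ⟨n, t⟩

variable [Finite G]

theorem into {M : Subgroup G} (hM : ∀ s, ι s ∈ M) {x : G} (hx : x ∈ M) (h2 : x * x = 1) :
    ∃ n ∈ M, ∃ y, n * x * n⁻¹ = ι y := by
  have : Fact (Nat.Prime 2) := ⟨Nat.prime_two⟩
  obtain ⟨n, hn, y, t⟩ := (T.syl.mono (K := M) (by rintro _ ⟨s, rfl⟩; exact hM s)
    le_top).exists_conj_mem hx ⟨1, by rw [pow_one, sq, h2]⟩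
  exact ⟨n, hn, y, t.symm⟩

theorem cls {x : G} (h2 : x * x = 1) (h1 : x ≠ 1) :
    IsConj (ι (el 32)) x ∨ IsConj (ι (el 8)) x := by
  obtain ⟨n, -, y, t⟩ := into T (M := ⊤) (fun _ => trivial) trivial h2
  have c : IsConj (ι y) x := (isConj_iff.2 ⟨n, t⟩).symm
  by_cases b : P5 y
  · obtain ⟨i, rfl⟩ := b
    exact .inl ((Fz T ⟨i, rfl⟩).trans c)
  · obtain ⟨m, -, k, -, t'⟩ := ct3 T (T.inj (by rw [map_mul, ← t, conj_mul, h2]; simp))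
      (fun e => h1 (Eq.symm (by simpa [e] using c))) b
    exact .inr ((isConj_iff.2 ⟨_, t'⟩).trans c)

theorem zM {M : Subgroup G} (hM : ∀ s, ι s ∈ M) {x : G} (hx : x ∈ M)
    (a : IsConj (ι (el 32)) x) : ∃ n ∈ M, F ι (n * x * n⁻¹) := by
  obtain ⟨n, hn, y, t⟩ := into T hM hx (sqz T a).1
  obtain ⟨i, rfl⟩ := f1 T (x := y) (a.trans (isConj_iff.2 ⟨n, t⟩))
  exact ⟨n, hn, i, t⟩

theorem zN {x : G} (hx : x ∈ N ι) (a : IsConj (ι (el 32)) x) : F ι x := by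
  obtain ⟨n, hn, t⟩ := zM T SN hx a
  exact (FN (inv_mem hn)).1 (by rwa [inv_inv])

theorem fixN {x : G} (hx : x ∈ N ι) (h2 : x * x = 1) : ∃ y, F ι y ∧ Commute x y := by
  obtain ⟨n, hn, y, t⟩ := into T SN hx h2
  refine ⟨n⁻¹ * ι (el 32) * n, (FN hn).2 ⟨0, rfl⟩, ?_⟩
  have := (Commute.map (u6 y).1 ι).map (MulAut.conj n⁻¹)
  rw [← t] at this
  simpa [mul_assoc] using this

variable (hO : OO (𝒞₁ (ι (el 32))) = ⊥)
include hO

theorem nQ {g : G} (hg : g ∈ 𝒞₁ (ι (el 32))) {x : UT} (hx : x ∈ Qu) :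
    ∃ y ∈ Qu, g * ι x * g⁻¹ = ι y := by
  obtain ⟨o, ho, n, hn, rfl⟩ := T.cz g hg
  rw [hO, mem_bot] at ho
  have k : ∀ g : G, (∀ x ∈ Qu, ∃ y ∈ Qu, g * ι x * g⁻¹ = ι y) → g ∈ 𝒩 (Qu.map ι) := fun g e =>
    mem_normalizer_fintype (by
      rintro _ ⟨x, hx, rfl⟩
      obtain ⟨y, hy, t⟩ := e x hx
      exact ⟨y, hy, t.symm⟩)
  have : ι.range ⊔ zpowers s₂ ⊔ zpowers h ≤ 𝒩 (Qu.map ι) := sup_le (sup_le
    (by rintro _ ⟨s, rfl⟩; exact k _ fun x hx => ⟨_, (u2 x hx).2.2.2 s, by simp⟩)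
    (zpowers_le.2 (k _ fun x hx => ⟨_, (u2 x hx).1, c2 T hx⟩)))
    (zpowers_le.2 (k _ fun x hx => ⟨_, (u2 x hx).2.1, ch T x⟩))
  obtain ⟨y, hy, t⟩ := (mem_normalizer_iff.1 (this hn) _).1 ⟨x, hx, rfl⟩
  exact ⟨y, hy, by rw [ho, one_mul, t]⟩

theorem cD {g : G} (hg : g * ι (el 32) * g⁻¹ = ι (el 32)) (h2 : g * ι (el 50) * g⁻¹ = ι (el 50)) :
    g ∈ N ι := by
  have hz : g ∈ 𝒞₁ (ι (el 32)) := mem_centralizer_singleton_iff.2 (mul_inv_eq_iff_eq_mul.1 hg)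
  refine memN fun i => ?_
  suffices ∃ y, g * ι (p5 i) * g⁻¹ = ι y from this.imp fun y t =>
    ⟨f1 T ((Fz T ⟨i, rfl⟩).trans (isConj_iff.2 ⟨g, t⟩)), t⟩
  rcases (u6 (p5 i)).2 with a | a
  · exact (nQ T hO hz a).imp fun _ t => t.2
  · obtain ⟨y, -, t⟩ := nQ T hO hz a
    refine ⟨(el 50)⁻¹ * y, ?_⟩
    rw [map_mul, map_inv, ← t, ← h2, map_mul]
    group

variable (hT : ∀ g ∈ 𝒞₁ (ι (el 8)),
  g * ι (el 2) * g⁻¹ = ι (el 2) ∨ g * ι (el 2) * g⁻¹ = ι (el 10))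
include hT

theorem cT {g : G} (hg : Commute g (ι (el 8))) : g ∈ N ι := by
  have k : ∀ g : G, g * ι (el 8) * g⁻¹ = ι (el 8) → g * ι (el 2) * g⁻¹ = ι (el 2) → g ∈ N ι :=
    fun g a b => by
      have := cD T hO (g := w * g * w⁻¹)
        (by rw [← T.aw (2, 32) (by simp)]; nth_rw 2 [← b]; group)
        (by rw [← T.aw (8, 50) (by simp)]; nth_rw 2 [← a]; group)
      simpa [mul_assoc] using mul_mem (mul_mem (inv_mem (wN T)) this) (wN T)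
  have a : g * ι (el 8) * g⁻¹ = ι (el 8) := mul_inv_eq_iff_eq_mul.2 hg
  rcases hT g (mem_centralizer_singleton_iff.2 hg) with b | b
  · exact k g a b
  · refine (mul_mem_cancel_left (SN (el 1))).1 (k _ ?_ ?_)
    · rw [show ι (el 1) * g * ι (el 8) * (ι (el 1) * g)⁻¹ =
        ι (el 1) * (g * ι (el 8) * g⁻¹) * (ι (el 1))⁻¹ by group, a, ← map_inv, ← map_mul,
        ← map_mul]
      exact congrArg ι (by decide +kernel)
    · rw [show ι (el 1) * g * ι (el 2) * (ι (el 1) * g)⁻¹ =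
        ι (el 1) * (g * ι (el 2) * g⁻¹) * (ι (el 1))⁻¹ by group, b, ← map_inv, ← map_mul,
        ← map_mul]
      exact congrArg ι (by decide +kernel)

end Cfsg.A8.ES
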