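import Cfsg.Agent.A8.E0
import Cfsg.Agent.A8.V2
import Cfsg.Agent.A8.ES4

/-! The relations between the corrected generators in type `A₈`. -/

set_option autoImplicit false
set_option maxRecDepth 100000
set_option synthInstance.maxSize 100000
set_option linter.unusedSectionVars false

namespace Cfsg.A8.ER

open Subgroup Cfsg.L0 Cfsg.H5 Cfsg.H8 Cfsg.FT Cfsg.GS.SFx

variable {G : Type} [Group G] [Finite G] {ι : UT →* G} {g h r r₁ r₂ r₃ s₁ s₂ s₃ : G}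
  {K K' : Subgroup UT} {σ τ : UT → UT}

/-- conjugation by `g` acts on `K` as `σ` -/
def CJ (ι : UT →* G) (g : G) (K : Subgroup UT) (σ : UT → UT) : Prop :=
  ∀ x ∈ K, σ x ∈ K ∧ g * ι x * g⁻¹ = ι (σ x)

theorem CJ.mul (a : CJ ι g K σ) (b : CJ ι h K τ) : CJ ι (g * h) K (fun x => σ (τ x)) := fun x hx =>
  ⟨(a _ (b x hx).1).1, by rw [← (a _ (b x hx).1).2, ← (b x hx).2]; group⟩

theorem CJ.of (u : UT) (k : ∀ x ∈ K, u * x * u⁻¹ ∈ K) : CJ ι (ι u) K (fun x => u * x * u⁻¹) :=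
  fun x hx => ⟨k x hx, by simp⟩

theorem CJ.mono (a : CJ ι g K σ) (k : ∀ x ∈ K', x ∈ K ∧ σ x ∈ K') : CJ ι g K' σ :=
  fun x hx => ⟨(k x hx).2, (a x (k x hx).1).2⟩

theorem CJ.pow (a : CJ ι g K σ) : ∀ n : ℕ, CJ ι (g ^ n) K σ^[n]
  | 0 => fun x hx => ⟨hx, by simp⟩
  | n + 1 => by rw [pow_succ]; exact (CJ.pow a n).mul a

theorem pin (hi : Function.Injective ι) (hc : ∀ g, (∀ y ∈ K, g * ι y * g⁻¹ = ι y) → g ∈ ι.range)
    (a : CJ ι g K σ) (n : ℕ) (e : ∀ x ∈ K, σ^[n] x = x) :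
    ∃ x, g ^ n = ι x ∧ (∀ y ∈ K, x * y * x⁻¹ = y) ∧ (x ∈ K → σ x = x) := by
  have k : ∀ y ∈ K, g ^ n * ι y * (g ^ n)⁻¹ = ι y := fun y hy => by rw [(a.pow n y hy).2, e y hy]
  obtain ⟨x, hx⟩ := hc _ k
  refine ⟨x, hx.symm, fun y hy => hi (by rw [map_mul, map_mul, map_inv, hx, k y hy]),
    fun hK => hi ?_⟩
  rw [← (a x hK).2, hx]; group

def σ1 : UT → UT := ES.sg 0 8 4 2 32 16
def σ3 : UT → UT := ES.sg 1 16 0 32 2 8

abbrev A1 (ι : UT →* G) (r : G) : Prop := Acts ι r [(2, 8), (8, 2), (4, 4), (16, 32), (32, 16)]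
abbrev A2 (ι : UT →* G) (r : G) : Prop := Acts ι r [(1, 8), (8, 1), (4, 16), (16, 4), (32, 32)]
abbrev A3 (ι : UT →* G) (r : G) : Prop := Acts ι r [(1, 1), (2, 16), (16, 2), (8, 32), (32, 8)]

theorem c1 (a : A1 ι r) : CJ ι r R1u σ1 := fun x hx =>
  have k : ∀ x ∈ R1u, σ1 x ∈ R1u ∧ Nat.land x.val 1 = 0 := by decide +kernel
  ⟨(k x hx).1, ES.cj_sg (.inl (k x hx).2) (.inr (a (2, 8) (by decide))) (.inr (a (4, 4) (by decide)))
    (a (8, 2) (by decide)) (a (16, 32) (by decide)) (a (32, 16) (by decide))⟩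

theorem c2 (a : A2 ι r) : CJ ι r Qu ES.σ2 := fun x hx =>
  have k : ∀ x ∈ Qu, ES.σ2 x ∈ Qu ∧ Nat.land x.val 2 = 0 := by decide +kernel
  ⟨(k x hx).1, ES.cj_sg (.inr (a (1, 8) (by decide))) (.inl (k x hx).2) (.inr (a (4, 16) (by decide)))
    (a (8, 1) (by decide)) (a (16, 4) (by decide)) (a (32, 32) (by decide))⟩

theorem c3 (a : A3 ι r) : CJ ι r R3u σ3 := fun x hx =>
  have k : ∀ x ∈ R3u, σ3 x ∈ R3u ∧ Nat.land x.val 4 = 0 := by decide +kernel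
  ⟨(k x hx).1, ES.cj_sg (.inr (a (1, 1) (by decide))) (.inr (a (2, 16) (by decide))) (.inl (k x hx).2)
    (a (8, 32) (by decide)) (a (16, 2) (by decide)) (a (32, 8) (by decide))⟩

theorem actsMul {L : List (ℕ × ℕ)} (a : Acts ι r L) (u : UT)
    (k : ∀ p ∈ L, u * el p.1 * u⁻¹ = el p.1) : Acts ι (r * ι u) L := fun p hp => by
  rw [← a p hp]
  conv_rhs => rw [← k p hp, map_mul, map_mul, map_inv]
  group

theorem cQ (H : Hyp ι) (hO : OO (𝒞₁ (ι (el 32))) = ⊥) (g : G)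
    (hg : ∀ y ∈ Qu, g * ι y * g⁻¹ = ι y) : g ∈ ι.range := by
  have : Fact (Nat.Prime 2) := ⟨Nat.prime_two⟩
  have l : 𝒞 (Qu.map ι) ≤ 𝒞₁ (ι (el 32)) := fun x hx =>
    mem_cent1.2 (mem_cent.1 hx _ ⟨el 32, (by decide +kernel : el 32 ∈ Qu), rfl⟩).symm
  have hS : IsSyl 2 ι.range (𝒞₁ (ι (el 32))) := H.syl.mono (by
    rintro _ ⟨x, rfl⟩
    exact V.cmm (ES.u6 x).1) le_top
  have hy : Hy ι.range (Qu.map ι) := ⟨map_le_range _ _, by
    rintro _ ⟨x, rfl⟩ _ ⟨y, rfl⟩ p q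
    have : ∀ x y : UT, x ∉ Qu → y ∉ Qu → x * y ∈ Qu := by decide +kernel
    exact ⟨_, this x y (fun e => p ⟨x, e, rfl⟩) fun e => q ⟨y, e, rfl⟩, map_mul ι x y⟩⟩
  have p : IsPGroup 2 (𝒞 (Qu.map ι)) := isPGroup_of_forall_coprime fun x hx c => by
    have := V.le_O H.sol (zpowers_le.2 (l hx)) (by rwa [Nat.card_zpowers, ← Nat.coprime_two_right])
      hS hy ((cent_symm (zpowers_le.2 hx)).trans (centralizer_le_normalizer _))
    rw [← OO_eq, hO] at this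
    exact mem_bot.1 (this (mem_zpowers x))
  have n : ι.range ≤ 𝒩 (Qu.map ι) := by
    rintro _ ⟨s, rfl⟩
    exact mem_normalizer_fintype (by
      rintro _ ⟨x, hx, rfl⟩
      exact ⟨_, (ES.u2 x hx).2.2.2 s, by simp⟩)
  rw [← H.syl.eq_of_le (pgroup_sup (n.trans (norm_le_norm_cent _)) p H.syl.isPGroup) le_sup_right
    le_top]
  refine mem_sup_left (mem_cent.2 ?_)
  rintro _ ⟨y, hy, rfl⟩
  exact (mul_inv_eq_iff_eq_mul.1 (hg y hy)).symm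

theorem six {b : G} (hb : b * b = 1) (h3 : (b * r) ^ 3 = 1) (c : b * r ^ 2 = r ^ 2 * b) :
    (r ^ 2) ^ 3 = 1 := by
  have ib : b⁻¹ = b := inv_eq_of_mul_eq_one_right hb
  have e1 : b * r * b = r⁻¹ * b * r⁻¹ := by
    have : b * r * b = (b * r) ^ 3 * (r⁻¹ * b⁻¹ * r⁻¹) := by simp only [pow_succ]; group
    rw [this, h3, one_mul, ib]
  have e2 : b * (r ^ 2)⁻¹ * b = (r ^ 2)⁻¹ := by
    calc _ = (r ^ 2)⁻¹ * (r ^ 2 * b) * (r ^ 2)⁻¹ * b := by group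
      _ = (r ^ 2)⁻¹ * (b * b) := by rw [← c]; group
      _ = _ := by rw [hb, mul_one]
  have e3 : r ^ 2 = r⁻¹ * (r ^ 2)⁻¹ * r⁻¹ := by
    calc r ^ 2 = r ^ 2 * (b * b) := by rw [hb, mul_one]
      _ = b * r * (b * b) * r * b := by rw [← mul_assoc, ← c, hb, pow_two]; group
      _ = (b * r * b) * (b * r * b) := by group
      _ = r⁻¹ * (b * (r ^ 2)⁻¹ * b) * r⁻¹ := by rw [e1]; group
      _ = _ := by rw [e2]
  calc _ = r ^ 2 * r ^ 4 := by group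
    _ = r⁻¹ * (r ^ 2)⁻¹ * r⁻¹ * r ^ 4 := by rw [← e3]
    _ = 1 := by group

theorem fix2 (H : Hyp ι) (hO : OO (𝒞₁ (ι (el 32))) = ⊥) (a : A2 ι s₂) :
    ∃ r, A2 ι r ∧ r * r = 1 ∧ (ι (el 2) * r) ^ 3 = 1 ∧ s₂ ∈ ι.range ⊔ zpowers r := by
  have zc : ∀ x : UT, (∀ y ∈ Qu, x * y * x⁻¹ = y) → x = 1 ∨ x = el 32 := by decide +kernel
  have k : ∀ r, A2 ι r → (ι (el 2) * r) ^ 3 = 1 → r * r = 1 := fun r a h3 => by
    obtain ⟨x, e, c, -⟩ := pin H.inj (cQ H hO) (c2 a) 2 (by decide +kernel)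
    rcases zc x c with rfl | rfl
    · rw [← pow_two, e, map_one]
    · have := six (V.sqq (by decide +kernel)) h3 (by
        rw [e, ← map_mul, ← map_mul, (ES.u6 _).1])
      rw [e, ← map_pow, ← map_one ι] at this
      exact absurd (H.inj this) (by decide +kernel)
  obtain ⟨x, e, c, -⟩ := pin H.inj (cQ H hO) ((CJ.of (el 2) (by decide +kernel)).mul (c2 a)) 3
    (by decide +kernel)
  rcases zc x c with rfl | rfl
  · rw [map_one] at e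
    exact ⟨s₂, a, k _ a e, e, mem_sup_right (mem_zpowers _)⟩
  · have a' := actsMul a (el 32) (by decide +kernel)
    have e' : (ι (el 2) * (s₂ * ι (el 32))) ^ 3 = 1 := by
      have c : Commute (ι (el 2) * s₂) (ι (el 32)) := e ▸ Commute.self_pow _ 3
      rw [← mul_assoc, c.mul_pow, e, ← map_pow, ← map_mul, ← map_one ι]
      exact congrArg ι (by decide +kernel)
    refine ⟨_, a', k _ a' e', e', ?_⟩
    simpa using mul_mem (mem_sup_right (mem_zpowers (s₂ * ι (el 32))))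
      (mem_sup_left (inv_mem (⟨el 32, rfl⟩ : ι (el 32) ∈ ι.range)) : _ ∈ ι.range ⊔ _)

theorem bruhat (a : A2 ι r) (q : r * r = 1) (t : (ι (el 2) * r) ^ 3 = 1)
    (hg : g ∈ ι.range ⊔ zpowers r) : (∃ x, g = ι x) ∨ ∃ x y, g = ι x * r * ι y := by
  have ir : r⁻¹ = r := inv_eq_of_mul_eq_one_right q
  have ib : (ι (el 2))⁻¹ = ι (el 2) := inv_eq_of_mul_eq_one_right (V.sqq (by decide +kernel))
  have br : r * ι (el 2) * r = ι (el 2) * r * ι (el 2) := by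
    have : r * ι (el 2) * r = (ι (el 2))⁻¹ * (ι (el 2) * r) ^ 3 * (r⁻¹ * (ι (el 2))⁻¹) := by
      simp only [pow_succ]; group
    rw [this, t, ir, ib]; group
  have hS : ∀ g u, ((∃ x, g = ι x) ∨ ∃ x y, g = ι x * r * ι y) →
      (∃ x, g * ι u = ι x) ∨ ∃ x y, g * ι u = ι x * r * ι y := by
    rintro _ u (⟨x, rfl⟩ | ⟨x, y, rfl⟩)
    · exact .inl ⟨x * u, (map_mul ι x u).symm⟩
    · exact .inr ⟨x, y * u, by rw [map_mul, mul_assoc]⟩
  have hr : ∀ g, ((∃ x, g = ι x) ∨ ∃ x y, g = ι x * r * ι y) →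
      (∃ x, g * r = ι x) ∨ ∃ x y, g * r = ι x * r * ι y := by
    rintro _ (⟨x, rfl⟩ | ⟨x, y, rfl⟩)
    · exact .inr ⟨x, 1, by simp⟩
    · have : ∀ y : UT, y ∈ Qu ∨ y * (el 2)⁻¹ ∈ Qu := by decide +kernel
      rcases this y with h | h
      · exact .inl ⟨x * ES.σ2 y, by rw [map_mul, ← (c2 a y h).2, ir]; group⟩
      · refine .inr ⟨x * ES.σ2 (y * (el 2)⁻¹) * el 2, el 2, ?_⟩
        rw [map_mul, map_mul, ← (c2 a _ h).2, map_mul, map_inv]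
        calc _ = ι x * (r * (ι y * (ι (el 2))⁻¹) * r⁻¹) * (r * ι (el 2) * r) := by group
          _ = _ := by rw [br]; group
  rw [zpowers_eq_closure, ← Subgroup.closure_eq ι.range, ← Subgroup.closure_union] at hg
  induction hg using closure_induction_right with
  | one => exact .inl ⟨1, (map_one ι).symm⟩
  | mul_right x hx y hy ih =>
    rcases hy with ⟨u, rfl⟩ | rfl
    exacts [hS _ u ih, hr _ ih]
  | mul_inv_cancel x hx y hy ih =>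
    rcases hy with ⟨u, rfl⟩ | rfl
    · exact map_inv ι u ▸ hS _ u⁻¹ ih
    · exact ir.symm ▸ hr _ ih

/-- the centralizer of the central involution -/
structure Z2 (ι : UT →* G) (r : G) : Prop extends Hyp ι where
  a : A2 ι r
  q : r * r = 1
  t : (ι (el 2) * r) ^ 3 = 1
  cz : 𝒞₁ (ι (el 32)) ≤ ι.range ⊔ zpowers r

theorem Z2.cen (Z : Z2 ι r) (k : el 32 ∈ K ∧ (el 8 ∈ K ∨ el 16 ∈ K)) (g : G)
    (hg : ∀ y ∈ K, g * ι y * g⁻¹ = ι y) : g ∈ ι.range := by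
  rcases bruhat Z.a Z.q Z.t (Z.cz (mem_cent1.2 (mul_inv_eq_iff_eq_mul.1 (hg _ k.1)))) with
    ⟨x, rfl⟩ | ⟨x, y, rfl⟩
  · exact ⟨x, rfl⟩
  have key : ∀ n ∈ [8, 16], ∀ y : UT, y * el n * y⁻¹ ∈ Qu ∧
      ∀ x : UT, x * ES.σ2 (y * el n * y⁻¹) * x⁻¹ ≠ el n := by decide +kernel
  have no : ∀ n ∈ [8, 16], el n ∉ K := fun n hn h => (key n hn y).2 x (Z.inj (by
    rw [← hg _ h, map_mul, map_mul, ← (c2 Z.a _ (key n hn y).1).2]
    simp only [map_mul, map_inv]; group))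
  exact (k.2.elim (no 8 (by decide)) (no 16 (by decide))).elim

theorem sqfix {L : List (ℕ × ℕ)} (a : Acts ι r L) {u v : ℕ} (p : (u, v) ∈ L) {x : UT}
    (e : r ^ 2 = ι x) (k : el v * x * el u = 1) : r * ι (el u) * (r * ι (el u)) = 1 := by
  calc _ = r * ι (el u) * r⁻¹ * r ^ 2 * ι (el u) := by rw [pow_two]; group
    _ = 1 := by rw [a _ p, e, ← map_mul, ← map_mul, k, map_one]

theorem Z2.fix1 (Z : Z2 ι r₂) (a : A1 ι r) : ∃ r', A1 ι r' ∧ r' * r' = 1 := by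
  obtain ⟨x, e, c, f⟩ := pin Z.inj (Z.cen (by decide +kernel)) (c1 a) 2 (by decide +kernel)
  have : ∀ x : UT, (∀ y ∈ R1u, x * y * x⁻¹ = y) → (x ∈ R1u → σ1 x = x) → x = 1 ∨ x = el 48 := by
    decide +kernel
  rcases this x c f with rfl | rfl
  · exact ⟨r, a, by rw [← pow_two, e, map_one]⟩
  · exact ⟨_, actsMul a (el 16) (by decide +kernel),
      sqfix a (v := 32) (by decide) e (by decide +kernel)⟩

theorem Z2.fix3 (Z : Z2 ι r₂) (a : A3 ι r) : ∃ r', A3 ι r' ∧ r' * r' = 1 := by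
  obtain ⟨x, e, c, f⟩ := pin Z.inj (Z.cen (by decide +kernel)) (c3 a) 2 (by decide +kernel)
  have : ∀ x : UT, (∀ y ∈ R3u, x * y * x⁻¹ = y) → (x ∈ R3u → σ3 x = x) → x = 1 ∨ x = el 40 := by
    decide +kernel
  rcases this x c f with rfl | rfl
  · exact ⟨r, a, by rw [← pow_two, e, map_one]⟩
  · exact ⟨_, actsMul a (el 8) (by decide +kernel),
      sqfix a (v := 32) (by decide) e (by decide +kernel)⟩

theorem Z2.t1 (Z : Z2 ι r₂) (a : A1 ι r) : (ι (el 1) * r) ^ 3 = 1 := by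
  obtain ⟨x, e, c, f⟩ := pin Z.inj (Z.cen (by decide +kernel))
    ((CJ.of (el 1) (by decide +kernel)).mul (c1 a)) 3 (by decide +kernel)
  have : ∀ x : UT, (∀ y ∈ R1u, x * y * x⁻¹ = y) → (x ∈ R1u → el 1 * σ1 x * (el 1)⁻¹ = x) →
      x = 1 := by decide +kernel
  rw [e, this x c f, map_one]

theorem Z2.t3 (Z : Z2 ι r₂) (a : A3 ι r) : (ι (el 4) * r) ^ 3 = 1 := by
  obtain ⟨x, e, c, f⟩ := pin Z.inj (Z.cen (by decide +kernel))
    ((CJ.of (el 4) (by decide +kernel)).mul (c3 a)) 3 (by decide +kernel)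
  have : ∀ x : UT, (∀ y ∈ R3u, x * y * x⁻¹ = y) → (x ∈ R3u → el 4 * σ3 x * (el 4)⁻¹ = x) →
      x = 1 := by decide +kernel
  rw [e, this x c f, map_one]

theorem Z2.c12 (Z : Z2 ι r₂) (a : A1 ι r) : (r * r₂) ^ 3 = 1 ∨ (r * r₂) ^ 3 = ι (el 52) := by
  obtain ⟨x, e, c, f⟩ := pin (K := U2u) Z.inj (Z.cen (by decide +kernel))
    (((c1 a).mono (by decide +kernel)).mul ((c2 Z.a).mono (by decide +kernel))) 3
    (by decide +kernel)
  have : ∀ x : UT, (∀ y ∈ U2u, x * y * x⁻¹ = y) → (x ∈ U2u → σ1 (ES.σ2 x) = x) →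
      x = 1 ∨ x = el 52 := by decide +kernel
  rcases this x c f with rfl | rfl
  exacts [.inl (e.trans (map_one ι)), .inr e]

theorem Z2.c23 (Z : Z2 ι r₂) (a : A3 ι r) : (r₂ * r) ^ 3 = 1 ∨ (r₂ * r) ^ 3 = ι (el 41) := by
  obtain ⟨x, e, c, f⟩ := pin (K := U1u) Z.inj (Z.cen (by decide +kernel))
    (((c2 Z.a).mono (by decide +kernel)).mul ((c3 a).mono (by decide +kernel))) 3
    (by decide +kernel)
  have : ∀ x : UT, (∀ y ∈ U1u, x * y * x⁻¹ = y) → (x ∈ U1u → ES.σ2 (σ3 x) = x) →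
      x = 1 ∨ x = el 41 := by decide +kernel
  rcases this x c f with rfl | rfl
  exacts [.inl (e.trans (map_one ι)), .inr e]

theorem Z2.c13 (Z : Z2 ι r₂) (a : A1 ι r₁) (q : r₁ * r₁ = 1) (b : A3 ι r₃) (q' : r₃ * r₃ = 1) :
    ∃ r, A1 ι r ∧ r * r = 1 ∧ (r * r₃) ^ 2 = 1 := by
  have m1 : CJ ι r₁ Au σ1 := (c1 a).mono (by decide +kernel)
  have m : CJ ι (r₁ * r₃) Au _ := m1.mul ((c3 b).mono (by decide +kernel))
  obtain ⟨x, e, c, f⟩ := pin Z.inj (Z.cen (by decide +kernel)) m 2 (by decide +kernel)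
  have i1 : r₁⁻¹ = r₁ := inv_eq_of_mul_eq_one_right q
  have i3 : r₃⁻¹ = r₃ := inv_eq_of_mul_eq_one_right q'
  have f' : x ∈ Au → σ1 x = x⁻¹ := fun hx => Z.inj (by
    rw [← (m1 x hx).2, map_inv, ← e, pow_two, mul_inv_rev, mul_inv_rev, i1, i3]
    calc _ = r₁ * r₁ * (r₃ * r₁ * (r₃ * r₁)) := by group
      _ = _ := by rw [q, one_mul])
  have : ∀ x : UT, (∀ y ∈ Au, x * y * x⁻¹ = y) → (x ∈ Au → σ1 (σ3 x) = x) →
      (x ∈ Au → σ1 x = x⁻¹) → x = 1 ∨ x = el 58 := by decide +kernel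
  rcases this x c f f' with rfl | rfl
  · exact ⟨r₁, a, q, e.trans (map_one ι)⟩
  · have u := (m1 (el 48) (by decide +kernel)).2
    have v := (m (el 48) (by decide +kernel)).2
    refine ⟨_, actsMul a (el 48) (by decide +kernel), ?_, ?_⟩
    · calc _ = r₁ * ι (el 48) * r₁⁻¹ * (r₁ * r₁) * ι (el 48) := by group
        _ = 1 := by
          rw [u, q, mul_one, ← map_mul, ← map_one ι]; exact congrArg ι (by decide +kernel)
    · calc _ = r₁ * ι (el 48) * r₁⁻¹ * (r₁ * r₃ * (r₁ * ι (el 48) * r₁⁻¹) * (r₁ * r₃)⁻¹) *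
            (r₁ * r₃) ^ 2 := by simp only [pow_two]; group
        _ = 1 := by
          rw [u, show σ1 (el 48) = el 48 by decide +kernel, v, e, ← map_mul, ← map_mul,
            ← map_one ι]
          exact congrArg ι (by decide +kernel)

end Cfsg.A8.ER

namespace Cfsg.A8

open Subgroup Cfsg.H5 Cfsg.FT Cfsg.H8

theorem taskE8R : TaskE8R := by
  intro G _ _ ι s₁ s₂ s₃ H hO
  obtain ⟨r₂, a2, q2, t2, m⟩ := ER.fix2 H.toHyp hO H.a2
  have cz : 𝒞₁ (ι (el 32)) ≤ ι.range ⊔ zpowers r₂ := fun g hg => by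
    obtain ⟨o, ho, n, hn, rfl⟩ := H.cz g hg
    rw [hO, mem_bot] at ho
    rw [ho, one_mul]
    exact (sup_le le_sup_left (zpowers_le.2 m) : _ ≤ ι.range ⊔ zpowers r₂) hn
  have Z : ER.Z2 ι r₂ := ⟨H.toHyp, a2, q2, t2, cz⟩
  obtain ⟨r, a, q⟩ := Z.fix1 H.a1
  obtain ⟨r₃, a3, q3⟩ := Z.fix3 H.a3
  obtain ⟨r₁, a1, q1, c⟩ := Z.c13 a q a3 q3
  exact ⟨r₁, r₂, r₃, ⟨H.toHyp, a1, a2, a3, fun g hg => ⟨1, one_mem _, g, cz hg, (one_mul g).symm⟩,
    H.nc⟩, q1, q2, q3, Z.t1 a1, t2, Z.t3 a3, c, Z.c12 a1, Z.c23 a3, cz⟩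

end Cfsg.A8
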