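import Cfsg.Agent.A8.ES4

/-! Fusion of type `PSp₄(3)`: the generalized quadrangle and the order of the group. -/

set_option autoImplicit false
set_option maxRecDepth 100000

namespace Cfsg.A8.ES

open Subgroup Cfsg.H5 Cfsg.FT Cfsg.H8 MulAction

variable {G : Type*} [Group G] {ι : UT →* G} {s₂ h w : G}

/-- the lines -/
abbrev Ln (ι : UT →* G) : Type _ := orbit G (F ι)

/-- incidence -/
def I (ι : UT →* G) (p : G) (L : Ln ι) : Prop := L.1 p

/-- the conjugate of the basic line -/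
def ln (ι : UT →* G) (g : G) : Ln ι := ⟨g • F ι, mem_orbit _ g⟩

theorem ex (L : Ln ι) : ∃ g, L = ln ι g := by
  obtain ⟨_, g, rfl⟩ := L
  exact ⟨g, rfl⟩

theorem I_ln {p g : G} : I ι p (ln ι g) ↔ F ι (g⁻¹ * p * g) := Iff.rfl

theorem I_smul {p : G} (g : G) (L : Ln ι) : I ι p (g • L) ↔ I ι (g⁻¹ * p * g) L := Iff.rfl

theorem ln_eq {g k : G} : ln ι g = ln ι k ↔ k⁻¹ * g ∈ N ι := by
  rw [ln, ln, Subtype.mk.injEq, mem_stabilizer_iff, mul_smul, inv_smul_eq_iff]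

theorem cm {x y : G} (g : G) (a : Commute x y) : Commute (g⁻¹ * x * g) (g⁻¹ * y * g) := by
  simpa using a.map (MulAut.conj g⁻¹)

theorem cm' {x y : G} (g : G) (a : Commute (g⁻¹ * x * g) (g⁻¹ * y * g)) : Commute x y := by
  simpa [mul_assoc] using cm g⁻¹ a

theorem ic (g x : G) : IsConj x (g⁻¹ * x * g) := isConj_iff.2 ⟨g⁻¹, by rw [inv_inv]⟩

theorem I.comm {p q : G} {L : Ln ι} (a : I ι p L) (b : I ι q L) : Commute p q := by
  obtain ⟨g, rfl⟩ := ex L
  exact cm' g (Fcomm a b)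

theorem adj_smul (g : G) (L M : Ln ι) : adj (I ι) (g • L) (g • M) ↔ adj (I ι) L M :=
  and_congr (MulAction.injective g).ne_iff ⟨fun ⟨_, a, b⟩ => ⟨_, a, b⟩, fun ⟨p, a, b⟩ =>
    ⟨g * p * g⁻¹, by simpa [I_smul, mul_assoc] using a, by simpa [I_smul, mul_assoc] using b⟩⟩

variable (T : TS ι s₂ h w)
include T

theorem I.z {p : G} {L : Ln ι} (a : I ι p L) : IsConj (ι (el 32)) p := by
  obtain ⟨g, rfl⟩ := ex L
  exact (Fz T a).trans (ic g p).symm

theorem flag {p : G} {L : Ln ι} (a : I ι p L) : ∃ g, L = ln ι g ∧ p = g * ι (el 32) * g⁻¹ := by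
  obtain ⟨g, rfl⟩ := ex L
  obtain ⟨i, e⟩ := a
  obtain ⟨n, hn, t⟩ := cz5 T i
  refine ⟨g * n, (ln_eq.2 (by simpa using hn)).symm, ?_⟩
  rw [show g * n * ι (el 32) * (g * n)⁻¹ = g * (n * ι (el 32) * n⁻¹) * g⁻¹ by group, t, ← e]
  group

theorem tl {p s : G} {L : Ln ι} (a : I ι p L) (b : I ι s L) (n : p ≠ s) :
    ∃ g, L = ln ι g ∧ p * s = g * ι (el 8) * g⁻¹ := by
  obtain ⟨g, rfl⟩ := ex L
  obtain ⟨i, e⟩ := a
  obtain ⟨j, e'⟩ := b
  have ij : i ≠ j := by
    rintro rfl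
    exact n (by simpa using e.trans e'.symm)
  obtain ⟨-, c1, c2, c3⟩ := ((u3 i).2.2.2.2.2.2.2 j).2 ij
  obtain ⟨m, hm, t⟩ := ct T c1 c2 c3
  refine ⟨g * m, (ln_eq.2 (by simpa using hm)).symm, ?_⟩
  rw [show g * m * ι (el 8) * (g * m)⁻¹ = g * (m * ι (el 8) * m⁻¹) * g⁻¹ by group, t, map_mul,
    ← e, ← e']
  group

variable [Finite G]

theorem nb : s₂⁻¹ * ι (el 2) * s₂ ∉ N ι := fun a => by
  obtain ⟨i, e⟩ := zN T a ((Fz T ⟨1, rfl⟩).trans (ic _ _))
  have b : Commute (ι (p5 i)) (ι (el 16)) := Commute.map (u3 i).2.2.2.2.2.1 ι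
  have c : ι (el 16) = s₂⁻¹ * ι (el 4) * s₂ := by rw [← T.a2 (16, 4) (by simp)]; group
  rw [← e, c] at b
  have d := (cm' _ b).eq
  rw [← map_mul, ← map_mul] at d
  exact absurd (T.inj d) (by decide +kernel)

theorem col {p q : G} (a : IsConj (ι (el 32)) p) (b : IsConj (ι (el 32)) q) (c : Commute p q) :
    ∃ M, I ι p M ∧ I ι q M := by
  obtain ⟨k, rfl⟩ := isConj_iff.1 a
  have hS : ∀ s, ι s ∈ 𝒞₁ (ι (el 32)) := fun s =>
    mem_centralizer_singleton_iff.2 (Commute.map (u6 s).1 ι)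
  obtain ⟨n, hn, t⟩ := zM T hS (x := k⁻¹ * q * k) (mem_centralizer_singleton_iff.2 (by
    simpa [mul_assoc] using (cm k c.symm).eq)) (b.trans (ic _ _))
  refine ⟨ln ι (k * n⁻¹), ⟨0, ?_⟩, ?_⟩
  · rw [show (k * n⁻¹)⁻¹ * (k * ι (el 32) * k⁻¹) * (k * n⁻¹) = n * ι (el 32) * n⁻¹ by group,
      mem_centralizer_singleton_iff.1 hn, mul_inv_cancel_right]
    rfl
  · rwa [I_ln, show (k * n⁻¹)⁻¹ * q * (k * n⁻¹) = n * (k⁻¹ * q * k) * n⁻¹ by group]

variable (hO : OO (𝒞₁ (ι (el 32))) = ⊥) (hT : ∀ g ∈ 𝒞₁ (ι (el 8)),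
  g * ι (el 2) * g⁻¹ = ι (el 2) ∨ g * ι (el 2) * g⁻¹ = ι (el 10))
include hO hT

theorem cT' {g x : G} (c : Commute x (g * ι (el 8) * g⁻¹)) : g⁻¹ * x * g ∈ N ι :=
  cT T hO hT (by simpa [mul_assoc] using cm g c)

theorem up {g x : G} (a : IsConj (ι (el 32)) x) (c : Commute x (g * ι (el 8) * g⁻¹)) :
    I ι x (ln ι g) := zN T (cT' T hO hT c) (a.trans (ic _ _))

theorem pl : PL (I ι) where
  ext := fun e => Subtype.ext (funext fun p => propext (e p))
  U := fun a b n c d e f => by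
    obtain ⟨g, rfl, t⟩ := tl T a b n
    exact up T hO hT (c.z T) (t ▸ (c.comm d).mul_right (e.comm f))
  gq := fun {p K} L a => by
    obtain ⟨g, rfl⟩ := ex L
    have pz := a.z T
    have s2 : g * ι (el 8) * g⁻¹ * (g * ι (el 8) * g⁻¹) = 1 := by rw [conj_mul, t2]; simp
    obtain ⟨u, u1, u2, c1, c2⟩ := exists_cen (sqz T pz).1 s2
      fun e => T.nc (pz.trans (e.trans (isConj_iff.2 ⟨g, rfl⟩).symm))
    rcases cls T u2 u1 with e | e
    · obtain ⟨M, b, c⟩ := col T pz e c1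
      exact ⟨M, u, b, c, up T hO hT e c2.symm⟩
    · obtain ⟨k, rfl⟩ := isConj_iff.1 e
      obtain ⟨y, y1, y2⟩ := fixN T (cT' T hO hT c2) (by
        rw [show ∀ a : G, k⁻¹ * a * k * (k⁻¹ * a * k) = k⁻¹ * (a * a) * k from fun a => by group,
          s2]; simp)
      have e : k⁻¹ * (k * y * k⁻¹) * k = y := by group
      refine ⟨ln ι k, k * y * k⁻¹, up T hO hT pz c1, by rwa [I_ln, e], up T hO hT
        ((Fz T y1).trans (isConj_iff.2 ⟨k, rfl⟩)) (cm' k (by rw [e]; exact y2.symm))⟩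
  five := fun L => by
    obtain ⟨g, rfl⟩ := ex L
    refine ⟨fun i => g * ι (p5 i) * g⁻¹, fun i j e => ?_, fun q => exists_congr fun i =>
      ⟨fun e => by beta_reduce; rw [← e]; group, fun e => by rw [e]; group⟩⟩
    by_contra n
    exact (((u3 i).2.2.2.2.2.2.2 j).2 n).1 (T.inj (by simpa using e))
  three := fun {p L} a => by
    obtain ⟨g, rfl, rfl⟩ := flag T a
    have z1 : s₂⁻¹ * ι (el 32) * s₂ = ι (el 32) := by
      nth_rw 1 [← T.a2 (32, 32) (by simp)]; group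
    have z2 : (ι (el 2))⁻¹ * ι (el 32) * ι (el 2) = ι (el 32) := by
      rw [mul_assoc, ← (Commute.map (u6 (el 2)).1 ι).eq, inv_mul_cancel_left]
    have n1 : s₂ ∉ N ι := fun e => nb T (mul_mem (mul_mem (inv_mem e) (SN _)) e)
    refine ⟨ln ι (g * s₂), ln ι (g * (ι (el 2) * s₂)), ⟨0, ?_⟩, ⟨0, ?_⟩, fun e => n1 ?_,
      fun e => n1 ?_, fun e => nb T ?_, fun M b => ?_⟩
    · rw [← show ι (el 32) = ι (p5 0) from rfl]
      nth_rw 2 [← z1]; group
    · rw [← show ι (el 32) = ι (p5 0) from rfl]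
      nth_rw 2 [← z1, ← z2]; group
    · simpa using ln_eq.1 e.symm
    · exact (mul_mem_cancel_left (SN (el 2))).1 (by simpa using ln_eq.1 e.symm)
    · simpa [mul_assoc] using ln_eq.1 e.symm
    · obtain ⟨k, rfl, e⟩ := flag T b
      have c : g⁻¹ * k ∈ 𝒞₁ (ι (el 32)) := mem_centralizer_singleton_iff.2 (by
        rw [mul_assoc, mul_inv_eq_iff_eq_mul.1 e.symm]; group)
      obtain ⟨y, -, t⟩ := nQ T hO c (x := el 8) (by decide)
      have ty : IsConj (ι (el 8)) (ι y) := isConj_iff.2 ⟨_, t⟩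
      obtain ⟨n, hn, j, hj, t'⟩ := ct3 T (x := y)
        (T.inj (by rw [map_mul, ← t, conj_mul, t2]; simp))
        (fun e => ne1 T (x := el 8) (by decide) (by simpa [e] using ty))
        (fun ⟨i, e⟩ => T.nc ((Fz T ⟨i, congrArg ι e⟩).trans ty.symm))
      have m : ln ι k = ln ι (g * j) := by
        have := cT T hO hT (g := (j * n)⁻¹ * (g⁻¹ * k)) (by
          refine mul_inv_eq_iff_eq_mul.1 ?_
          rw [show (j * n)⁻¹ * (g⁻¹ * k) * ι (el 8) * ((j * n)⁻¹ * (g⁻¹ * k))⁻¹ =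
            (j * n)⁻¹ * (g⁻¹ * k * ι (el 8) * (g⁻¹ * k)⁻¹) * (j * n) by group, t, ← t']
          group)
        exact ln_eq.2 (by simpa [mul_assoc] using mul_mem hn this)
      rcases hj with rfl | rfl | rfl
      exacts [.inl (by rw [m, mul_one]), .inr (.inl m), .inr (.inr m)]

theorem faithful : FaithfulSMul G (Ln ι) := by
  have P := pl T hO hT
  let K := (toPermHom G (Ln ι)).ker
  have k1 : ∀ g ∈ K, ∀ L : Ln ι, g • L = L := fun g hg L => congrArg (fun f => f.1 L) hg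
  have k2 : ∀ g ∈ K, Commute g (ι (el 2)) := fun g hg => by
    have a : I ι (ι (el 2)) (ln ι 1) := ⟨1, by simp; rfl⟩
    obtain ⟨M, -, b, -, n, -⟩ := P.three a
    have := P.one n a b ((I_smul g _).1 (by rwa [k1 g hg])) ((I_smul g _).1 (by rwa [k1 g hg]))
    rw [mul_assoc, eq_inv_mul_iff_mul_eq] at this
    exact this
  have k3 : ∀ x y, IsConj x y → y ∈ K → x ∈ K := fun x y c hy => by
    obtain ⟨g, rfl⟩ := isConj_iff.1 c.symm
    exact (MonoidHom.normal_ker _).conj_mem _ hy g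
  have k4 : (Nat.card K).Coprime 2 := by
    rw [Nat.coprime_comm, Nat.prime_two.coprime_iff_not_dvd]
    intro d
    have : Fact (Nat.Prime 2) := ⟨Nat.prime_two⟩
    obtain ⟨y, hy⟩ := exists_prime_orderOf_dvd_card' 2 d
    rw [← Subgroup.orderOf_coe, orderOf_eq_prime_iff, sq] at hy
    rcases cls T hy.1 hy.2 with c | c
    · have := k3 _ _ (((Fz T ⟨1, rfl⟩).trans (ic s₂ _)).symm.trans c) y.2
      exact nb T (congrArg Subtype.val (k1 _ this ⟨_, mem_orbit_self _⟩))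
    · have := (k2 _ (k3 _ _ ((isConj_iff.2 ⟨_, T.a2 (1, 8) (by simp)⟩).trans c) y.2)).eq
      rw [← map_mul, ← map_mul] at this
      exact absurd (T.inj this) (by decide +kernel)
  have k5 : K ≤ pPrimeCore 2 G := le_sSup ⟨MonoidHom.normal_ker _, k4⟩
  rw [T.odd, le_bot_iff, MonoidHom.ker_eq_bot_iff] at k5
  exact ⟨fun e => k5 (Equiv.ext e)⟩

omit hO hT in
theorem card_ge (e : Fin 27 ≃ Ln ι) : 25920 ≤ Nat.card G := by
  have i : (N ι).index = 27 := by
    rw [index_stabilizer, ← Nat.card_coe_set_eq, ← Nat.card_congr e, Nat.card_fin]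
  have k : ∀ (p : ℕ) (l : List ℕ) (x : UT), p.Prime → x ∈ Au → (run l)^[p] x = x → run l x ≠ x →
      p ∣ Nat.card (N ι) := fun p l x hp hx a b => by
    obtain ⟨n, hn, t⟩ := exists_run T l
    have u : ∀ m : ℕ, (run l)^[m] x ∈ Au ∧ n ^ m * ι x * (n ^ m)⁻¹ = ι ((run l)^[m] x) := fun m => by
      induction m with
      | zero => exact ⟨hx, by simp⟩
      | succ m ih =>
        rw [Function.iterate_succ_apply']
        refine ⟨(t _ ih.1).1, ?_⟩
        rw [← (t _ ih.1).2, ← ih.2, pow_succ']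
        group
    refine (dvd_ord hp (x := ι x) (mul_inv_eq_iff_eq_mul.1 ((u p).2.trans (congrArg ι a)))
      fun c => b (T.inj ((t x hx).2.symm.trans (mul_inv_eq_iff_eq_mul.2 c)))).trans
      (orderOf_dvd_natCard _ hn)
  have d3 := k 3 [2] (el 8) (by norm_num) (by decide) (by decide +kernel) (by decide +kernel)
  have d5 := k 5 [0, 3] (el 32) (by norm_num) (by decide) (by decide +kernel) (by decide +kernel)
  have d64 : 64 ∣ Nat.card (N ι) := by
    rw [← card_UT, Nat.card_congr (MonoidHom.ofInjective T.inj).toEquiv]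
    exact card_dvd_of_le (by rintro _ ⟨s, rfl⟩; exact SN s)
  have := (N ι).index_mul_card
  have p : 0 < Nat.card (N ι) := Nat.card_pos
  rw [i] at this
  omega

theorem main {Y : Subgroup (Equiv.Perm (Fin 27))} (hY : Y ≤ H7.R3.Aut r0)
    (cY : Nat.card Y = 25920) : Nonempty (G ≃* Y) := by
  obtain ⟨e, he⟩ := (pl T hO hT).gQ.lab (ln ι 1)
  have := faithful T hO hT
  refine iso_of_gq (fun L hL => ?_) e he adj_smul (card_ge T e) hY cY
  have := Subgroup.normal_of_index_eq_two hL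
  have : Fact (Nat.Prime 2) := ⟨Nat.prime_two⟩
  have h4 := H7.pResidual_le_of_isPGroup_quotient (p := 2) (N := L) (IsPGroup.of_card (n := 1) hL)
  rw [T.res, top_le_iff] at h4
  rw [h4, Subgroup.index_top] at hL
  exact absurd hL (by norm_num)

end Cfsg.A8.ES
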