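import Cfsg.Agent.A8.ES5
import Cfsg.Agent.A8.ES2

/-! Fusion of type `PSp₄(3)`: the identification. -/

set_option autoImplicit false

namespace Cfsg.A8

theorem taskES : TaskES := fun G _ _ ι s₂ h w T hO hT => by
  obtain ⟨Y, a, b, ⟨e⟩⟩ := ES.model
  obtain ⟨f⟩ := ES.main T hO hT a b
  exact ⟨f.trans e⟩

end Cfsg.A8
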