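import Cfsg.Agent.A8.W1

/-! Linear actions on sections of the Sylow subgroup, coded by numbers. -/

set_option autoImplicit false
set_option linter.unusedSectionVars false
set_option maxRecDepth 100000

namespace Cfsg.A8.F

open Subgroup Cfsg.L0 Cfsg.H8 Cfsg.FT Cfsg.H5

def lin (p q r s v : ℕ) : ℕ :=
  Nat.xor (Nat.xor (Nat.mul p (bt v 0)) (Nat.mul q (bt v 1)))
    (Nat.xor (Nat.mul r (bt v 2)) (Nat.mul s (bt v 3)))
def pk (p q r s : ℕ) : ℕ := p + 16 * q + 256 * r + 4096 * s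
def ap (m v : ℕ) : ℕ := lin (m % 16) (m / 16 % 16) (m / 256 % 16) (m / 4096) v
def cp (m k : ℕ) : ℕ := pk (ap m (k % 16)) (ap m (k / 16 % 16)) (ap m (k / 256 % 16)) (ap m (k / 4096))
def evC (L : List ℕ) (one : ℕ) (w : List ℕ) : ℕ := w.foldr (fun l r => cp (L.getD l one) r) one

theorem ap_pk {p q r s : ℕ} (hp : p < 16) (hq : q < 16) (hr : r < 16) (v : ℕ) :
    ap (pk p q r s) v = lin p q r s v := by
  have h1 : pk p q r s % 16 = p := by unfold pk; omega
  have h2 : pk p q r s / 16 % 16 = q := by unfold pk; omega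
  have h3 : pk p q r s / 256 % 16 = r := by unfold pk; omega
  have h4 : pk p q r s / 4096 = s := by unfold pk; omega
  rw [ap, h1, h2, h3, h4]

theorem cp_pk {p q r s : ℕ} (hp : p < 16) (hq : q < 16) (hr : r < 16) (m : ℕ) :
    cp m (pk p q r s) = pk (ap m p) (ap m q) (ap m r) (ap m s) := by
  have h1 : pk p q r s % 16 = p := by unfold pk; omega
  have h2 : pk p q r s / 16 % 16 = q := by unfold pk; omega
  have h3 : pk p q r s / 256 % 16 = r := by unfold pk; omega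
  have h4 : pk p q r s / 4096 = s := by unfold pk; omega
  rw [cp, h1, h2, h3, h4]

theorem ap_zero (m : ℕ) : ap m 0 = 0 := by simp [ap, lin, bt]

theorem lin_of_add {ψ : ℕ → ℕ} {n : ℕ} (hn : n = 8 ∨ n = 16) (h0 : ψ 0 = 0)
    (h : ∀ v < n, ∀ w < n, ψ (Nat.xor v w) = Nat.xor (ψ v) (ψ w)) (v : ℕ) (hv : v < n) :
    ψ v = lin (ψ 1) (ψ 2) (ψ 4) (ψ 8) v := by
  have n8 : 8 ≤ n := by omega
  have h3 : ψ 3 = _ := h 1 (by omega) 2 (by omega)
  have h5 : ψ 5 = _ := h 1 (by omega) 4 (by omega)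
  have h6 : ψ 6 = _ := h 2 (by omega) 4 (by omega)
  have h7 : ψ 7 = _ := h 3 (by omega) 4 (by omega)
  have k : ∀ v < 8, ψ v = lin (ψ 1) (ψ 2) (ψ 4) (ψ 8) v := fun v hv => by
    interval_cases v <;> simp [lin, bt, Nat.shiftRight, h0, h3, h5, h6, h7]
  by_cases h8 : v < 8
  · exact k v h8
  have e : v = Nat.xor (v - 8) 8 := by
    have : v < 16 := by omega
    interval_cases v <;> rfl
  have := h (v - 8) (by omega) 8 (by omega)
  rw [← e] at this
  rw [this, k (v - 8) (by omega)]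
  have : v < 16 := by omega
  interval_cases v <;> first | omega | simp [lin, bt, Nat.shiftRight, Nat.xor_assoc]

abbrev V (n : ℕ) : Type := TN 89 n

/-- coordinates on the section `K / ⟨u⟩` -/
structure Cht (n : ℕ) where
  K : Subgroup UT
  u : UT
  sec : V n → UT
  pr : UT → V n
  hn : n = 8 ∨ n = 16
  secK : ∀ v, sec v ∈ K
  uK : u ∈ K
  prsec : ∀ v, pr (sec v) = v
  dec : ∀ x ∈ K, x = sec (pr x) ∨ x = sec (pr x) * u
  add : ∀ x ∈ K, ∀ y ∈ K, (pr (x * y)).val = Nat.xor (pr x).val (pr y).val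
  pru : (pr u).val = 0
  nrm : ∀ s, ∀ x ∈ K, s * x * s⁻¹ ∈ K
  cen : ∀ s, s * u * s⁻¹ = u

variable {G : Type} [Group G] [Finite G] {n : ℕ}

/-- the element of `UT` mapped to `g x g⁻¹` -/
noncomputable def ac (ι : UT →* G) (g : G) (x : UT) : UT := Function.invFun ι (g * ι x * g⁻¹)

theorem ac_spec {ι : UT →* G} {g : G} {x : UT} (h : g * ι x * g⁻¹ ∈ ι.range) :
    ι (ac ι g x) = g * ι x * g⁻¹ := Function.invFun_eq h

theorem ac_eq {ι : UT →* G} (hi : Function.Injective ι) {g : G} {x y : UT}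
    (h : g * ι x * g⁻¹ = ι y) : ac ι g x = y := hi (by rw [ac_spec ⟨y, h.symm⟩, h])

namespace Cht

variable (c : Cht n) (ι : UT →* G)

/-- the elements normalizing `K` and centralizing `u` -/
def N : Subgroup G := 𝒩 (c.K.map ι) ⊓ 𝒞₁ (ι c.u)

variable {c ι}

theorem ex {g : G} (hg : g ∈ c.N ι) {x : UT} (hx : x ∈ c.K) :
    ∃ y ∈ c.K, g * ι x * g⁻¹ = ι y := by
  obtain ⟨y, hy, e⟩ := conj_mem_of_mem_normalizer hg.1 (mem_map_of_mem ι hx)
  exact ⟨y, hy, e.symm⟩

theorem fixu {g : G} (hg : g ∈ c.N ι) : g * ι c.u * g⁻¹ = ι c.u :=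
  mul_inv_eq_iff_eq_mul.2 (mem_cent1.1 hg.2)

theorem S_le : ι.range ≤ c.N ι := by
  rintro _ ⟨s, rfl⟩
  refine ⟨mem_normalizer_of_forall ?_, mem_cent1.2 ?_⟩
  · rintro _ ⟨x, hx, rfl⟩
    exact ⟨_, c.nrm s x hx, by simp⟩
  · rw [← map_mul, ← map_mul, mul_inv_eq_iff_eq_mul.1 (c.cen s)]

theorem pr_mul_u {x : UT} (hx : x ∈ c.K) : c.pr (x * c.u) = c.pr x :=
  TN.ext' (by rw [c.add x hx _ c.uK, c.pru]; exact Nat.xor_zero _)

theorem key (hi : Function.Injective ι) {g : G} (hg : g ∈ c.N ι) {x y : UT} (hx : x ∈ c.K)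
    (e : g * ι x * g⁻¹ = ι y) : c.pr (ac ι g (c.sec (c.pr x))) = c.pr y := by
  obtain ⟨y', hy', e'⟩ := ex hg (c.secK (c.pr x))
  rw [ac_eq hi e']
  rcases c.dec x hx with h | h
  · rw [← h, e] at e'; rw [hi e']
  · have : ι y = ι (y' * c.u) := by
      rw [← e, map_mul, ← e', ← fixu hg]; nth_rewrite 1 [h]; rw [map_mul]; group
    rw [hi this, pr_mul_u hy']

/-- the action on the section -/
noncomputable def rho (c : Cht n) {ι : UT →* G} (hi : Function.Injective ι) :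
    c.N ι →* Equiv.Perm (V n) := MonoidHom.toHomPerm
  { toFun := fun g v => c.pr (ac ι g.1 (c.sec v))
    map_one' := funext fun v => by
      show c.pr (ac ι 1 (c.sec v)) = v
      rw [ac_eq hi (y := c.sec v) (by simp), c.prsec]
    map_mul' := fun g h => funext fun v => by
      show c.pr (ac ι (g.1 * h.1) (c.sec v)) = c.pr (ac ι g.1 (c.sec (c.pr (ac ι h.1 (c.sec v)))))
      obtain ⟨y, hy, e⟩ := ex h.2 (c.secK v)
      obtain ⟨y', -, e'⟩ := ex g.2 hy
      rw [ac_eq hi e, key hi g.2 hy e', ac_eq hi (y := y') (by rw [← e', ← e]; group)] }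

variable {hi : Function.Injective ι}

theorem rho_pr (g : c.N ι) {x y : UT} (hx : x ∈ c.K) (e : g.1 * ι x * g.1⁻¹ = ι y) :
    c.rho hi g (c.pr x) = c.pr y := key hi g.2 hx e

/-- value at a number -/
def at' (g : Equiv.Perm (V n)) (i : ℕ) : ℕ := if h : i < n then (g ⟨i, h⟩).val else 0

theorem at_val (g : Equiv.Perm (V n)) (v : V n) : at' g v.val = (g v).val := dif_pos v.lt

theorem at_lt (c : Cht n) (g : Equiv.Perm (V n)) (i : ℕ) : at' g i < 16 := by
  have := c.hn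
  unfold at'; split_ifs with h
  · have := (g ⟨i, h⟩).lt; omega
  · norm_num

/-- the code of an element -/
noncomputable def cd (c : Cht n) (hi : Function.Injective ι) (g : c.N ι) : ℕ :=
  pk (at' (c.rho hi g) 1) (at' (c.rho hi g) 2) (at' (c.rho hi g) 4) (at' (c.rho hi g) 8)

theorem ap_cd (g : c.N ι) (v : V n) : ap (c.cd hi g) v.val = (c.rho hi g v).val := by
  rw [cd, ap_pk (c.at_lt _ _) (c.at_lt _ _) (c.at_lt _ _), ← at_val]
  have ad : ∀ v w : V n, ∀ h : Nat.xor v.val w.val < n,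
      (c.rho hi g ⟨_, h⟩).val = Nat.xor (c.rho hi g v).val (c.rho hi g w).val := fun v w h => by
    obtain ⟨y, hy, e⟩ := ex g.2 (c.secK v)
    obtain ⟨y', hy', e'⟩ := ex g.2 (c.secK w)
    have e1 := rho_pr (hi := hi) g (c.secK v) e
    have e2 := rho_pr (hi := hi) g (c.secK w) e'
    have e3 := rho_pr (hi := hi) g (mul_mem (c.secK v) (c.secK w)) (y := y * y')
      (by rw [map_mul, map_mul, ← e, ← e']; group)
    rw [c.prsec] at e1 e2
    have : c.pr (c.sec v * c.sec w) = ⟨_, h⟩ :=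
      TN.ext' (by rw [c.add _ (c.secK v) _ (c.secK w), c.prsec, c.prsec])
    rw [← this, e3, c.add y hy y' hy', e1, e2]
  have lt : ∀ v < n, ∀ w < n, Nat.xor v w < n := fun v hv w hw => by
    rcases c.hn with rfl | rfl
    exacts [Nat.xor_lt_two_pow (n := 3) hv hw, Nat.xor_lt_two_pow (n := 4) hv hw]
  have p : 0 < n := by have := c.hn; omega
  refine (lin_of_add c.hn ?_ (fun v hv w hw => ?_) v.val v.lt).symm
  · have := (ad ⟨0, p⟩ ⟨0, p⟩ (lt 0 p 0 p)).trans (Nat.xor_self _)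
    rw [show (⟨Nat.xor 0 0, lt 0 p 0 p⟩ : V n) = ⟨0, p⟩ from TN.ext' (Nat.xor_self 0)] at this
    exact (dif_pos p).trans this
  · unfold at'
    rw [dif_pos hv, dif_pos hw, dif_pos (lt v hv w hw)]
    exact ad ⟨v, hv⟩ ⟨w, hw⟩ _

theorem ap_at (g : c.N ι) (h : Equiv.Perm (V n)) (i : ℕ) :
    ap (c.cd hi g) (at' h i) = at' (c.rho hi g * h) i := by
  unfold at'; split_ifs with q
  · exact ap_cd g _
  · exact ap_zero _

theorem cd_mul (g h : c.N ι) : c.cd hi (g * h) = cp (c.cd hi g) (c.cd hi h) := by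
  rw [show c.cd hi h = pk _ _ _ _ from rfl, cp_pk (c.at_lt _ _) (c.at_lt _ _) (c.at_lt _ _),
    ap_at, ap_at, ap_at, ap_at, cd, map_mul]

theorem cd_inj {g h : c.N ι} : c.cd hi g = c.cd hi h ↔ c.rho hi g = c.rho hi h :=
  ⟨fun e => Equiv.ext fun v => TN.ext' (by rw [← ap_cd, ← ap_cd, e]), fun e => by rw [cd, e]; rfl⟩

theorem ap_pr (g : c.N ι) {x y : UT} (hx : x ∈ c.K) (e : g.1 * ι x * g.1⁻¹ = ι y) :
    ap (c.cd hi g) (c.pr x).val = (c.pr y).val := by rw [ap_cd, rho_pr g hx e]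

/-- the code of an element of the Sylow subgroup -/
def tc (c : Cht n) (s : UT) : ℕ :=
  let f := fun i => if h : i < n then (c.pr (s * c.sec ⟨i, h⟩ * s⁻¹)).val else 0
  pk (f 1) (f 2) (f 4) (f 8)

/-- elements of the Sylow subgroup inside `N` -/
def io (c : Cht n) (ι : UT →* G) : UT →* c.N ι := ι.codRestrict _ fun s => S_le ⟨s, rfl⟩

theorem cd_io (s : UT) : c.cd hi (c.io ι s) = c.tc s := by
  have : ∀ i, at' (c.rho hi (c.io ι s)) i =
      if h : i < n then (c.pr (s * c.sec ⟨i, h⟩ * s⁻¹)).val else 0 := fun i => by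
    unfold at'; split_ifs with q
    · rw [← rho_pr (hi := hi) (c.io ι s) (c.secK ⟨i, q⟩) (by simp [io]), c.prsec]
    · rfl
  simp only [cd, tc, this]

theorem cd_one : c.cd hi 1 = c.tc 1 := by rw [← cd_io (hi := hi), map_one]

/-- words -/
def evN {H : Type*} [Group H] (L : List H) (w : List ℕ) : H := w.foldr (fun l r => L.getD l 1 * r) 1

theorem cd_ev (L : List (c.N ι)) (w : List ℕ) :
    c.cd hi (evN L w) = evC (L.map (c.cd hi)) (c.tc 1) w := by
  induction w with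
  | nil => exact cd_one
  | cons l w ih =>
    show c.cd hi (L.getD l 1 * evN L w) = cp _ _
    rw [cd_mul, ih, ← cd_one (hi := hi) (ι := ι), List.getD_map]; rfl

theorem ev_mem {H : Type*} [Group H] {L : List H} {M : Subgroup H} (h : ∀ x ∈ L, x ∈ M)
    (w : List ℕ) : evN L w ∈ M := by
  induction w with
  | nil => exact one_mem _
  | cons l w ih =>
    refine mul_mem ?_ ih
    rw [List.getD_eq_getElem?_getD]
    cases e : L[l]? with
    | none => exact one_mem _
    | some x => exact h x (List.mem_of_getElem? e)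

/-- a `2`-element that cannot occur when the list `T` codes an elementary abelian Sylow subgroup -/
def bad (T : List ℕ) (one m : ℕ) : Bool :=
  if Nat.beq (cp m m) one then T.all (fun t => Nat.beq (cp m t) (cp t m)) && T.all (fun t => !Nat.beq m t)
  else Nat.beq (cp (cp m m) (cp m m)) one

theorem not_bad (hS : IsSyl 2 ι.range ⊤) {T : List ℕ} (hT : ∀ s, c.tc s ∈ T ∧ c.tc (s * s) = c.tc 1)
    (g : c.N ι) : bad T (c.tc 1) (c.cd hi g) = false := by
  have : Fact (Nat.Prime 2) := ⟨Nat.prime_two⟩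
  have sy : IsSyl 2 ((ι.range.subgroupOf (c.N ι)).map (c.rho hi)) (c.rho hi).range := by
    rw [MonoidHom.range_eq_map (c.rho hi)]
    exact ((hS.mono S_le le_top).subgroupOf_top).map (c.rho hi)
  have mem : ∀ x ∈ (ι.range.subgroupOf (c.N ι)).map (c.rho hi), ∃ s, x = c.rho hi (c.io ι s) := by
    rintro _ ⟨x, ⟨s, hs⟩, rfl⟩
    exact ⟨s, congrArg _ (Subtype.ext hs.symm)⟩
  by_contra hb
  rw [Bool.not_eq_false, bad] at hb
  split_ifs at hb with q
  · rw [Bool.and_eq_true, List.all_eq_true, List.all_eq_true] at hb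
    have q1 := Nat.eq_of_beq_eq_true q
    rw [← cd_mul, ← cd_one (hi := hi) (ι := ι), cd_inj, map_mul, map_one] at q1
    obtain ⟨s, hs⟩ := mem _ (sy.mem_of_mem_normalizer (x := c.rho hi g) ⟨g, rfl⟩
      ⟨1, by rw [pow_one, sq, q1]⟩ (mem_normalizer_of_forall fun x hx => by
        obtain ⟨s, rfl⟩ := mem x hx
        have := Nat.eq_of_beq_eq_true (hb.1 _ (hT s).1)
        rw [← cd_io (hi := hi) (ι := ι), ← cd_mul, ← cd_mul, cd_inj, map_mul, map_mul] at this
        rwa [this, mul_inv_cancel_right]))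
    have := hb.2 _ (hT s).1
    rw [← cd_io (hi := hi) (ι := ι), cd_inj.2 hs, Nat.beq_refl] at this
    exact absurd this (by simp)
  · have q1 := Nat.eq_of_beq_eq_true hb
    rw [← cd_mul, ← cd_mul, ← cd_one (hi := hi) (ι := ι), cd_inj, map_mul, map_mul, map_one] at q1
    obtain ⟨k, -, hk⟩ := sy.exists_conj_mem (x := c.rho hi g) ⟨g, rfl⟩
      ⟨2, by rw [← q1]; simp only [pow_succ, pow_zero, one_mul, mul_assoc]; norm_num [pow_succ, mul_assoc]⟩
    obtain ⟨s, hs⟩ := mem _ hk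
    have e := (hT s).2
    rw [← cd_io (hi := hi) (ι := ι), ← cd_one (hi := hi) (ι := ι), cd_inj, map_mul, map_mul, ← hs,
      map_one] at e
    refine q ?_
    rw [← cd_mul, ← cd_one (hi := hi) (ι := ι), cd_inj.2 (show _ = c.rho hi 1 from ?_), Nat.beq_refl]
    rw [map_mul, map_one]
    have : k * (c.rho hi g * c.rho hi g) * k⁻¹ = 1 := by rw [← e]; group
    exact conj_eq_one_iff.1 this

end Cht

end Cfsg.A8.F
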