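import Cfsg.Agent.A8.F2
import Cfsg.Agent.H5.Thompson

/-! Uniqueness of `A`, Burnside's lemma, and the structure of the centralizer of `z`. -/

set_option autoImplicit false
set_option linter.unusedSectionVars false
set_option maxRecDepth 100000

namespace Cfsg.A8.F

open Subgroup Cfsg.L0 Cfsg.H8 Cfsg.FT Cfsg.H5 Cht

variable {G : Type} [Group G] [Finite G] {ι : UT →* G} {g : G} {x y : UT}

instance instTwo : Fact (Nat.Prime 2) := ⟨Nat.prime_two⟩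

theorem mem_map_iff (hi : Function.Injective ι) {K : Subgroup UT} : ι x ∈ K.map ι ↔ x ∈ K :=
  mem_map_iff_mem hi

theorem card_cen : ∀ x : UT, x * x = 1 → x ∉ Au → (∃ a b : UT, a * x = x * a ∧ b * x = x * b ∧
    a * b ≠ b * a) ∧ TN.sum (fun a : UT => if a * x = x * a then 1 else 0) = 16 := by
  decide +kernel

theorem card_Au : Nat.card Au = 16 :=
  (TN.card_subtype (fun a : UT => a ∈ Au)).trans (by decide +kernel)

theorem A_el : ∀ a ∈ Au, a * a = 1 ∧ ∀ b ∈ Au, a * b = b * a := by decide +kernel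

theorem uniqA (hi : Function.Injective ι) (h : cj g (Au.map ι) ≤ ι.range) :
    g ∈ 𝒩 (Au.map ι) := by
  refine mem_normalizer_of_forall ?_
  rintro _ ⟨a, ha, rfl⟩
  obtain ⟨x, hx⟩ := h (conj_mem_cj (mem_map_of_mem ι ha))
  rw [← hx, mem_map_iff hi]
  by_contra hn
  have cm : ∀ u ∈ (cj g (Au.map ι)).comap ι, ∀ v ∈ (cj g (Au.map ι)).comap ι, u * v = v * u := by
    rintro u ⟨_, ⟨b, hb, rfl⟩, e⟩ v ⟨_, ⟨c, hc, rfl⟩, e'⟩
    refine hi ?_
    rw [map_mul, map_mul, ← e, ← e', ← map_mul, ← map_mul, ← map_mul, ← map_mul, (A_el b hb).2 c hc]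
  have xm : x ∈ (cj g (Au.map ι)).comap ι := by
    rw [mem_comap, hx]; exact conj_mem_cj (mem_map_of_mem ι ha)
  obtain ⟨⟨u, v, h1, h2, h3⟩, h4⟩ := card_cen x (hi (by
    rw [map_mul, hx, conj_mul, ← map_mul, (A_el a ha).1]; simp)) hn
  have le : (cj g (Au.map ι)).comap ι ≤ 𝒞₁ x := fun u hu => mem_cent1.2 (cm u hu x xm)
  have := eq_of_le_of_card_ge le (by
    have e1 : Nat.card (𝒞₁ x) = 16 := (Nat.card_congr (Equiv.subtypeEquivRight fun _ =>
      mem_cent1)).trans ((TN.card_subtype (fun a : UT => a * x = x * a)).trans h4)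
    rw [e1, ← card_map_of_injective (f := ι) hi, map_comap_eq_self h, card_cj,
      card_map_of_injective hi, card_Au])
  exact h3 (cm u (this.ge (mem_cent1.2 h1)) v (this.ge (mem_cent1.2 h2)))

theorem pg_map (hS : IsSyl 2 ι.range ⊤) (K : Subgroup UT) : IsPGroup 2 (K.map ι) :=
  hS.isPGroup.to_le (map_le_range _ _)

theorem ext0 (hi : Function.Injective ι) (hS : IsSyl 2 ι.range ⊤) (hy : y ∈ Au) {T : Subgroup UT}
    (hT : T ≤ 𝒞₁ x) (h : IsConj (ι x) (ι y)) : ∃ g, ∃ k ∈ 𝒩 (Au.map ι), g * ι x * g⁻¹ = ι y ∧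
      cj k (cj g (T.map ι)) ≤ ι.range := by
  obtain ⟨g, hg⟩ := isConj_iff.1 h
  obtain ⟨P, hP, le⟩ := exists_isSyl_ge (pg_map hS Au) (H := 𝒞₁ (ι y)) (by
    rintro _ ⟨a, ha, rfl⟩
    exact mem_cent1.2 (by rw [← map_mul, ← map_mul, (A_el a ha).2 y hy]))
  obtain ⟨c, hc, h1⟩ := hP.exists_cj_le (isPGroup_cj (pg_map hS T) g) (by
    rw [← hg, ← cj_cent1]
    refine cj_mono g ?_
    rintro _ ⟨a, ha, rfl⟩
    exact mem_cent1.2 (by rw [← map_mul, ← map_mul, mem_cent1.1 (hT ha)]))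
  obtain ⟨k, -, h2⟩ := hS.exists_cj_le hP.isPGroup le_top
  refine ⟨c * g, k, uniqA hi ((cj_mono k le).trans h2), ?_, ?_⟩
  · rw [show c * g * ι x * (c * g)⁻¹ = c * (g * ι x * g⁻¹) * c⁻¹ by group, hg,
      mem_cent1.1 hc, mul_inv_cancel_right]
  · rw [cj_mul]; exact (cj_mono k h1).trans h2

theorem burnA (hi : Function.Injective ι) (hS : IsSyl 2 ι.range ⊤) (hx : x ∈ Au) (hy : y ∈ Au)
    (h : IsConj (ι x) (ι y)) : ∃ g ∈ 𝒩 (Au.map ι), g * ι x * g⁻¹ = ι y := by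
  obtain ⟨g, k, hk, e, le⟩ := ext0 hi hS hy (T := Au)
    (fun a ha => mem_cent1.2 ((A_el a ha).2 x hx)) h
  rw [← cj_mul] at le
  exact ⟨g, (mul_mem_cancel_left hk).1 (uniqA hi le), e⟩

theorem NS_A (hi : Function.Injective ι) (h : g ∈ 𝒩 ι.range) : g ∈ 𝒩 (Au.map ι) :=
  uniqA hi ((cj_mono g (map_le_range _ _)).trans (cj_eq_iff.2 h).le)

theorem NS_Q (hi : Function.Injective ι) (h : g ∈ 𝒩 ι.range) : g ∈ 𝒩 (Qu.map ι) := by
  have k : ∀ x : UT, x * x = 1 → x ∉ Au → g * ι x * g⁻¹ ∈ Qu.map ι := fun x h1 h2 => by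
    obtain ⟨y, hy⟩ := conj_mem_of_mem_normalizer h ⟨x, rfl⟩
    have : ∀ y : UT, y * y = 1 → y ∉ Au → y ∈ Qu := by decide +kernel
    rw [← hy, mem_map_iff hi]
    refine this y (hi (by rw [map_mul, hy, conj_mul, ← map_mul, h1]; simp)) fun q => h2 ?_
    have := conj_mem_of_mem_normalizer' (NS_A hi h) (mem_map_of_mem ι q)
    rw [hy] at this
    simpa [mul_assoc, mem_map_iff hi] using this
  refine mem_normalizer_of_forall ?_
  rintro _ ⟨x, hx, rfl⟩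
  have : ∀ x ∈ Qu, ∃ a : UT, (a * a = 1 ∧ a ∉ Au) ∧ ∃ b : UT, (b * b = 1 ∧ b ∉ Au) ∧
      (x = a * b ∨ x = a * b * el 1) := by decide +kernel
  obtain ⟨a, ha, b, hb, e | e⟩ := this x hx
  · rw [e, map_mul, ← conj_mul]; exact mul_mem (k a ha.1 ha.2) (k b hb.1 hb.2)
  · rw [e, map_mul, map_mul, ← conj_mul, ← conj_mul]
    exact mul_mem (mul_mem (k a ha.1 ha.2) (k b hb.1 hb.2)) (k _ (by decide +kernel) (by decide +kernel))

theorem memA (h : g ∈ 𝒩 (Au.map ι)) : g ∈ cA.N ι :=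
  ⟨h, mem_cent1.2 (by rw [show cA.u = 1 from rfl]; simp)⟩

section codes
variable {n : ℕ} {c : Cht n} {hi : Function.Injective ι}

theorem cd16 {c : Cht 16} (g : c.N ι) : c.cd hi g = pk (c.rho hi g (vv 16 1)).val
    (c.rho hi g (vv 16 2)).val (c.rho hi g (vv 16 4)).val (c.rho hi g (vv 16 8)).val := rfl

theorem inj_cd (g : c.N ι) : inj n (c.cd hi g) = true := TN.allB_iff.2 fun v hv => by
  by_contra h
  simp only [Bool.or_eq_true, Bool.not_eq_true', not_or, Bool.not_eq_false] at h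
  have p : 0 < n := by omega
  have h1 := ap_cd (hi := hi) g ⟨v, hv⟩
  have h2 := ap_cd (hi := hi) g ⟨0, p⟩
  rw [ap_zero] at h2
  have := (c.rho hi g).injective (TN.ext' (h1.symm.trans ((Nat.eq_of_beq_eq_true h.2).trans h2)))
  exact h.1 (by rw [show v = 0 from congrArg TN.val this]; rfl)

theorem good_cd (hS : IsSyl 2 ι.range ⊤) {T : List ℕ}
    (hT : ∀ s, c.tc s ∈ T ∧ c.tc (s * s) = c.tc 1) (h1 : c.tc 1 = I4) (L : List (c.N ι))
    (W : List (List ℕ)) : good T (L.map (c.cd hi)) W = true :=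
  List.all_eq_true.2 fun w _ => by rw [← h1, ← cd_ev, not_bad hS hT]; rfl

theorem of_hit (h1 : c.tc 1 = I4) {L : List (c.N ι)} {W : List (List ℕ)} {m : ℕ}
    (h : hit (L.map (c.cd hi)) W m = true) : ∃ w, c.cd hi (evN L w) = m := by
  obtain ⟨w, -, e⟩ := List.any_eq_true.1 h
  exact ⟨w, by rw [cd_ev, h1]; exact Nat.eq_of_beq_eq_true e⟩

theorem of_cd (hu : c.u = 1) (g : c.N ι) (hx : x ∈ c.K) (hy : y ∈ c.K)
    (h : ap (c.cd hi g) (c.pr x).val = (c.pr y).val) : g.1 * ι x * g.1⁻¹ = ι y := by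
  obtain ⟨y', hy', e⟩ := ex g.2 hx
  have := TN.ext' ((ap_pr (hi := hi) g hx e).symm.trans h)
  have k : ∀ y ∈ c.K, y = c.sec (c.pr y) := fun y hy => by
    have := c.dec y hy; rwa [hu, mul_one, or_self] at this
  rw [e, k y' hy', this, ← k y hy]

theorem cent_of_cd (hu : c.u = 1) (g : c.N ι) (h : c.cd hi g = c.cd hi 1) :
    g.1 ∈ 𝒞 (c.K.map ι) := mem_cent.2 (by
  rintro _ ⟨x, hx, rfl⟩
  exact (mul_inv_eq_iff_eq_mul.1 (of_cd hu g hx hx (by
    rw [h]; exact ap_pr 1 hx (by simp)))).symm)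

theorem LA_eq (g : cA.N ι) :
    LA (cA.cd hi g) = [g, cA.io ι (el 1), cA.io ι (el 4)].map (cA.cd hi) := by
  simp only [List.map, cd_io, tA.2.2.1, tA.2.2.2, LA]

end codes

/-- an element of `N(A)` centralizing `z` normalizes `S C(A)` -/
theorem nrmT (hi : Function.Injective ι) (hS : IsSyl 2 ι.range ⊤) (h : g ∈ 𝒩 (Au.map ι))
    (hz : g * ι (el 32) * g⁻¹ = ι (el 32)) (s : UT) :
    ∃ s', g * ι s * g⁻¹ * (ι s')⁻¹ ∈ 𝒞 (Au.map ι) := by
  set k : cA.N ι := ⟨g, memA h⟩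
  have e : (cA.rho hi k (vv 16 8)).val = 8 :=
    congrArg TN.val (rho_pr (hi := hi) k (x := el 32) (show el 32 ∈ Au by decide +kernel) hz)
  have := factZ (cA.rho hi k (vv 16 1)) (cA.rho hi k (vv 16 2)) (cA.rho hi k (vv 16 4))
  dsimp only at this
  rw [show pk _ _ _ 8 = cA.cd hi k by rw [cd16, e], LA_eq] at this
  obtain ⟨t, ht, q⟩ := List.any_eq_true.1 (List.all_eq_true.1
    (this (inj_cd k) (good_cd hS tA.1 tA.2.1 _ _)) _ (tA.1 s).1)
  have : ∀ t ∈ TA, ∃ s, cA.tc s = t := by decide +kernel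
  obtain ⟨s', rfl⟩ := this t ht
  have q := Nat.eq_of_beq_eq_true q
  rw [← cd_io (hi := hi) (ι := ι), ← cd_io (hi := hi) (ι := ι), ← cd_mul, ← cd_mul, cd_inj] at q
  refine ⟨s', cent_of_cd (c := cA) (hi := hi) rfl (k * cA.io ι s * k⁻¹ * (cA.io ι s')⁻¹)
    (cd_inj.2 ?_)⟩
  rw [map_mul, map_mul, q]; simp

/-- the elements acting trivially on `P / R` -/
def St (P R : Subgroup G) [hR : R.Normal] : Subgroup G :=
  mkSub {g | ∀ p ∈ P, g * p * g⁻¹ * p⁻¹ ∈ R} (fun p _ => by simp) fun a ha b hb p hp => by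
    have := mul_mem (hR.conj_mem _ (hb p hp) a) (ha p hp)
    rwa [show a * (b * p * b⁻¹ * p⁻¹) * a⁻¹ * (a * p * a⁻¹ * p⁻¹) = a * b * p * (a * b)⁻¹ * p⁻¹ by
      group] at this

instance St_normal (P R : Subgroup G) [hP : P.Normal] [hR : R.Normal] : (St P R).Normal :=
  ⟨fun a ha x p hp => by
    have := hR.conj_mem _ (ha _ (hP.conj_mem p hp x⁻¹)) x
    rwa [show x * (a * (x⁻¹ * p * x⁻¹⁻¹) * a⁻¹ * (x⁻¹ * p * x⁻¹⁻¹)⁻¹) * x⁻¹ =
      x * a * x⁻¹ * p * (x * a * x⁻¹)⁻¹ * p⁻¹ by group] at this⟩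

theorem chain (hc : 𝒞 (pCore 2 G) ≤ pCore 2 G) {R Z : Subgroup G} [R.Normal] [Z.Normal]
    (hZ : ∀ z ∈ Z, z * z = 1 ∧ ∀ g, g * z * g⁻¹ = z) (h4 : ∀ y ∈ R, y ^ 4 = 1) :
    St (pCore 2 G) R ⊓ St R Z ≤ pCore 2 G := H7.le_pCore (isPGroup_iff_forall.2 fun k hk => by
  have h1 : ∀ y ∈ R, k * k * y * (k * k)⁻¹ = y := fun y hy => by
    obtain ⟨a, b⟩ := hZ _ (hk.2 y hy)
    calc _ = k * (k * y * k⁻¹ * y⁻¹) * k⁻¹ * (k * y * k⁻¹ * y⁻¹) * y := by group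
      _ = y := by rw [b, a, one_mul]
  have h2 : (k * k) ^ 4 ∈ 𝒞 (pCore 2 G) := mem_cent.2 fun p hp => by
    have hy := (mul_mem hk.1 hk.1 : k * k ∈ St _ R) p hp
    have a := h1 _ hy
    have b := h4 _ hy
    generalize k * k = m at *
    generalize hy' : m * p * m⁻¹ * p⁻¹ = y at *
    have e : m * p = y * p * m := by rw [← hy']; group
    have e' : m * y = y * m := mul_inv_eq_iff_eq_mul.1 a
    have f : ∀ w, m * (p * w) = y * (p * (m * w)) := fun w => by rw [← mul_assoc, e]; group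
    have f' : ∀ w, m * (y * w) = y * (m * w) := fun w => by rw [← mul_assoc, e', mul_assoc]
    have : m * (m * (m * (m * (p * 1)))) = y * (y * (y * (y * (p * (m * (m * (m * (m * 1)))))))) := by
      simp only [f, f']
    simp only [pow_succ, pow_zero, one_mul, mul_assoc, mul_one] at b this ⊢
    rw [this]
    calc _ = y * (y * (y * y)) * (p * (m * (m * (m * m)))) := by rw [b, one_mul]
      _ = _ := by simp only [mul_assoc]
  obtain ⟨j, hj⟩ := isPGroup_iff_forall.1 (H7.isPGroup_pCore 2 G) _ (hc h2)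
  exact ⟨3 + j, by rw [pow_add, pow_mul, ← hj, ← sq, ← pow_mul k 2 4]; rfl⟩)

theorem normQ (hi : Function.Injective ι) (hS : IsSyl 2 ι.range ⊤)
    (hz : ∀ g, g * ι (el 32) * g⁻¹ = ι (el 32)) (hc : 𝒞 (pCore 2 G) ≤ pCore 2 G) (g : G) :
    g ∈ 𝒩 (Qu.map ι) := by
  have z2 : ι (el 32) * ι (el 32) = 1 := by rw [← map_mul, ← map_one ι]; congr 1
  let Z : Subgroup G := mkSub {y | y = 1 ∨ y = ι (el 32)} (.inl rfl) (by
    rintro a (rfl | rfl) b (rfl | rfl) <;> simp [z2])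
  have : Z.Normal := ⟨by rintro a (rfl | rfl) g; exacts [.inl (by simp), .inr (hz g)]⟩
  have hZ : ∀ z ∈ Z, z * z = 1 ∧ ∀ g, g * z * g⁻¹ = z := by
    rintro a (rfl | rfl); exacts [by simp, ⟨z2, hz⟩]
  have mZ : ∀ s : UT, ι s ∈ Z ↔ s = 1 ∨ s = el 32 := fun s => by
    rw [← hi.eq_iff, ← hi.eq_iff, map_one]; rfl
  have PS : pCore 2 G ≤ ι.range :=
    hS.le_of_normalizes (H7.isPGroup_pCore 2 G) le_top le_normalizer_of_normal
  have cm : ∀ s t : UT, ι s * ι t * (ι s)⁻¹ * (ι t)⁻¹ = ι (s * t * s⁻¹ * t⁻¹) := by simp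
  have f1 : ∀ x ∈ Qu, x ∈ Au → x * x = 1 ∧ ∀ s, x * s * x⁻¹ * s⁻¹ = 1 ∨ x * s * x⁻¹ * s⁻¹ = el 32 := by
    decide +kernel
  have h1 : ∀ x ∈ Qu, x ∈ Au → ι x ∈ pCore 2 G := fun x hx hx' =>
    chain hc hZ (R := Z) (fun y hy => by rw [show 4 = 2 * 2 from rfl, pow_mul, sq y, (hZ y hy).1]; simp)
      ⟨fun p hp => by
        obtain ⟨s, rfl⟩ := PS hp
        rw [cm, mZ]; exact (f1 x hx hx').2 s, fun y hy => by rw [(hZ y hy).2]; simp⟩
  by_cases hA : ∀ s, ι s ∈ pCore 2 G → s ∈ Au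
  · have e : pCore 2 G = Au.map ι := le_antisymm (fun p hp => by
      obtain ⟨s, rfl⟩ := PS hp; exact mem_map_of_mem ι (hA s hp)) (by
      rintro _ ⟨a, ha, rfl⟩
      refine hc (mem_cent.2 fun p hp => ?_)
      obtain ⟨s, rfl⟩ := PS hp
      rw [← map_mul, ← map_mul, (A_el a ha).2 s (hA s hp)])
    have : ι.range.Normal := ⟨by
      rintro _ ⟨s, rfl⟩ g
      obtain ⟨s', h⟩ := nrmT hi hS (g := g) (by rw [← e]; exact le_normalizer_of_normal (mem_top g))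
        (hz g) s
      rw [← e] at h
      exact (mul_mem_cancel_right (inv_mem (show ι s' ∈ ι.range from ⟨s', rfl⟩))).1 (PS (hc h))⟩
    exact absurd (hA (el 1) (H7.le_pCore hS.isPGroup ⟨_, rfl⟩)) (by decide +kernel)
  push Not at hA
  obtain ⟨s0, h0, h0'⟩ := hA
  let T : Set G := {x | x ∈ pCore 2 G ∧ x ∈ St (pCore 2 G) Z ∧ x * x ∈ Z}
  have TQ : normalClosure T ≤ Qu.map ι := (closure_le _).2 fun x hx => by
    obtain ⟨a, ha, hc⟩ := Group.mem_conjugatesOfSet_iff.1 hx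
    obtain ⟨k, rfl⟩ := isConj_iff.1 hc
    have n : (pCore 2 G).Normal := inferInstance
    obtain ⟨s, hs⟩ := PS (n.conj_mem _ ha.1 k)
    have q1 := (St_normal _ Z).conj_mem _ ha.2.1 k _ h0
    have q2 := this.conj_mem _ ha.2.2 k
    rw [← conj_mul] at q2
    rw [← hs] at q1 q2 ⊢
    rw [cm, mZ] at q1
    rw [← map_mul, mZ] at q2
    have : ∀ p : UT, (p * p = 1 ∨ p * p = el 32) → ∀ y, y ∉ Au →
      (p * y * p⁻¹ * y⁻¹ = 1 ∨ p * y * p⁻¹ * y⁻¹ = el 32) → p ∈ Qu := by decide +kernel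
    exact mem_map_of_mem ι (this s q2 s0 h0' q1)
  have h2 : ∀ x ∈ Qu, ι x ∈ pCore 2 G := fun x hx =>
    chain hc hZ (R := normalClosure T) (fun y hy => by
        obtain ⟨s, -, rfl⟩ := TQ hy
        have : ∀ s : UT, s * s * s * s = 1 := by decide +kernel
        rw [← map_pow, ← map_one ι, ← this s]; simp [pow_succ])
      ⟨fun p hp => by
        obtain ⟨s, rfl⟩ := PS hp
        have : ∀ x s : UT, x * s * x⁻¹ * s⁻¹ ∈ Qu ∧ x * s * x⁻¹ * s⁻¹ ∈ Au := by decide +kernel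
        obtain ⟨a, b⟩ := this x s
        rw [cm]
        refine subset_normalClosure ⟨h1 _ a b, fun p hp => ?_, ?_⟩
        · obtain ⟨s, rfl⟩ := PS hp
          rw [cm, mZ]; exact (f1 _ a b).2 s
        · rw [← map_mul, (f1 _ a b).1, map_one]; exact one_mem _, fun y hy => by
        obtain ⟨s, hs, rfl⟩ := TQ hy
        have : ∀ x ∈ Qu, ∀ s ∈ Qu, x * s * x⁻¹ * s⁻¹ = 1 ∨ x * s * x⁻¹ * s⁻¹ = el 32 := by
          decide +kernel
        rw [cm, mZ]; exact this x hx s hs⟩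
  by_cases hQ : ∀ s, ι s ∈ pCore 2 G → s ∈ Qu
  · have e : pCore 2 G = Qu.map ι := le_antisymm (fun p hp => by
      obtain ⟨s, rfl⟩ := PS hp; exact mem_map_of_mem ι (hQ s hp)) (by
      rintro _ ⟨a, ha, rfl⟩; exact h2 a ha)
    rw [← e]; exact le_normalizer_of_normal (mem_top g)
  push Not at hQ
  obtain ⟨s1, q1, q2⟩ := hQ
  have e : pCore 2 G = ι.range := le_antisymm PS (by
    rintro _ ⟨s, rfl⟩
    have : ∀ s t : UT, s ∉ Qu → t ∈ Qu ∨ s * t ∈ Qu := by decide +kernel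
    rcases this s1 s q2 with q | q
    · exact h2 s q
    · have := h2 _ q
      rwa [map_mul, mul_mem_cancel_left q1] at this)
  exact NS_Q hi (by rw [← e]; exact le_normalizer_of_normal (mem_top g))

end Cfsg.A8.F
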