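import Cfsg.Agent.A8.FD

/-! The centralizer of `z`. -/

set_option autoImplicit false
set_option linter.unusedSectionVars false
set_option maxRecDepth 100000

namespace Cfsg.A8.F

open Subgroup Cfsg.L0 Cfsg.H8 Cfsg.FT Cfsg.H5 Cht

variable {G : Type} [Group G] [Finite G] {ι : UT →* G} {g : G} {x y : UT}

theorem kerX (hi : Function.Injective ι) (hS : IsSyl 2 ι.range ⊤)
    (hz : ∀ g, g * ι (el 32) * g⁻¹ = ι (el 32)) (hc : 𝒞 (pCore 2 G) ≤ pCore 2 G)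
    (h : ∀ x ∈ Qu, g * ι x * g⁻¹ = ι x ∨ g * ι x * g⁻¹ = ι (el 32 * x)) : g ∈ ι.range := by
  have z2 : ι (el 32) * ι (el 32) = 1 := by rw [← map_mul, ← map_one ι]; congr 1
  let Z : Subgroup G := mkSub {y | y = 1 ∨ y = ι (el 32)} (.inl rfl) (by
    rintro a (rfl | rfl) b (rfl | rfl) <;> simp [z2])
  have : Z.Normal := ⟨by rintro a (rfl | rfl) g; exacts [.inl (by simp), .inr (hz g)]⟩
  have hZ : ∀ z ∈ Z, z * z = 1 ∧ ∀ g, g * z * g⁻¹ = z := by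
    rintro a (rfl | rfl); exacts [by simp, ⟨z2, hz⟩]
  have PS : pCore 2 G ≤ ι.range :=
    hS.le_of_normalizes (H7.isPGroup_pCore 2 G) le_top le_normalizer_of_normal
  have nQ : (Qu.map ι).Normal :=
    ⟨fun a ha g => conj_mem_of_mem_normalizer (normQ hi hS hz hc g) ha⟩
  refine PS (chain hc hZ (R := Qu.map ι) ?_ ⟨fun p hp => ?_, ?_⟩)
  · rintro _ ⟨s, -, rfl⟩
    have : ∀ s : UT, s * s * s * s = 1 := by decide +kernel
    rw [← map_pow, ← map_one ι, ← this s]; simp [pow_succ]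
  · have n : (pCore 2 G).Normal := inferInstance
    obtain ⟨t, ht⟩ := PS (n.conj_mem _ hp g)
    obtain ⟨s, rfl⟩ := PS hp
    by_cases q : s ∈ Qu
    · exact mul_mem (nQ.conj_mem _ (mem_map_of_mem ι q) g) (inv_mem (mem_map_of_mem ι q))
    have q' : t ∉ Qu := fun q' => q (by
      have := nQ.conj_mem _ (mem_map_of_mem ι q') g⁻¹
      rw [ht] at this
      simpa [mul_assoc, mem_map_iff hi] using this)
    have : ∀ s t : UT, s ∉ Qu → t ∉ Qu → t * s⁻¹ ∈ Qu := by decide +kernel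
    rw [← ht, ← map_inv, ← map_mul]
    exact mem_map_of_mem ι (this s t q q')
  · rintro _ ⟨s, hs, rfl⟩
    rcases h s hs with e | e <;> rw [e]
    exacts [.inl (by simp), .inr (by simp)]

theorem OS (hi : Function.Injective ι) {C : Subgroup G} (h : ι x ∈ OO C) : x = 1 := by
  have : ∀ s : UT, s * s * s * s = 1 := by decide +kernel
  refine hi ((eq_one_of_pElt_of_coprime (p := 2) ⟨2, ?_⟩ ((H7.coprime_card_pPrimeCoreOf 2 C).coprime_dvd_left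
    (Subgroup.orderOf_dvd_natCard _ h))).trans (map_one ι).symm)
  rw [← map_pow, ← map_one ι, ← this x]; simp [pow_succ]

theorem SC (s : UT) : ι s ∈ 𝒞₁ (ι (el 32)) := (S_le (c := cQ) ⟨s, rfl⟩).2

theorem Zside (H : Hyp ι) :
    (∀ g ∈ 𝒞₁ (ι (el 32)), ∃ o ∈ OO (𝒞₁ (ι (el 32))), ∃ n ∈ cQ.N ι, g = o * n) ∧
    ∀ g ∈ 𝒞₁ (ι (el 32)), (∀ x ∈ Qu, g * ι x * g⁻¹ = ι x ∨ g * ι x * g⁻¹ = ι (el 32 * x)) →
      ∃ o ∈ OO (𝒞₁ (ι (el 32))), ∃ s, g = o * ι s := by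
  set C := 𝒞₁ (ι (el 32)) with hC
  let π := QuotientGroup.mk' (pPrimeCore 2 C)
  let ι' : UT →* C := ι.codRestrict C SC
  have kp : ∀ a b : C, π a = π b → a.1 * b.1⁻¹ ∈ OO C := fun a b e => ⟨a * b⁻¹, by
    rw [← QuotientGroup.ker_mk' (pPrimeCore 2 C)]
    show π (a * b⁻¹) = 1
    rw [map_mul, e, map_inv, mul_inv_cancel], rfl⟩
  have sj : Function.Surjective π := QuotientGroup.mk'_surjective _
  have hi : Function.Injective (π.comp ι') := fun a b e => by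
    have := kp _ _ e
    change ι a * (ι b)⁻¹ ∈ _ at this
    rw [← map_inv, ← map_mul] at this
    exact mul_inv_eq_one.1 (OS H.inj this)
  have hS : IsSyl 2 (π.comp ι').range ⊤ := by
    have := ((H.syl.mono (K := C) (by rintro _ ⟨s, rfl⟩; exact SC s) le_top).subgroupOf_top).map π
    rw [map_top_of_surjective π sj] at this
    convert this using 1
    refine le_antisymm ?_ ?_
    · rintro _ ⟨s, rfl⟩; exact ⟨ι' s, ⟨s, rfl⟩, rfl⟩
    · rintro _ ⟨a, ⟨s, hs⟩, rfl⟩; exact ⟨s, congrArg π (Subtype.ext hs)⟩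
  have hz : ∀ g, g * π.comp ι' (el 32) * g⁻¹ = π.comp ι' (el 32) := fun g => by
    obtain ⟨c, rfl⟩ := sj g
    rw [MonoidHom.comp_apply, ← map_inv, ← map_mul, ← map_mul]
    exact congrArg π (Subtype.ext (mul_inv_eq_iff_eq_mul.2 (mem_cent1.1 c.2)))
  have hc : 𝒞 (pCore 2 (C ⧸ pPrimeCore 2 C)) ≤ pCore 2 (C ⧸ pPrimeCore 2 C) := by
    have : Group.IsSolvable C := H.sol
    have := cent_Op_le (X := C ⧸ pPrimeCore 2 C) (H := ⊤) Nat.prime_two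
      (inferInstanceAs (Group.IsSolvable (⊤ : Subgroup _))) (by
      rw [Op_compl_eq Nat.prime_two, H7.pPrimeCoreOf_top, H7.pPrimeCore_quotient_pPrimeCore])
    rwa [Op_single_eq Nat.prime_two, H7.pCoreOf_top, top_inf_eq] at this
  have nO : C ≤ 𝒩 (OO C) := H7.le_normalizer_pPrimeCoreOf 2 C
  have mK := fun x => mem_sup_of_le_normalizer_left (N := OO C) (H := Qu.map ι) (x := x) (by
    rintro _ ⟨s, -, rfl⟩; exact nO (SC s))
  have nK : C ≤ 𝒩 (OO C ⊔ Qu.map ι : Subgroup G) := fun g hg => mem_normalizer_of_forall fun k hk => by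
    obtain ⟨o, ho, _, ⟨x, hx, rfl⟩, rfl⟩ := (mK k).1 hk
    obtain ⟨y, hy, e⟩ := conj_mem_of_mem_normalizer (normQ hi hS hz hc (π ⟨g, hg⟩))
      (mem_map_of_mem _ hx)
    rw [MonoidHom.comp_apply, MonoidHom.comp_apply, ← map_inv, ← map_mul, ← map_mul] at e
    rw [← conj_mul]
    refine mul_mem (mem_sup_left (conj_mem_of_mem_normalizer (nO hg) ho)) ?_
    exact (mul_mem_cancel_right (inv_mem (mem_sup_right (mem_map_of_mem ι hy)))).1
      (mem_sup_left (kp _ _ e.symm))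
  refine ⟨fun g hg => ?_, fun g hg h => ?_⟩
  · have sy := H.syl.inf (K := OO C ⊔ Qu.map ι) le_top (by rintro _ ⟨s, rfl⟩; exact nK (SC s))
    rw [show ι.range ⊓ (OO C ⊔ Qu.map ι) = Qu.map ι from le_antisymm (by
      rintro _ ⟨⟨s, rfl⟩, hk⟩
      obtain ⟨o, ho, _, ⟨x, hx, rfl⟩, e⟩ := (mK _).1 hk
      rw [eq_mul_inv_of_mul_eq e, ← map_inv, ← map_mul] at ho
      rw [mul_inv_eq_one.1 (OS H.inj ho)]
      exact mem_map_of_mem ι hx) (le_inf (map_le_range _ _) le_sup_right)] at sy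
    obtain ⟨k, hk, n, hn, rfl⟩ := sy.frattini (nK hg)
    obtain ⟨o, ho, _, ⟨x, hx, rfl⟩, rfl⟩ := (mK k).1 hk
    rw [mul_assoc] at hg
    exact ⟨o, ho, ι x * n, ⟨mul_mem (le_normalizer (mem_map_of_mem ι hx)) hn,
      (mul_mem_cancel_left (H7.pPrimeCoreOf_le 2 C ho)).1 hg⟩, mul_assoc _ _ _⟩
  · obtain ⟨s, hs⟩ := kerX hi hS hz hc (g := π ⟨g, hg⟩) fun x hx => (h x hx).imp
      (fun e => by
        rw [MonoidHom.comp_apply, ← map_inv, ← map_mul, ← map_mul]; exact congrArg π (Subtype.ext e))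
      fun e => by
        rw [MonoidHom.comp_apply, MonoidHom.comp_apply, ← map_inv, ← map_mul, ← map_mul]
        exact congrArg π (Subtype.ext e)
    exact ⟨_, kp _ _ hs.symm, s, by simp [ι']⟩

theorem XF (H : Hyp ι) (hg : g ∈ 𝒞₁ (ι (el 32))) (hx : x ∈ Qu) (e : g * ι x * g⁻¹ = ι y) :
    ∃ n : cQ.N ι, n.1 * ι x * n.1⁻¹ = ι y := by
  obtain ⟨o, ho, n, hn, rfl⟩ := (Zside H).1 g hg
  obtain ⟨y', -, e'⟩ := ex hn hx
  refine ⟨⟨n, hn⟩, e'.trans (congrArg ι (mul_inv_eq_one.1 (OS (C := 𝒞₁ (ι (el 32))) H.inj ?_)))⟩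
  have : ι (y' * y⁻¹) = ι y' * o * (ι y')⁻¹ * o⁻¹ := by
    rw [map_mul, map_inv, ← e, ← e']; group
  rw [this]
  exact mul_mem (conj_mem_of_mem_normalizer (H7.le_normalizer_pPrimeCoreOf 2 _ (SC y')) ho) (inv_mem ho)

theorem Qfact (hi : Function.Injective ι) (hS : IsSyl 2 ι.range ⊤) (n : cQ.N ι) :
    hit [I4, be, sg, eQ] L18 (cQ.cd hi n) = true ∧
    (hit [I4, be, sg] L6 (cQ.cd hi n) = true ∨ ∃ k, cQ.cd hi k = eQ) ∧
    ((∀ v < 16, v % 4 = 0 ∨ ap (cQ.cd hi n) v % 4 ≠ 0) ∨ ∃ k, cQ.cd hi k = sg) := by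
  have q : ∀ v : V 16, qv (ap (cQ.cd hi n) v.val) = qv v.val := fun v => by
    obtain ⟨y, hy, e⟩ := ex n.2 (cQ.secK v)
    have e1 := ap_pr (hi := hi) n (cQ.secK v) e
    have e2 := qv_spec _ (cQ.secK v)
    rw [cQ.prsec] at e1 e2
    have e3 : cQ.sec v * cQ.sec v = 1 ↔ y * y = 1 := by
      rw [← hi.eq_iff, ← hi.eq_iff (a := y * y), map_mul ι y, ← e, conj_mul, ← map_mul, map_one,
        conj_eq_one_iff]
    rw [e2, qv_spec y hy] at e3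
    rw [e1]
    rcases qv_lt v with a | a <;> rcases qv_lt (cQ.pr y) with b | b <;> simp_all
  have q1 := q (vv 16 1)
  have q2 := q (vv 16 2)
  have q3 := q (vv 16 3)
  rw [ap_cd] at q1 q2
  rw [cd16, ap_pk (TN.lt _) (TN.lt _) (TN.lt _)] at q3
  have := factQ _ _ q1 q2 (by simpa [lin, bt, vv, Nat.shiftRight, qv] using q3)
    (cQ.rho hi n (vv 16 4)) (cQ.rho hi n (vv 16 8))
  have e : [cQ.cd hi n, be] = [n, cQ.io ι (el 2)].map (cQ.cd hi) := by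
    simp only [List.map, cd_io, tQ.2.2]
  rw [← cd16, chkQ, show qp (cQ.cd hi n) = true from TN.allB_iff.2 fun v hv => by
    rw [q ⟨v, hv⟩]; exact Nat.beq_refl _, e, good_cd hS tQ.1 tQ.2.1] at this
  simp only [Bool.not_true, Bool.false_or, Bool.and_eq_true, Bool.or_eq_true] at this
  refine ⟨this.1.1, this.1.2.imp_right fun h => ?_, this.2.imp (fun h v hv => ?_) fun h => ?_⟩
  · exact (of_hit tQ.2.1 h).elim fun _ h => ⟨_, h⟩
  · have := TN.allB_iff.1 h v hv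
    rw [Bool.or_eq_true] at this
    exact this.imp Nat.eq_of_beq_eq_true fun q e => by rw [e] at q; exact absurd q (by decide)
  · exact (of_hit tQ.2.1 h).elim fun _ h => ⟨_, h⟩

theorem cdQ (hi : Function.Injective ι) {p q r s : ℕ} (h1 : g * ι (el 1) * g⁻¹ = ι (el p))
    (h2 : g * ι (el 4) * g⁻¹ = ι (el q)) (h3 : g * ι (el 8) * g⁻¹ = ι (el r))
    (h4 : g * ι (el 16) * g⁻¹ = ι (el s)) (h5 : g * ι (el 32) * g⁻¹ = ι (el 32))
    (h : ∀ i ∈ [p, q, r, s, 32], el i ∈ Qu) : ∃ k : cQ.N ι, k.1 = g ∧ cQ.cd hi k =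
      pk (cQ.pr (el p)).val (cQ.pr (el q)).val (cQ.pr (el r)).val (cQ.pr (el s)).val := by
  have m : g ∈ cQ.N ι := ⟨mem_normalizer_of_forall (by
    rintro _ ⟨x, hx, rfl⟩
    have : ∀ x ∈ Qu, ∃ i j k l m : Fin 2,
        x = el 1 ^ i.val * el 4 ^ j.val * el 8 ^ k.val * el 16 ^ l.val * el 32 ^ m.val := by
      decide +kernel
    obtain ⟨i, j, k, l, m, rfl⟩ := this x hx
    simp only [map_mul, map_pow, ← conj_mul, ← conj_pow, h1, h2, h3, h4, h5]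
    have := fun i hi' => mem_map_of_mem ι (h i hi')
    refine mul_mem (mul_mem (mul_mem (mul_mem ?_ ?_) ?_) ?_) ?_ <;>
      exact pow_mem (this _ (by simp)) _), mem_cent1.2 (mul_inv_eq_iff_eq_mul.1 h5)⟩
  have a : el 1 ∈ Qu ∧ el 4 ∈ Qu ∧ el 8 ∈ Qu ∧ el 16 ∈ Qu := by decide +kernel
  refine ⟨⟨g, m⟩, rfl, ?_⟩
  rw [← rho_pr (hi := hi) ⟨g, m⟩ a.1 h1, ← rho_pr (hi := hi) ⟨g, m⟩ a.2.1 h2,
    ← rho_pr (hi := hi) ⟨g, m⟩ a.2.2.1 h3, ← rho_pr (hi := hi) ⟨g, m⟩ a.2.2.2 h4]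
  rfl

theorem czL (H : Hyp ι) {M : Subgroup G} (hM : ι.range ≤ M) (L : List (cQ.N ι))
    (hL : ∀ k ∈ L, k.1 ∈ M) {W : List (List ℕ)}
    (h : ∀ n, hit (L.map (cQ.cd H.inj)) W (cQ.cd H.inj n) = true) :
    ∀ g ∈ 𝒞₁ (ι (el 32)), ∃ o ∈ OO (𝒞₁ (ι (el 32))), ∃ n ∈ M, g = o * n := fun g hg => by
  obtain ⟨o, ho, n, hn, rfl⟩ := (Zside H).1 g hg
  obtain ⟨w, hw⟩ := of_hit tQ.2.1 (h ⟨n, hn⟩)
  have m : evN L w ∈ M.subgroupOf (cQ.N ι) := ev_mem hL w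
  set k := ⟨n, hn⟩ * (evN L w)⁻¹ with hk
  obtain ⟨o', ho', s, e⟩ := (Zside H).2 k.1 k.2.2 fun x hx => by
    obtain ⟨y, hy, e⟩ := ex k.2 hx
    have := rho_pr (hi := H.inj) k hx e
    rw [hk, map_mul, ← cd_inj.1 hw, map_inv, mul_inv_cancel] at this
    have f : ∀ x ∈ Qu, ∀ y ∈ Qu, cQ.pr x = cQ.pr y → y = x ∨ y = el 32 * x := by decide +kernel
    rw [e]
    exact (f x hx y hy this).imp (congrArg ι) (congrArg ι)
  refine ⟨o * o', mul_mem ho ho', ι s * (evN L w).1, mul_mem (hM ⟨s, rfl⟩) m, ?_⟩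
  rw [mul_assoc, ← mul_assoc o', ← e, hk]; simp

theorem cd_s2 (hi : Function.Injective ι)
    (a : Acts ι g [(1, 8), (8, 1), (4, 16), (16, 4), (32, 32)]) :
    ∃ k : cQ.N ι, k.1 = g ∧ cQ.cd hi k = sg := by
  obtain ⟨k, e, h⟩ := cdQ hi (a (1, 8) (by simp)) (a (4, 16) (by simp)) (a (8, 1) (by simp))
    (a (16, 4) (by simp)) (a (32, 32) (by simp)) (by decide +kernel)
  exact ⟨k, e, h.trans (by decide +kernel)⟩

/-- an element with code `eQ` fuses `d`, `e` and `de` -/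
theorem of_eQ (hi : Function.Injective ι) {k : cQ.N ι} (h : cQ.cd hi k = eQ) :
    IsConj (ι (el 8)) (ι (el 16)) ∧ IsConj (ι (el 16)) (ι (el 24)) := by
  have f : ∀ x ∈ Qu, ∀ y', (∀ y ∈ Qu, ap eQ (cQ.pr x).val = (cQ.pr y).val → ∃ s, s * y * s⁻¹ = y') →
      IsConj (ι x) (ι y') := fun x hx y' q => by
    obtain ⟨y, hy, e⟩ := ex k.2 hx
    obtain ⟨s, rfl⟩ := q y hy (h ▸ ap_pr (hi := hi) k hx e)
    exact (isConj_iff.2 ⟨_, e⟩).trans (isConj_iff.2 ⟨ι s, by simp⟩)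
  exact ⟨f _ (by decide +kernel) _ (by decide +kernel), f _ (by decide +kernel) _ (by decide +kernel)⟩

theorem cz8 (H : Hyp ι) (a : Acts ι g [(1, 8), (8, 1), (4, 16), (16, 4), (32, 32)])
    (hn : ¬ IsConj (ι (el 16)) (ι (el 24))) :
    ∀ c ∈ 𝒞₁ (ι (el 32)), ∃ o ∈ OO (𝒞₁ (ι (el 32))), ∃ n ∈ ι.range ⊔ zpowers g, c = o * n := by
  obtain ⟨k, rfl, e⟩ := cd_s2 H.inj a
  refine czL H le_sup_left [1, cQ.io ι (el 2), k] ?_ (W := L6) fun n => ?_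
  · simp only [List.forall_mem_cons]
    exact ⟨one_mem _, mem_sup_left ⟨_, rfl⟩, mem_sup_right (mem_zpowers _), by simp⟩
  · simp only [List.map, cd_one, cd_io, tQ.2.1, tQ.2.2, e]
    exact (Qfact H.inj H.syl n).2.1.resolve_right fun ⟨_, q⟩ => hn (of_eQ H.inj q).2

theorem czS (H : Hyp ι) {h : G} (a : Acts ι g [(1, 8), (8, 1), (4, 16), (16, 4), (32, 32)])
    (b : Acts ι h [(1, 4), (2, 2), (4, 5), (8, 16), (16, 56), (32, 32)]) :
    ∀ c ∈ 𝒞₁ (ι (el 32)), ∃ o ∈ OO (𝒞₁ (ι (el 32))),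
      ∃ n ∈ ι.range ⊔ zpowers g ⊔ zpowers h, c = o * n := by
  obtain ⟨k, rfl, e⟩ := cd_s2 H.inj a
  obtain ⟨l, rfl, e'⟩ := cdQ H.inj (b (1, 4) (by simp)) (b (4, 5) (by simp)) (b (8, 16) (by simp))
    (b (16, 56) (by simp)) (b (32, 32) (by simp)) (by decide +kernel)
  replace e' : cQ.cd H.inj l = eQ := e'.trans (by decide +kernel)
  refine czL H (le_sup_left.trans le_sup_left) [1, cQ.io ι (el 2), k, l] ?_ (W := L18) fun n => ?_
  · simp only [List.forall_mem_cons]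
    exact ⟨one_mem _, mem_sup_left (mem_sup_left ⟨_, rfl⟩),
      mem_sup_left (mem_sup_right (mem_zpowers _)), mem_sup_right (mem_zpowers _), by simp⟩
  · simp only [List.map, cd_one, cd_io, tQ.2.1, tQ.2.2, e, e']
    exact (Qfact H.inj H.syl n).1

end Cfsg.A8.F
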