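import Cfsg.Agent.A8.F4
import Cfsg.Agent.H4.TT
import Cfsg.Agent.H5.ZStar

/-! Fusion of the involutions. -/

set_option autoImplicit false
set_option linter.unusedSectionVars false
set_option maxRecDepth 100000

namespace Cfsg.A8.F

open Subgroup Cfsg.L0 Cfsg.H8 Cfsg.FT Cfsg.H5 Cht

variable {G : Type} [Group G] [Finite G] {ι : UT →* G} {g : G} {x y : UT}

theorem cjS (s : UT) (h : s * x * s⁻¹ = y) : IsConj (ι x) (ι y) :=
  isConj_iff.2 ⟨ι s, by simp [← h]⟩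

theorem sq_of_cj (hi : Function.Injective ι) (h : IsConj (ι x) (ι y)) (hx : x * x = 1) :
    y * y = 1 := by
  obtain ⟨g, e⟩ := isConj_iff.1 h
  exact hi (by rw [map_mul, ← e, conj_mul, ← map_mul, hx]; simp)

theorem zcomm (hi : Function.Injective ι) (h2 : x * x = 1) (hx : x ∉ Au)
    (h : ∀ t, t * x = x * t → g * ι t * g⁻¹ ∈ ι.range) (e : g * ι x * g⁻¹ = ι y) :
    ∃ s t, s * y = y * s ∧ t * y = y * t ∧ g * ι (el 32) * g⁻¹ = ι (s * t * s⁻¹ * t⁻¹) := by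
  have : ∀ x : UT, x * x = 1 → x ∉ Au → ∃ a, a * x = x * a ∧ ∃ b, b * x = x * b ∧
      a * b * a⁻¹ * b⁻¹ = el 32 := by decide +kernel
  obtain ⟨a, ha, b, hb, q⟩ := this x h2 hx
  obtain ⟨s, hs⟩ := h a ha
  obtain ⟨t, ht⟩ := h b hb
  refine ⟨s, t, hi ?_, hi ?_, ?_⟩
  · rw [map_mul, map_mul, hs, ← e, conj_mul, conj_mul, ← map_mul, ← map_mul, ha]
  · rw [map_mul, map_mul, ht, ← e, conj_mul, conj_mul, ← map_mul, ← map_mul, hb]
  · simp only [← q, map_mul, map_inv, hs, ht]; group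

theorem ext1 (hi : Function.Injective ι) (hS : IsSyl 2 ι.range ⊤) (hx : x ∉ Au) (hy : y ∈ Au)
    (h : IsConj (ι x) (ι y)) : ∃ g : G, ∃ y' ∈ Au, ∃ z' ∈ Au, g * ι x * g⁻¹ = ι y' ∧
      g * ι (el 32) * g⁻¹ = ι z' := by
  obtain ⟨g, k, hk, e, le⟩ := ext0 hi hS hy (T := 𝒞₁ x) le_rfl h
  rw [← cj_mul] at le
  obtain ⟨y', hy', e'⟩ := ex (memA hk) hy
  have e2 : k * g * ι x * (k * g)⁻¹ = ι y' := by rw [← e', ← e]; group
  obtain ⟨s, t, -, -, q⟩ := zcomm hi (sq_of_cj hi h.symm (A_el y hy).1) hx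
    (fun t ht => le (conj_mem_cj (mem_map_of_mem ι (mem_cent1.2 ht)))) e2
  have : ∀ s t : UT, s * t * s⁻¹ * t⁻¹ ∈ Au := by decide +kernel
  exact ⟨_, y', hy', _, this s t, e2, q⟩

theorem XA (H : Hyp ι) (hx : x ∉ Au) (hy : y ∈ Au) (h : IsConj (ι x) (ι y)) :
    ∃ k, cQ.cd H.inj (ι := ι) k = sg := by
  obtain ⟨g, y', hy', z', hz', e, q⟩ := ext1 H.inj H.syl hx hy h
  obtain ⟨m, hm, q'⟩ := burnA H.inj H.syl hz' (show el 32 ∈ Au by decide +kernel)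
    (isConj_iff.2 ⟨g, q⟩).symm
  obtain ⟨y2, h2, e2⟩ := ex (memA hm) hy'
  have f : ∀ x : UT, x * x = 1 → x ∉ Au → x ∈ Qu ∧ (cQ.pr x).val % 4 ≠ 0 := by decide +kernel
  have f' : ∀ y ∈ Au, (cQ.pr y).val % 4 = 0 := by decide +kernel
  obtain ⟨xq, x4⟩ := f x (sq_of_cj H.inj h.symm (A_el y hy).1) hx
  obtain ⟨n, hn⟩ := XF H (g := m * g) (y := y2) (mem_cent1.2 (mul_inv_eq_iff_eq_mul.1
    (Eq.trans (by rw [← q]; group) q'))) xq (by rw [← e2, ← e]; group)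
  refine (Qfact H.inj H.syl n).2.2.resolve_left fun a => (a _ (cQ.pr x).lt).elim x4 fun b => b ?_
  rw [ap_pr n xq hn]; exact f' y2 h2

theorem zA (H : Hyp ι) : ∃ y ∈ Au, y ≠ el 32 ∧ IsConj (ι (el 32)) (ι y) := by
  have z1 : ι (el 32) ≠ 1 := fun e => absurd (H.inj (e.trans (map_one ι).symm)) (by decide +kernel)
  have z2 : ι (el 32) * ι (el 32) = 1 := by rw [← map_mul, ← map_one ι]; congr 1
  by_contra hn
  push Not at hn
  have := mem_center_of_isIsolated H.odd (orderOf_eq_prime (by rw [sq, z2]) z1)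
    (isIsolated_of_weaklyClosed H.syl ⟨_, rfl⟩ fun g ⟨y, hy⟩ => by
      by_contra ne
      have c : IsConj (ι (el 32)) (ι y) := isConj_iff.2 ⟨g, hy.symm⟩
      have y1 : y ≠ el 32 := fun e => ne (by rw [← hy, e])
      by_cases a : y ∈ Au
      · exact hn y a y1 c
      obtain ⟨k, y', hy', z', hz', e, q⟩ := ext1 H.inj H.syl a (show el 32 ∈ Au by decide +kernel) c.symm
      by_cases b : y' = el 32
      · refine hn z' hz' (fun r => y1 (H.inj ?_)) (isConj_iff.2 ⟨k, q⟩)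
        rw [b] at e; rw [r] at q
        simpa using e.trans q.symm
      · exact hn y' hy' b (c.trans (isConj_iff.2 ⟨k, e⟩)))
  have n : (zpowers (ι (el 32))).Normal := ⟨fun a ha g => by
    rwa [← mem_center_iff.1 (zpowers_le.2 this ha) g |>.symm, mul_inv_cancel_right]⟩
  have := H7.le_pCore (sq_pg z2) (mem_zpowers _)
  rw [H.core] at this
  exact z1 this

theorem tr (H : Hyp ι) (hn : ¬ (IsConj (ι (el 8)) (ι (el 16)) ∧ IsConj (ι (el 16)) (ι (el 24)))) :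
    ∃ k, cQ.cd H.inj (ι := ι) k = sg := by
  have n2 : ∀ N : Subgroup G, N.index ≠ 2 := fun N e => by
    have : pResidual 2 G ≤ N := H7.pResidual_le_iff.2 fun x hx =>
      mem_of_pow_mem hx (by rw [pow_orderOf_eq_one]; exact one_mem _) (sq_mem_of_index_two e x)
    rw [H.res, top_le_iff] at this
    rw [this, index_top] at e
    exact absurd e (by norm_num)
  obtain ⟨g, ⟨y, hy, e⟩, h⟩ := H4.exists_conj_mem_extremal n2 (M := R3u.map ι) (S := ι.range)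
    (T := (𝒞₁ (el 4)).map ι) (t := ι (el 4)) (map_le_range _ _) (by
      rw [MonoidHom.range_eq_map, relIndex_map_map_of_injective _ _ H.inj, relIndex_top_right]
      exact index_eq_two_iff.2 (by decide +kernel))
    (by have := H.syl.not_dvd; rw [relIndex_top_right] at this
        exact Nat.odd_iff.2 (Nat.two_dvd_ne_zero.1 this))
    (by rw [← map_pow, ← map_one ι]; congr 1) (pg_map H.syl _) (by
      rintro _ ⟨t, ht, rfl⟩; rw [← map_mul, ← map_mul, mem_cent1.1 ht])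
  have e' : g⁻¹ * ι (el 4) * g⁻¹⁻¹ = ι y := by rw [inv_inv, e]
  have c : IsConj (ι (el 4)) (ι y) := isConj_iff.2 ⟨_, e'⟩
  have c4 : el 4 ∉ Au ∧ el 4 ∈ Qu ∧ el 4 * el 4 = 1 := by decide +kernel
  by_cases a : y ∈ Au
  · exact XA H c4.1 a c
  obtain ⟨s, t, hs, ht, q⟩ := zcomm H.inj c4.2.2 c4.1 (fun t ht => by
    rw [inv_inv]; exact h _ (mem_map_of_mem ι (mem_cent1.2 ht))) e'
  have f : ∀ y ∈ R3u, y * y = 1 → y ∉ Au → (∀ w ∈ L6, ap (evC [I4, be, sg] I4 w) 2 ≠ (cQ.pr y).val) ∧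
      ∀ s, s * y = y * s → ∀ t, t * y = y * t →
      s * t * s⁻¹ * t⁻¹ = 1 ∨ s * t * s⁻¹ * t⁻¹ = el 32 := by decide +kernel
  obtain ⟨f1, f2⟩ := f y hy (sq_of_cj H.inj c c4.2.2) a
  rcases f2 s hs t ht with r | r <;> rw [r] at q
  · rw [map_one, conj_eq_one_iff, ← map_one ι] at q
    exact absurd (H.inj q) (by decide +kernel)
  obtain ⟨n, hn'⟩ := XF H (mem_cent1.2 (mul_inv_eq_iff_eq_mul.1 q)) c4.2.1 e'
  rcases (Qfact H.inj H.syl n).2.1 with b | ⟨_, b⟩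
  · obtain ⟨w, hw, b⟩ := List.any_eq_true.1 b
    exact absurd (Nat.eq_of_beq_eq_true b ▸ ap_pr (hi := H.inj) n c4.2.1 hn') (f1 w hw)
  · exact absurd (of_eQ H.inj b) hn

theorem mvz (hi : Function.Injective ι) (hS : IsSyl 2 ι.range ⊤) (hy : y ∈ Au)
    (h : IsConj (ι (el 32)) (ι y)) :
    ∃ k : cA.N ι, ∃ p q r : V 16, pk p.val q.val r.val (cA.pr y).val = cA.cd hi k := by
  have z : el 32 ∈ Au := by decide +kernel
  obtain ⟨g, hg, e⟩ := burnA hi hS z hy h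
  exact ⟨⟨g, memA hg⟩, _, _, _, by rw [← rho_pr (hi := hi) ⟨g, memA hg⟩ z e]; rfl⟩

theorem ev_LA (hi : Function.Injective ι) (k : cA.N ι) (w : List ℕ) :
    ∃ l : cA.N ι, cA.cd hi l = evC (LA (cA.cd hi k)) I4 w :=
  ⟨evN _ w, by rw [cd_ev, tA.2.1, ← LA_eq]⟩

theorem good_LA (hi : Function.Injective ι) (hS : IsSyl 2 ι.range ⊤) (k : cA.N ι)
    (W : List (List ℕ)) : good TA (LA (cA.cd hi k)) W = true := by
  rw [LA_eq]; exact good_cd hS tA.1 tA.2.1 _ _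

theorem getD (H : Hyp ι) (h : IsConj (ι (el 32)) (ι (el 8))) :
    ∃ k, cA.cd H.inj (ι := ι) k = s3 ∨ cA.cd H.inj k = s3' := by
  obtain ⟨k, p, q, r, e⟩ := mvz H.inj H.syl (by decide +kernel) h
  obtain ⟨l, hl⟩ := ev_LA H.inj k [2, 0, 0, 0, 2, 0, 2]
  have := factD p q r
  rw [show pk p.val q.val r.val 2 = _ from e] at this
  exact ⟨l, hl ▸ this (inj_cd k) (good_LA _ H.syl k _)⟩

theorem getE (H : Hyp ι) (h : IsConj (ι (el 32)) (ι (el 16))) :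
    ∃ k, cA.cd H.inj (ι := ι) k = s1 ∨ cA.cd H.inj k = s1' := by
  obtain ⟨k, p, q, r, e⟩ := mvz H.inj H.syl (by decide +kernel) h
  obtain ⟨l, hl⟩ := ev_LA H.inj k [1, 0, 0, 0, 1, 0, 1]
  have := factE p q r
  rw [show pk p.val q.val r.val 4 = _ from e] at this
  exact ⟨l, hl ▸ this (inj_cd k) (good_LA _ H.syl k _)⟩

theorem getF (H : Hyp ι) (h : IsConj (ι (el 32)) (ι (el 24))) :
    ∃ k, cA.cd H.inj (ι := ι) k = s2 ∨ cA.cd H.inj k = s2' := by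
  obtain ⟨k, p, q, r, e⟩ := mvz H.inj H.syl (by decide +kernel) h
  obtain ⟨l, hl⟩ := ev_LA H.inj k [0, 0, 0, 1, 0]
  have := factF p q r
  rw [show pk p.val q.val r.val 6 = _ from e] at this
  exact ⟨l, hl ▸ this (inj_cd k) (good_LA _ H.syl k _)⟩

theorem not3 (H : Hyp ι) (h1 : IsConj (ι (el 32)) (ι (el 8))) (h2 : IsConj (ι (el 32)) (ι (el 16)))
    (h3 : IsConj (ι (el 32)) (ι (el 24))) : False := by
  have nb : ∀ k, bad TA I4 (cA.cd H.inj (ι := ι) k) ≠ true := fun k => by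
    rw [← tA.2.1, not_bad H.syl tA.1]; simp
  have w : ∀ k l, evC [cA.cd H.inj k, ta, cA.cd H.inj l] I4 [0, 1, 2] =
      cA.cd H.inj (ι := ι) (evN [k, cA.io ι (el 1), l] [0, 1, 2]) := fun k l => by
    rw [cd_ev, tA.2.1]; simp only [List.map, cd_io, tA.2.2.1]
  obtain ⟨p1, p2, p3, p4, p5, p6⟩ := pair
  obtain ⟨k, a | a⟩ := getD H h1 <;> obtain ⟨l, b | b⟩ := getE H h2 <;>
    obtain ⟨m, c | c⟩ := getF H h3
  · rw [← a, ← c, ← cd_mul] at p3; exact nb _ p3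
  · rw [← a, ← b, ← c, ← cd_mul, ← cd_mul] at p4; exact nb _ p4
  · rw [← a, ← b, w] at p1; exact nb _ p1
  · rw [← a, ← b, w] at p1; exact nb _ p1
  · rw [← a, ← b, w] at p2; exact nb _ p2
  · rw [← a, ← b, w] at p2; exact nb _ p2
  · rw [← a, ← b, ← c, ← cd_mul, ← cd_mul] at p5; exact nb _ p5
  · rw [← a, ← c, ← cd_mul] at p6; exact nb _ p6

theorem cjA (hi : Function.Injective ι) {k : cA.N ι} {m : ℕ} (h : cA.cd hi k = m) (i j : ℕ)
    (q : el i ∈ Au ∧ el j ∈ Au ∧ ap m (cA.pr (el i)).val = (cA.pr (el j)).val := by decide +kernel) :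
    IsConj (ι (el i)) (ι (el j)) := isConj_iff.2 ⟨_, of_cd rfl k q.1 q.2.1 (h ▸ q.2.2)⟩

def pw (x : UT) (i : ℕ) : UT := cond (Nat.beq i 0) 1 x

/-- the map with the given images of `a, b, c, d, e` -/
def au (a b c d e : ℕ) (x : UT) : UT := pw (el e) (bt x.val 4) * pw (el c) (bt x.val 2) *
  pw (el d) (bt x.val 3) * pw (el b) (bt x.val 1) * pw (el a) (bt x.val 0) * pw (el 32) (bt x.val 5)

def eta : UT →* UT := MonoidHom.mk' (au 4 2 5 16 56) (by decide +kernel)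
def beta : UT →* UT := MonoidHom.mk' (au 1 34 4 8 16) (by decide +kernel)

theorem hyp_comp (H : Hyp ι) (α : UT →* UT) (h : (∀ x, α x = 1 → x = 1) ∧ α (el 32) = el 32) :
    Hyp (ι.comp α) := by
  have i := (injective_iff_map_eq_one α).2 h.1
  have e : (ι.comp α).range = ι.range := by
    rw [← MonoidHom.map_range, MonoidHom.range_eq_top.2 (Finite.injective_iff_surjective.1 i),
      MonoidHom.range_eq_map]
  exact ⟨H.inj.comp i, e ▸ H.syl, H.res, H.core, H.odd, by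
    rw [MonoidHom.comp_apply, h.2]; exact H.sol⟩

theorem rot (H : Hyp ι) : ∃ κ : UT →* G, Hyp κ ∧
    (IsConj (κ (el 32)) (κ (el 8)) ↔ IsConj (ι (el 32)) (ι (el 16))) ∧
    (IsConj (κ (el 32)) (κ (el 16)) ↔ IsConj (ι (el 32)) (ι (el 24))) ∧
    (IsConj (κ (el 32)) (κ (el 24)) ↔ IsConj (ι (el 32)) (ι (el 8))) := by
  have e : eta (el 32) = el 32 ∧ eta (el 8) = el 16 ∧ el 1 * eta (el 16) * (el 1)⁻¹ = el 24 ∧
    el 4 * eta (el 24) * (el 4)⁻¹ = el 8 := by decide +kernel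
  refine ⟨ι.comp eta, hyp_comp H _ (by decide +kernel), ?_⟩
  simp only [MonoidHom.comp_apply, e.1, e.2.1, true_and]
  exact ⟨⟨fun h => h.trans (cjS _ e.2.2.1), fun h => h.trans (cjS _ e.2.2.1).symm⟩,
    ⟨fun h => h.trans (cjS _ e.2.2.2), fun h => h.trans (cjS _ e.2.2.2).symm⟩⟩

theorem flp (H : Hyp ι) : ∃ κ : UT →* G, Hyp κ ∧ κ (el 2) = ι (el 34) ∧
    ∀ i ∈ [32, 8, 16, 24], κ (el i) = ι (el i) := by
  have e : beta (el 2) = el 34 ∧ ∀ i ∈ [32, 8, 16, 24], beta (el i) = el i := by decide +kernel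
  exact ⟨ι.comp beta, hyp_comp H _ (by decide +kernel), congrArg ι e.1,
    fun i hi => congrArg ι (e.2 i hi)⟩

end Cfsg.A8.F
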