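import Cfsg.Agent.A8.F5

/-! The case analysis. -/

set_option autoImplicit false
set_option linter.unusedSectionVars false
set_option maxRecDepth 100000

namespace Cfsg.A8.F

open Subgroup Cfsg.L0 Cfsg.H8 Cfsg.FT Cfsg.H5 Cht

variable {G : Type} [Group G] [Finite G] {ι : UT →* G} {g : G} {x y : UT}

/-- the conclusion -/
def Goal (G : Type) [Group G] : Prop :=
  (∃ (κ : UT →* G) (s₁ s₂ s₃ : G), T8 κ s₁ s₂ s₃) ∨ ∃ (κ : UT →* G) (s₂ h w : G), TS κ s₂ h w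

theorem one (gu : TaskGU) (ad : TaskAdj) (H : Hyp ι) (d : IsConj (ι (el 32)) (ι (el 8)))
    (e : ¬ IsConj (ι (el 32)) (ι (el 16))) (f : ¬ IsConj (ι (el 32)) (ι (el 24))) : False := by
  obtain ⟨k, hk⟩ := tr H fun q => e (d.trans q.1)
  obtain ⟨s, a⟩ := (ad G ι H.inj H.syl).2.2.2.2 k hk
  have c1 : IsConj (ι (el 1)) (ι (el 8)) := isConj_iff.2 ⟨s, a (1, 8) (by simp)⟩
  have c2 : IsConj (ι (el 4)) (ι (el 16)) := isConj_iff.2 ⟨s, a (4, 16) (by simp)⟩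
  have c3 : IsConj (ι (el 5)) (ι (el 24)) := by
    have m : el 5 = el 4 * el 1 ∧ el 24 = el 16 * el 8 := by decide +kernel
    exact isConj_iff.2 ⟨s, by
      rw [m.1, m.2, map_mul, map_mul, ← conj_mul, a (1, 8) (by simp), a (4, 16) (by simp)]⟩
  have c4 : ¬ IsConj (ι (el 32)) (ι (el 2)) ∧ ¬ IsConj (ι (el 32)) (ι (el 34)) := by
    obtain ⟨l, q | q⟩ := getD H d
    · exact ⟨fun r => e (r.trans (cjA _ q 2 16)), fun r => f (r.trans (cjA _ q 34 24))⟩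
    · exact ⟨fun r => f (r.trans (cjA _ q 2 24)), fun r => e (r.trans (cjA _ q 16 34).symm)⟩
  refine gu G ι H fun x hx y h => ?_
  have f1 : ∀ x ∈ U1u, x * x = 1 ∧ (x = 1 ∨ ∃ s, s * x * s⁻¹ = el 32 ∨ s * x * s⁻¹ = el 8 ∨
      s * x * s⁻¹ = el 1) := by decide +kernel
  have f2 : ∀ y : UT, y * y = 1 → y ∈ U1u ∨ ∃ s, ∃ i ∈ [16, 24, 2, 34, 4, 5], s * y * s⁻¹ = el i := by
    decide +kernel
  obtain ⟨x2, rfl | ⟨t, q⟩⟩ := f1 x hx
  · rw [map_one, isConj_one_right, ← map_one ι] at h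
    rw [H.inj h]; exact one_mem _
  have z : IsConj (ι (el 32)) (ι y) := by
    refine IsConj.trans ?_ h
    rcases q with q | q | q
    exacts [(cjS _ q).symm, d.trans (cjS _ q).symm, d.trans (c1.symm.trans (cjS _ q).symm)]
  refine (f2 y (sq_of_cj H.inj h x2)).resolve_right fun ⟨u, i, hi, q⟩ => ?_
  replace z := z.trans (cjS _ q)
  simp only [List.mem_cons, List.not_mem_nil, or_false] at hi
  rcases hi with rfl | rfl | rfl | rfl | rfl | rfl
  exacts [e z, f z, c4.1 z, c4.2 z, e (z.trans c2), f (z.trans c3)]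

theorem two' (ad : TaskAdj) (H : Hyp ι) (d : IsConj (ι (el 32)) (ι (el 8)))
    (e : IsConj (ι (el 32)) (ι (el 16))) (f : ¬ IsConj (ι (el 32)) (ι (el 24)))
    (b : IsConj (ι (el 32)) (ι (el 2))) : Goal G := by
  obtain ⟨a1, a3, -, -, a2⟩ := ad G ι H.inj H.syl
  obtain ⟨k, hk⟩ := tr H fun q => f (e.trans q.2)
  obtain ⟨s₂, h2⟩ := a2 k hk
  obtain ⟨l, q | q⟩ := getD H d
  swap
  · exact absurd (b.trans (cjA _ q 2 24)) f
  obtain ⟨m, r | r⟩ := getE H e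
  swap
  · exact absurd (b.trans (cjA _ r 2 24)) f
  obtain ⟨s₁, h1⟩ := a1 m r
  obtain ⟨s₃, h3⟩ := a3 l q
  exact .inl ⟨ι, s₁, s₂, s₃, H, h1, h2, h3, cz8 H h2 fun q => f (e.trans q), f⟩

theorem two (ad : TaskAdj) (H : Hyp ι) (d : IsConj (ι (el 32)) (ι (el 8)))
    (e : IsConj (ι (el 32)) (ι (el 16))) (f : ¬ IsConj (ι (el 32)) (ι (el 24))) : Goal G := by
  obtain ⟨l, q | q⟩ := getD H d
  · exact two' ad H d e f (e.trans (cjA _ q 2 16).symm)
  obtain ⟨κ, K, b, h⟩ := flp H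
  simp only [List.forall_mem_cons] at h
  obtain ⟨h1, h2, h3, h4, -⟩ := h
  refine two' ad K ?_ ?_ ?_ ?_ <;> rw [h1]
  exacts [h2 ▸ d, h3 ▸ e, h4 ▸ f, b ▸ e.trans (cjA _ q 16 34)]

theorem cls {M : ℕ}
    (hM : ∀ x ∈ Au, ∃ s, ∃ i ∈ [0, 32, 8, 16, 24, 2, 34], s * x * s⁻¹ = el i ∧
      bt M (cA.pr x).val = bt M (cA.pr (el i)).val)
    (h : ∀ i ∈ [0, 32, 8, 16, 24, 2, 34],
      IsConj (ι (el 32)) (ι (el i)) ↔ bt M (cA.pr (el i)).val = 1) (hx : x ∈ Au) :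
    IsConj (ι (el 32)) (ι x) ↔ bt M (cA.pr x).val = 1 := by
  obtain ⟨s, i, hi, q, r⟩ := hM x hx
  rw [r, ← h i hi]
  exact ⟨fun a => a.trans (cjS _ q), fun a => a.trans (cjS _ q).symm⟩

theorem pres_cd (hi : Function.Injective ι) {M : ℕ}
    (h : ∀ x ∈ Au, IsConj (ι (el 32)) (ι x) ↔ bt M (cA.pr x).val = 1) (k : cA.N ι) :
    pres M (cA.cd hi k) = true := TN.allB_iff.2 fun v hv => by
  obtain ⟨y, hy, e⟩ := ex k.2 (cA.secK ⟨v, hv⟩)
  have e1 := ap_pr (hi := hi) k (cA.secK ⟨v, hv⟩) e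
  have e2 := h _ (cA.secK ⟨v, hv⟩)
  rw [cA.prsec] at e1 e2
  have : bt M v = 0 ∨ bt M v = 1 := by
    have : bt M v = _ % 2 := Nat.and_one_is_mod _
    omega
  rcases this with q | q
  · rw [q]; rfl
  · rw [show ap (cA.cd hi k) v = _ from e1, (h y hy).1 ((e2.2 q).trans (isConj_iff.2 ⟨_, e⟩))]
    simp

theorem zero' (ga : TaskGA) (ad : TaskAdj) (H : Hyp ι) (d : ¬ IsConj (ι (el 32)) (ι (el 8)))
    (e : ¬ IsConj (ι (el 32)) (ι (el 16))) (f : ¬ IsConj (ι (el 32)) (ι (el 24)))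
    (b : IsConj (ι (el 32)) (ι (el 2))) : Goal G := by
  have o : ¬ IsConj (ι (el 32)) (ι (el 0)) := fun h => by
    rw [show el 0 = 1 from rfl, map_one, isConj_one_left, ← map_one ι] at h
    exact absurd (H.inj h) (by decide +kernel)
  obtain ⟨k, p, q, r, hk⟩ := mvz H.inj H.syl (by decide +kernel) b
  replace hk : pk p.val q.val r.val 1 = cA.cd H.inj k := hk
  have b' : ¬ IsConj (ι (el 32)) (ι (el 34)) := fun b' => by
    have := fact9 p q r
    rw [hk] at this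
    refine absurd (this (inj_cd k)) (Bool.not_eq_false _ ▸ pres_cd H.inj (fun x hx =>
      cls (by decide +kernel) ?_ hx) k)
    simp only [List.forall_mem_cons, o, d, e, f, b, b', IsConj.refl, List.not_mem_nil,
      IsEmpty.forall_iff, implies_true]
    decide +kernel
  have c : ∀ x ∈ Au, IsConj (ι (el 32)) (ι x) ↔ bt 33066 (cA.pr x).val = 1 := fun x hx => by
    refine cls (by decide +kernel) ?_ hx
    simp only [List.forall_mem_cons, o, d, e, f, b, b', IsConj.refl, List.not_mem_nil,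
      IsEmpty.forall_iff, implies_true]
    decide +kernel
  have := fact5 p q r
  rw [hk] at this
  obtain ⟨u1, u2⟩ := this (inj_cd k) (pres_cd H.inj c k) (good_LA _ H.syl k _)
  rw [LA_eq] at u1 u2
  obtain ⟨_, u1⟩ := of_hit tA.2.1 u1
  obtain ⟨_, u2⟩ := of_hit tA.2.1 u2
  obtain ⟨-, -, a1, a3, a2⟩ := ad G ι H.inj H.syl
  obtain ⟨h, hh⟩ := a1 _ u1
  obtain ⟨l, hl⟩ : ∃ l, cQ.cd H.inj (ι := ι) l = sg := by
    by_contra hn
    refine ga G ι H (fun x hx y h => ?_) fun x hx y hy h q => (c y hy).1 (((c x hx).2 q).trans h)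
    by_contra hy
    exact hn (XA H hy hx h.symm)
  obtain ⟨s, hs⟩ := a2 l hl
  exact .inr ⟨ι, s, h, _, H, hs, hh, a3 _ u2, czS H hs hh, d⟩

theorem zero (ga : TaskGA) (ad : TaskAdj) (H : Hyp ι) (d : ¬ IsConj (ι (el 32)) (ι (el 8)))
    (e : ¬ IsConj (ι (el 32)) (ι (el 16))) (f : ¬ IsConj (ι (el 32)) (ι (el 24))) : Goal G := by
  obtain ⟨y, hy, y1, c⟩ := zA H
  have : ∀ y ∈ Au, y ≠ el 32 → y = 1 ∨ ∃ s, ∃ i ∈ [8, 16, 24, 2, 34], s * y * s⁻¹ = el i := by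
    decide +kernel
  obtain rfl | ⟨s, i, hi, q⟩ := this y hy y1
  · rw [map_one, isConj_one_left, ← map_one ι] at c
    exact absurd (H.inj c) (by decide +kernel)
  replace c := c.trans (cjS _ q)
  simp only [List.mem_cons, List.not_mem_nil, or_false] at hi
  rcases hi with rfl | rfl | rfl | rfl | rfl
  exacts [absurd c d, absurd c e, absurd c f, zero' ga ad H d e f c, by
    obtain ⟨κ, K, b, h⟩ := flp H
    simp only [List.forall_mem_cons] at h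
    obtain ⟨h1, h2, h3, h4, -⟩ := h
    refine zero' ga ad K ?_ ?_ ?_ ?_ <;> rw [h1]
    exacts [h2 ▸ d, h3 ▸ e, h4 ▸ f, b ▸ c]]

theorem taskF_of (gu : TaskGU) (ga : TaskGA) (ad : TaskAdj) : TaskF := fun G _ _ ι H => by
  show Goal G
  obtain ⟨κ, K, k1, k2, k3⟩ := rot H
  obtain ⟨μ, M, m1, m2, m3⟩ := rot K
  rw [k2] at m1; rw [k3] at m2; rw [k1] at m3
  by_cases d : IsConj (ι (el 32)) (ι (el 8)) <;> by_cases e : IsConj (ι (el 32)) (ι (el 16)) <;>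
    by_cases f : IsConj (ι (el 32)) (ι (el 24))
  · exact (not3 H d e f).elim
  · exact two ad H d e f
  · exact two ad M (m1.2 f) (m2.2 d) (mt m3.1 e)
  · exact (one gu ad H d e f).elim
  · exact two ad K (k1.2 e) (k2.2 f) (mt k3.1 d)
  · exact (one gu ad K (k1.2 e) (mt k2.1 f) (mt k3.1 d)).elim
  · exact (one gu ad M (m1.2 f) (mt m2.1 d) (mt m3.1 e)).elim
  · exact zero ga ad H d e f

end Cfsg.A8.F
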