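import Cfsg.Agent.A8.FD

/-! Task F: exact actions from actions on the sections. -/

set_option autoImplicit false
set_option maxRecDepth 100000
set_option synthInstance.maxSize 4000

namespace Cfsg.A8.F

open Subgroup Cfsg.L0 Cfsg.H8 Cfsg.FT Cfsg.H5 Cht

variable {G : Type} [Group G] [Finite G] {ι : UT →* G}

theorem adjA : ∀ x : UT, x * el 2 = el 2 * x → x * el 8 = el 8 * x → x * el 16 = el 16 * x →
    x ∈ Au := by decide +kernel

theorem adj0 (hi : Function.Injective ι) (hS : IsSyl 2 ι.range ⊤) (T : Subgroup UT) (h1 : Au ≤ T)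
    (h2 : ∀ s, ∀ t ∈ T, s * t * s⁻¹ ∈ T) (g : cA.N ι)
    (h3 : ∀ t ∈ T, ∃ t' ∈ T, cp (cA.cd hi g) (cA.tc t) = cp (cA.tc t') (cA.cd hi g)) :
    ∃ n : G, (∀ t ∈ T, ∃ t' ∈ T, n * ι t * n⁻¹ = ι t') ∧
      ∀ x ∈ Au, n * ι x * n⁻¹ = g.1 * ι x * g.1⁻¹ := by
  have nP : ι.range ≤ 𝒩 (T.map ι) := by
    rintro _ ⟨s, rfl⟩
    refine mem_normalizer_of_cj_le ?_
    rintro _ ⟨_, ⟨t, ht, rfl⟩, rfl⟩
    exact ⟨_, h2 s t ht, by simp⟩
  have nA : ι.range ≤ 𝒩 (Au.map ι) := (S_le (c := cA)).trans inf_le_left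
  have nC := le_norm_cent nA
  have PS : T.map ι ≤ ι.range := map_le_range _ _
  have sy : IsSyl 2 (T.map ι) (T.map ι ⊔ 𝒞 (Au.map ι)) := by
    have := hS.inf (K := T.map ι ⊔ 𝒞 (Au.map ι)) le_top (le_norm_sup nP nC)
    rwa [show ι.range ⊓ (T.map ι ⊔ 𝒞 (Au.map ι)) = T.map ι from
      le_antisymm ?_ (le_inf PS le_sup_left)] at this
    rintro x ⟨a, b⟩
    obtain ⟨p, hp, c, hc, rfl⟩ := (mem_sup_of_le_normalizer (PS.trans nC)).1 b
    obtain ⟨y, rfl⟩ := (mul_mem_cancel_left (PS hp)).1 a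
    have k : ∀ u ∈ Au, y * u = u * y := fun u hu =>
      hi (by rw [map_mul, map_mul, mem_cent.1 hc _ ⟨u, hu, rfl⟩])
    exact mul_mem hp ⟨y, h1 (adjA y (k _ (by decide)) (k _ (by decide)) (k _ (by decide))), rfl⟩
  have gL : g.1 ∈ 𝒩 (T.map ι ⊔ 𝒞 (Au.map ι)) := by
    refine mem_normalizer_of_cj_le ?_
    rw [cj_sup, cj_eq_iff.2 (norm_le_norm_cent (Au.map ι) g.2.1)]
    refine sup_le ?_ le_sup_right
    rintro _ ⟨_, ⟨t, ht, rfl⟩, rfl⟩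
    obtain ⟨t', ht', q⟩ := h3 t ht
    rw [← cd_io (hi := hi) (ι := ι), ← cd_io (hi := hi) (ι := ι), ← cd_mul, ← cd_mul, cd_inj] at q
    have := cent_of_cd (c := cA) (hi := hi) rfl (g * cA.io ι t * g⁻¹ * (cA.io ι t')⁻¹)
      (cd_inj.2 (by rw [map_mul, map_mul, q]; simp))
    have e : (MulAut.conj g.1).toMonoidHom (ι t) = g.1 * ι t * g.1⁻¹ * (ι t')⁻¹ * ι t' := by simp
    rw [e]
    exact mul_mem (mem_sup_right this) (mem_sup_left ⟨t', ht', rfl⟩)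
  obtain ⟨k, hk, n, hn, e⟩ := sy.frattini gL
  obtain ⟨p, hp, c, hc, rfl⟩ := (mem_sup_of_le_normalizer (PS.trans nC)).1 (inv_mem hk) |>.imp
    fun p ⟨hp, c, hc, e⟩ => (⟨hp, c, hc, by rw [← mul_inv_rev, e, inv_inv]⟩ :
      p ∈ T.map ι ∧ ∃ c ∈ 𝒞 (Au.map ι), c⁻¹ * p⁻¹ = k)
  refine ⟨p⁻¹ * n, fun t ht => ?_, fun x hx => ?_⟩
  · obtain ⟨t', a, b⟩ := (mem_normalizer_iff.1 (mul_mem (inv_mem (nP (PS hp))) hn) _).1 ⟨t, ht, rfl⟩
    exact ⟨t', a, b.symm⟩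
  · obtain ⟨y, hy, b⟩ := ex g.2 hx
    rw [show p⁻¹ * n = c * g.1 by rw [e]; group,
      show c * g.1 * ι x * (c * g.1)⁻¹ = c * (g.1 * ι x * g.1⁻¹) * c⁻¹ by group, b,
      ← mem_cent.1 hc _ ⟨y, hy, rfl⟩, mul_inv_cancel_right]

omit [Finite G] in
theorem adj1 (hi : Function.Injective ι) {n : G} {x y x' y' : UT} (a : n * ι x * n⁻¹ = ι x')
    (b : n * ι y * n⁻¹ = ι y') : x' * y' = y' * x' ↔ x * y = y * x := by
  rw [← hi.eq_iff, ← hi.eq_iff (a := x * y), map_mul, map_mul, map_mul, map_mul, ← a, ← b, conj_mul,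
    conj_mul, mul_left_inj, mul_right_inj]

omit [Finite G] in
theorem adj2 (hi : Function.Injective ι) {n : G} {x x' : UT} (a : n * ι x * n⁻¹ = ι x')
    (h : x * x = 1) : x' * x' = 1 := hi (by rw [map_mul, ← a, conj_mul, ← map_mul, h]; simp)

omit [Finite G] in
theorem adj3 {n : G} {x x' y : UT} (a : UT) (h : n * ι x * n⁻¹ = ι x') (e : a * x' * a⁻¹ = y) :
    ι a * n * ι x * (ι a * n)⁻¹ = ι y := by
  rw [← e, map_mul, map_mul, map_inv, ← h]; group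

theorem adjB : ∀ a ∈ Au, ∀ x ∈ Au, a * x * a⁻¹ = x := by decide +kernel

theorem adjC : (∀ y ∈ R1u, y * y = 1 → y * el 8 ≠ el 8 * y → ∃ a ∈ Au, a * y * a⁻¹ = el 4) ∧
    (∀ y ∈ R3u, y * y = 1 → y * el 16 ≠ el 16 * y → ∃ a ∈ Au, a * y * a⁻¹ = el 1) ∧
    (∀ y : UT, y * y = 1 → y * el 16 = el 16 * y → y * el 2 ≠ el 2 * y → ∀ y' : UT, y' * y' = 1 →
      y' * el 56 = el 56 * y' → y' * el 2 ≠ el 2 * y' → y * y' = y' * y →
      ∃ a ∈ Au, a * y * a⁻¹ = el 4 ∧ a * y' * a⁻¹ = el 5) := by decide +kernel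

theorem adjD : (∀ t ∈ R1u, ∃ t' ∈ R1u, cp s1 (cA.tc t) = cp (cA.tc t') s1) ∧
    (∀ t ∈ R3u, ∃ t' ∈ R3u, cp s3 (cA.tc t) = cp (cA.tc t') s3) ∧
    (∀ t, ∃ t', cp eA (cA.tc t) = cp (cA.tc t') eA) ∧ (∀ x ∈ Au, x ∈ R1u ∧ x ∈ R3u) ∧
    ∀ s t : UT, (t ∈ R1u → s * t * s⁻¹ ∈ R1u) ∧ (t ∈ R3u → s * t * s⁻¹ ∈ R3u) := by decide +kernel

theorem adjE : ∀ y₁ ∈ Qu, ap sg (cQ.pr (el 1)).val = (cQ.pr y₁).val →
    ∀ y₂ ∈ Qu, ap sg (cQ.pr (el 8)).val = (cQ.pr y₂).val →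
    ∀ y₃ ∈ Qu, ap sg (cQ.pr (el 4)).val = (cQ.pr y₃).val →
    ∀ y₄ ∈ Qu, ap sg (cQ.pr (el 16)).val = (cQ.pr y₄).val → ∃ q : UT, q * y₁ * q⁻¹ = el 8 ∧
      q * y₂ * q⁻¹ = el 1 ∧ q * y₃ * q⁻¹ = el 16 ∧ q * y₄ * q⁻¹ = el 4 ∧
      q * el 32 * q⁻¹ = el 32 := by decide +kernel

theorem taskAdj : TaskAdj := fun G _ _ ι hi hS => by
  have oc : ∀ (g : cA.N ι) {m : ℕ}, cA.cd hi g = m → ∀ x y : ℕ, el x ∈ Au ∧ el y ∈ Au ∧
      ap m (cA.pr (el x)).val = (cA.pr (el y)).val → g.1 * ι (el x) * g.1⁻¹ = ι (el y) :=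
    fun g m e x y h => of_cd (c := cA) rfl g h.1 h.2.1 (e ▸ h.2.2)
  refine ⟨fun g e => ?_, fun g e => ?_, fun g e => ?_, fun g e => ?_, fun g e => ?_⟩
  · obtain ⟨n, a, b⟩ := adj0 hi hS R1u (fun x hx => (adjD.2.2.2.1 x hx).1)
      (fun s t => (adjD.2.2.2.2 s t).1) g (e ▸ adjD.1)
    have k : ∀ x y : ℕ, el x ∈ Au ∧ el y ∈ Au ∧ ap s1 (cA.pr (el x)).val = (cA.pr (el y)).val →
        n * ι (el x) * n⁻¹ = ι (el y) := fun x y h => (b _ h.1).trans (oc g e x y h)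
    obtain ⟨y, hy, t⟩ := a (el 4) (by decide)
    obtain ⟨u, hu, v⟩ := adjC.1 y hy (adj2 hi t (by decide +kernel))
      ((adj1 hi t (k 2 8 (by decide +kernel))).not.2 (by decide +kernel))
    refine ⟨ι u * n, ?_⟩
    simp only [Acts, List.forall_mem_cons, List.not_mem_nil, false_imp_iff, implies_true, and_true]
    exact ⟨adj3 u (k 2 8 (by decide +kernel)) (adjB u hu _ (by decide)),
      adj3 u (k 8 2 (by decide +kernel)) (adjB u hu _ (by decide)), adj3 u t v,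
      adj3 u (k 16 32 (by decide +kernel)) (adjB u hu _ (by decide)),
      adj3 u (k 32 16 (by decide +kernel)) (adjB u hu _ (by decide))⟩
  · obtain ⟨n, a, b⟩ := adj0 hi hS R3u (fun x hx => (adjD.2.2.2.1 x hx).2)
      (fun s t => (adjD.2.2.2.2 s t).2) g (e ▸ adjD.2.1)
    have k : ∀ x y : ℕ, el x ∈ Au ∧ el y ∈ Au ∧ ap s3 (cA.pr (el x)).val = (cA.pr (el y)).val →
        n * ι (el x) * n⁻¹ = ι (el y) := fun x y h => (b _ h.1).trans (oc g e x y h)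
    obtain ⟨y, hy, t⟩ := a (el 1) (by decide)
    obtain ⟨u, hu, v⟩ := adjC.2.1 y hy (adj2 hi t (by decide +kernel))
      ((adj1 hi t (k 2 16 (by decide +kernel))).not.2 (by decide +kernel))
    refine ⟨ι u * n, ?_⟩
    simp only [Acts, List.forall_mem_cons, List.not_mem_nil, false_imp_iff, implies_true, and_true]
    exact ⟨adj3 u t v, adj3 u (k 2 16 (by decide +kernel)) (adjB u hu _ (by decide)),
      adj3 u (k 16 2 (by decide +kernel)) (adjB u hu _ (by decide)),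
      adj3 u (k 8 32 (by decide +kernel)) (adjB u hu _ (by decide)),
      adj3 u (k 32 8 (by decide +kernel)) (adjB u hu _ (by decide))⟩
  · obtain ⟨n, a, b⟩ := adj0 hi hS ⊤ le_top (fun _ _ _ => trivial) g
      (e ▸ fun t _ => (adjD.2.2.1 t).imp fun _ h => ⟨trivial, h⟩)
    have k : ∀ x y : ℕ, el x ∈ Au ∧ el y ∈ Au ∧ ap eA (cA.pr (el x)).val = (cA.pr (el y)).val →
        n * ι (el x) * n⁻¹ = ι (el y) := fun x y h => (b _ h.1).trans (oc g e x y h)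
    obtain ⟨y, -, t⟩ := a (el 1) trivial
    obtain ⟨y', -, t'⟩ := a (el 4) trivial
    obtain ⟨u, hu, v, v'⟩ := adjC.2.2 y (adj2 hi t (by decide +kernel))
      ((adj1 hi t (k 8 16 (by decide +kernel))).2 (by decide +kernel))
      ((adj1 hi t (k 2 2 (by decide +kernel))).not.2 (by decide +kernel)) y'
      (adj2 hi t' (by decide +kernel))
      ((adj1 hi t' (k 16 56 (by decide +kernel))).2 (by decide +kernel))
      ((adj1 hi t' (k 2 2 (by decide +kernel))).not.2 (by decide +kernel))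
      ((adj1 hi t t').2 (by decide +kernel))
    refine ⟨ι u * n, ?_⟩
    simp only [Acts, List.forall_mem_cons, List.not_mem_nil, false_imp_iff, implies_true, and_true]
    exact ⟨adj3 u t v, adj3 u (k 2 2 (by decide +kernel)) (adjB u hu _ (by decide)), adj3 u t' v',
      adj3 u (k 8 16 (by decide +kernel)) (adjB u hu _ (by decide)),
      adj3 u (k 16 56 (by decide +kernel)) (adjB u hu _ (by decide)),
      adj3 u (k 32 32 (by decide +kernel)) (adjB u hu _ (by decide))⟩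
  · simp only [Acts, List.forall_mem_cons, List.not_mem_nil, false_imp_iff, implies_true, and_true]
    exact ⟨oc g e 32 2 (by decide +kernel), oc g e 2 32 (by decide +kernel),
      oc g e 8 50 (by decide +kernel), oc g e 16 42 (by decide +kernel)⟩
  · obtain ⟨y₁, a₁, b₁⟩ := ex g.2 (x := el 1) (show el 1 ∈ Qu by decide)
    obtain ⟨y₂, a₂, b₂⟩ := ex g.2 (x := el 8) (show el 8 ∈ Qu by decide)
    obtain ⟨y₃, a₃, b₃⟩ := ex g.2 (x := el 4) (show el 4 ∈ Qu by decide)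
    obtain ⟨y₄, a₄, b₄⟩ := ex g.2 (x := el 16) (show el 16 ∈ Qu by decide)
    obtain ⟨q, c₁, c₂, c₃, c₄, c₅⟩ := adjE
      y₁ a₁ (e ▸ ap_pr (hi := hi) g (show el 1 ∈ Qu by decide) b₁)
      y₂ a₂ (e ▸ ap_pr (hi := hi) g (show el 8 ∈ Qu by decide) b₂)
      y₃ a₃ (e ▸ ap_pr (hi := hi) g (show el 4 ∈ Qu by decide) b₃)
      y₄ a₄ (e ▸ ap_pr (hi := hi) g (show el 16 ∈ Qu by decide) b₄)
    refine ⟨ι q * g.1, ?_⟩
    simp only [Acts, List.forall_mem_cons, List.not_mem_nil, false_imp_iff, implies_true, and_true]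
    exact ⟨adj3 q b₁ c₁, adj3 q b₂ c₂, adj3 q b₃ c₃, adj3 q b₄ c₄, adj3 q (fixu g.2) c₅⟩

end Cfsg.A8.F
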