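import Cfsg.Agent.A8.F3

/-! Interfaces of the parts of task F. -/

set_option autoImplicit false

namespace Cfsg.A8.F

open Subgroup Cfsg.L0 Cfsg.H8 Cfsg.FT Cfsg.H5 Cht

/-- `U₁` is not strongly closed -/
def TaskGU : Prop := ∀ (G : Type) [Group G] [Finite G] (ι : UT →* G), Hyp ι →
  (∀ x ∈ U1u, ∀ y, IsConj (ι x) (ι y) → y ∈ U1u) → False

/-- `A` is not strongly closed when the fusion preserves the set `{z, b, bd, be, bdez}` -/
def TaskGA : Prop := ∀ (G : Type) [Group G] [Finite G] (ι : UT →* G), Hyp ι →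
  (∀ x ∈ Au, ∀ y, IsConj (ι x) (ι y) → y ∈ Au) →
  (∀ x ∈ Au, ∀ y ∈ Au, IsConj (ι x) (ι y) → bt 33066 (cA.pr x).val = 1 →
    bt 33066 (cA.pr y).val = 1) → False

/-- exact actions from actions on the sections -/
def TaskAdj : Prop := ∀ (G : Type) [Group G] [Finite G] (ι : UT →* G)
  (hi : Function.Injective ι), IsSyl 2 ι.range ⊤ →
  (∀ g : cA.N ι, cA.cd hi g = s1 → ∃ s, Acts ι s [(2, 8), (8, 2), (4, 4), (16, 32), (32, 16)]) ∧
  (∀ g : cA.N ι, cA.cd hi g = s3 → ∃ s, Acts ι s [(1, 1), (2, 16), (16, 2), (8, 32), (32, 8)]) ∧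
  (∀ g : cA.N ι, cA.cd hi g = eA →
    ∃ s, Acts ι s [(1, 4), (2, 2), (4, 5), (8, 16), (16, 56), (32, 32)]) ∧
  (∀ g : cA.N ι, cA.cd hi g = w5 → Acts ι g.1 [(32, 2), (2, 32), (8, 50), (16, 42)]) ∧
  (∀ g : cQ.N ι, cQ.cd hi g = sg → ∃ s, Acts ι s [(1, 8), (8, 1), (4, 16), (16, 4), (32, 32)])

end Cfsg.A8.F
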