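import Cfsg.Agent.A8.W1

/-! The cores of the involution centralisers vanish for fusion of type `PSp₄(3)`. -/

set_option autoImplicit false
set_option linter.unusedSectionVars false
set_option maxRecDepth 100000

namespace Cfsg.A8

open Subgroup Cfsg.L0 Cfsg.H8 Cfsg.FT Cfsg.GS.SFx

variable {G : Type} [Group G] [Finite G] {M : Subgroup G} {g t y : G} {ι : UT →* G}

theorem sol_t (t2 : t * t = 1) (hy : Sol (𝒞₁ y))
    (h : ∀ g ∈ 𝒞₁ t, ∃ o ∈ th t, ∃ n ∈ 𝒞₁ t, g = o * n ∧ (n * y * n⁻¹ = y ∨ n * y * n⁻¹ = y * t)) :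
    Sol (𝒞₁ t) := by
  refine BS.R.sol_of_sq (O := th t ⊔ 𝒞₁ t ⊓ 𝒞₁ y)
    (sol_sup (oddOrder _ (th_odd t)) (hy.mono inf_le_right) (inf_le_left.trans (th_nrm t).norm))
    ⟨sup_le (th_nrm t).le inf_le_left, fun g hg => ?_⟩ fun g hg => ?_
  · obtain ⟨o, ho, n, hn, rfl, e⟩ := h g hg
    refine mul_mem (le_norm _ (mem_sup_left ho)) (le_norm_sup (A := zpowers n)
      (zpowers_le.2 ((th_nrm t).norm hn)) (zpowers_le.2 (mem_norm_of_cj_le ?_)) (mem_zpowers n))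
    rw [cj_inf, cj_cent1, cj_cent1, mem_cent1.1 hn, mul_inv_cancel_right]
    rcases e with e | e <;> rw [e]
    refine fun c hc => ⟨hc.1, mem_cent1.2 ?_⟩
    have := mem_cent1.1 hc.2
    rwa [← mul_assoc, mul_assoc y, ← mem_cent1.1 hc.1, ← mul_assoc, mul_left_inj] at this
  · obtain ⟨o, ho, n, hn, rfl, e⟩ := h g hg
    rw [show o * n * (o * n) = o * (n * o * n⁻¹) * (n * n) by group]
    refine mul_mem_sup (mul_mem ho (conj_mem_of_norm ((th_nrm t).norm hn) ho))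
      ⟨mul_mem hn hn, mem_cent1.2 ?_⟩
    rw [← mul_inv_eq_iff_eq_mul,
      show n * n * y * (n * n)⁻¹ = n * (n * y * n⁻¹) * n⁻¹ by group]
    rcases e with e | e
    · rw [e, e]
    · rw [e, ← conj_mul, e, mem_cent1.1 hn, mul_inv_cancel_right, mul_assoc, t2, mul_one]

/-- conjugacy under `M` of elements of the Sylow subgroup -/
def Cj (ι : UT →* G) (M : Subgroup G) (x y : UT) : Prop := ∃ m ∈ M, m * ι x * m⁻¹ = ι y

theorem Cj.symm {x y : UT} (h : Cj ι M x y) : Cj ι M y x := by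
  obtain ⟨m, hm, e⟩ := h
  exact ⟨m⁻¹, inv_mem hm, by rw [← e]; group⟩

theorem Cj.trans {x y z : UT} (h : Cj ι M x y) (k : Cj ι M y z) : Cj ι M x z := by
  obtain ⟨m, hm, e⟩ := h
  obtain ⟨n, hn, f⟩ := k
  exact ⟨n * m, mul_mem hn hm, by rw [← f, ← e]; group⟩

theorem Cj.refl (x : UT) : Cj ι M x x := ⟨1, one_mem _, by simp⟩

theorem Cj.isConj {x y : UT} (h : Cj ι M x y) : IsConj (ι x) (ι y) :=
  let ⟨m, _, e⟩ := h; isConj_iff.2 ⟨m, e⟩

theorem cj_S (hM : ι.range ≤ M) {x y u : UT} (e : u * x * u⁻¹ = y) : Cj ι M x y :=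
  ⟨ι u, hM ⟨u, rfl⟩, by rw [← e, map_mul, map_mul, map_inv]⟩

theorem Acts.cj {L : List (ℕ × ℕ)} (h : Acts ι g L) (hg : g ∈ M) (a b : ℕ)
    (k : (a, b) ∈ L := by decide) : Cj ι M (el a) (el b) := ⟨g, hg, h _ k⟩

theorem Hyp.ctr (h : Hyp ι) : ∀ x ∈ ι.range, ι.range ≤ 𝒞₁ x → x = 1 ∨ x = ι (el 32) := by
  rintro _ ⟨x, rfl⟩ k
  have : ∀ x : UT, (∀ y, y * x = x * y) → x = 1 ∨ x = el 32 := by decide +kernel
  exact (this x fun y => h.inj (by rw [map_mul, map_mul]; exact mem_cent1.1 (k ⟨y, rfl⟩))).imp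
    (fun e => by rw [e, map_one]) fun e => by rw [e]

theorem Hyp.ne (h : Hyp ι) {x y : UT} (e : x ≠ y) : ι x ≠ ι y := h.inj.ne e

theorem Hyp.ne1 (h : Hyp ι) {x : UT} (e : x ≠ 1) : ι x ≠ 1 := by rw [← map_one ι]; exact h.ne e

theorem i_sq {x : UT} (e : x * x = 1) : ι x * ι x = 1 := by rw [← map_mul, e, map_one]

theorem i_cen {x y : UT} (e : x * y = y * x) : ι x ∈ 𝒞₁ (ι y) :=
  mem_cent1.2 (by rw [← map_mul, e, map_mul])

theorem Hyp.sylT (h : Hyp ι) {t : UT} (t2 : t * t = 1) (t1 : t ≠ 1) (nc : ¬ IsConj (ι (el 32)) (ι t))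
    (k : ∀ x y : UT, x * t ≠ t * x → y * t ≠ t * y → x * y * t = t * (x * y)) :
    IsSyl 2 (ι.range ⊓ 𝒞₁ (ι t)) (𝒞₁ (ι t)) := by
  refine A8.sylT h.syl h.ctr (i_sq t2) (h.ne1 t1) nc ⟨inf_le_left, ?_⟩
  rintro _ ⟨x, rfl⟩ _ ⟨y, rfl⟩ h1 h2
  rw [← map_mul]
  exact ⟨⟨_, rfl⟩, i_cen (k x y (fun e => h1 ⟨⟨_, rfl⟩, i_cen e⟩) fun e => h2 ⟨⟨_, rfl⟩, i_cen e⟩)⟩

theorem Hyp.elem (h : Hyp ι) {K : Subgroup UT} (h1 : ∀ x ∈ K, x * x = 1)
    (h2 : ∀ x ∈ K, ∀ y ∈ K, x * y = y * x) (l : List ℕ) (h3 : (l.map el).Nodup)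
    (h4 : ∀ n ∈ l, el n ∈ K) : Elem 2 (K.map ι) ∧ l.length ≤ ♯(K.map ι) := by
  refine ⟨⟨?_, ?_⟩, ?_⟩
  · rintro _ ⟨x, hx, rfl⟩ _ ⟨y, hy, rfl⟩
    rw [← map_mul, h2 y hy x hx, map_mul]
  · rintro _ ⟨x, hx, rfl⟩
    rw [sq, i_sq (h1 x hx)]
  · rw [card_map_of_injective h.inj, ← List.length_map el, ← List.toFinset_card_of_nodup h3,
      ← Set.ncard_coe_finset]
    refine Set.ncard_le_ncard (fun x hx => ?_) (Set.toFinite _)
    obtain ⟨n, hn, rfl⟩ := List.mem_map.1 (List.mem_toFinset.1 hx)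
    exact h4 n hn

theorem Hyp.elemA (h : Hyp ι) : Elem 2 (Au.map ι) ∧ 8 ≤ ♯(Au.map ι) :=
  h.elem (by decide +kernel) (by decide +kernel) [0, 8, 16, 24, 32, 40, 48, 56] (by decide +kernel)
    (by decide +kernel)

theorem Hyp.elemU1 (h : Hyp ι) : Elem 2 (U1u.map ι) ∧ 8 ≤ ♯(U1u.map ι) :=
  h.elem (by decide +kernel) (by decide +kernel) [0, 1, 8, 9, 32, 33, 40, 41] (by decide +kernel)
    (by decide +kernel)

theorem Hyp.elemU2 (h : Hyp ι) : Elem 2 (U2u.map ι) ∧ 8 ≤ ♯(U2u.map ι) :=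
  h.elem (by decide +kernel) (by decide +kernel) [0, 4, 16, 20, 32, 36, 48, 52] (by decide +kernel)
    (by decide +kernel)

theorem Hyp.bot (h : Hyp ι) {W : Subgroup G} (ho : Odd ♯W) (e : 𝒩 W = ⊤) : W = ⊥ := by
  have : Fact (Nat.Prime 2) := ⟨Nat.prime_two⟩
  have : W.Normal := normalizer_eq_top_iff.1 e
  exact eq_bot_of_le h.odd (H7.le_pPrimeCore (Nat.coprime_two_right.2 ho))

/-- every involution of a subgroup containing the Sylow subgroup is conjugate into it -/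
theorem Hyp.into (h : Hyp ι) (hM : ι.range ≤ M) {x : G} (hx : x ∈ M) (x2 : x * x = 1) (x1 : x ≠ 1) :
    ∃ m ∈ M, ∃ u : UT, u * u = 1 ∧ u ≠ 1 ∧ m * x * m⁻¹ = ι u := by
  have : Fact (Nat.Prime 2) := ⟨Nat.prime_two⟩
  obtain ⟨m, hm, u, e⟩ := (h.syl.mono hM le_top).exists_conj_mem hx ⟨1, by rw [pow_one, sq, x2]⟩
  refine ⟨m, hm, u, h.inj ?_, fun q => x1 ?_, e.symm⟩
  · rw [map_mul, e, conj_mul, x2, map_one, mul_one, mul_inv_cancel]
  · rw [q, map_one] at e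
    simpa using e.symm

namespace TS

variable {s h w : G} (H : TS ι s h w)
include H

theorem cls (hM : ι.range ≤ M) (hs : s ∈ M) (hh : h ∈ M) (hw : w ∈ M) {x : UT} (x2 : x * x = 1)
    (x1 : x ≠ 1) : x.val ∈ [32, 2, 10, 18, 58] ∧ Cj ι M x (el 32) ∨ Cj ι M x (el 8) := by
  have k : ∀ x : UT, x * x = 1 → x ≠ 1 →
      (x.val ∈ [32, 2, 10, 18, 58] ∧ ∃ r ∈ [32, 2], ∃ u : UT, u * x * u⁻¹ = el r) ∨
      ∃ r ∈ [8, 16, 56, 50, 1, 4, 5], ∃ u : UT, u * x * u⁻¹ = el r := by decide +kernel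
  have c16 : Cj ι M (el 16) (el 8) := (H.ah.cj hh 8 16).symm
  have c4 : Cj ι M (el 4) (el 8) := (H.a2.cj hs 4 16).trans c16
  rcases k x x2 x1 with ⟨k, r, hr, u, e⟩ | ⟨r, hr, u, e⟩
  · refine Or.inl ⟨k, (cj_S hM e).trans ?_⟩
    simp only [List.mem_cons, List.not_mem_nil, or_false] at hr
    rcases hr with rfl | rfl
    exacts [Cj.refl _, H.aw.cj hw 2 32]
  · refine Or.inr ((cj_S hM e).trans ?_)
    simp only [List.mem_cons, List.not_mem_nil, or_false] at hr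
    rcases hr with rfl | rfl | rfl | rfl | rfl | rfl | rfl
    exacts [Cj.refl _, c16, (H.ah.cj hh 16 56).symm.trans c16, (H.aw.cj hw 8 50).symm,
      H.a2.cj hs 1 8, c4, (H.ah.cj hh 4 5).symm.trans c4]

theorem zcl {x : UT} (x2 : x * x = 1) (x1 : x ≠ 1) (k : IsConj (ι (el 32)) (ι x)) :
    x.val ∈ [32, 2, 10, 18, 58] :=
  ((H.cls le_top (mem_top _) (mem_top _) (mem_top _) x2 x1).resolve_right fun e =>
    H.nc (k.trans e.isConj)).1

theorem zst : ∀ g ∈ 𝒞₁ (ι (el 8)), ∃ o ∈ th (ι (el 8)), ∃ n ∈ 𝒞₁ (ι (el 8)), g = o * n ∧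
    (n * ι (el 2) * n⁻¹ = ι (el 2) ∨ n * ι (el 2) * n⁻¹ = ι (el 2) * ι (el 8)) := by
  refine zs (i_sq (by decide)) (i_sq (by decide))
    (H.sylT (by decide) (by decide) H.nc (by decide +kernel)) ⟨⟨_, rfl⟩, i_cen (by decide)⟩ ?_
  rintro g hg ⟨⟨x, hx⟩, -⟩
  have c2 : IsConj (ι (el 32)) (ι (el 2)) := (H.aw.cj (mem_top _) 32 2).isConj
  have c10 : IsConj (ι (el 2)) (ι (el 2 * el 8)) := (cj_S le_top (u := el 1) (by decide)).isConj
  have e : g * ι (el 2 * el 8) * g⁻¹ = ι (x * el 8) := by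
    rw [map_mul, map_mul, hx, ← conj_mul, mem_cent1.1 hg, mul_inv_cancel_right]
  have sq : ∀ {a b : UT}, a * a = 1 → a ≠ 1 → g * ι a * g⁻¹ = ι b → b * b = 1 ∧ b ≠ 1 :=
    fun {a b} a2 a1 q => ⟨H.inj (by rw [map_mul, ← q, conj_mul, i_sq a2, map_one, mul_one,
      mul_inv_cancel]), fun r => H.ne1 a1 (by simpa [r] using q)⟩
  obtain ⟨p1, p2⟩ := sq (by decide) (by decide) hx.symm
  obtain ⟨q1, q2⟩ := sq (by decide) (by decide) e
  have k : ∀ x : UT, x.val ∈ [32, 2, 10, 18, 58] → (x * el 8).val ∈ [32, 2, 10, 18, 58] →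
      x = el 2 ∨ x = el 2 * el 8 := by decide +kernel
  rw [← hx, ← map_mul]
  exact (k x (H.zcl p1 p2 (c2.trans (isConj_iff.2 ⟨g, hx.symm⟩)))
    (H.zcl q1 q2 ((c2.trans c10).trans (isConj_iff.2 ⟨g, e⟩)))).imp (congrArg ι) (congrArg ι)

theorem sol_all {x : UT} (x2 : x * x = 1) (x1 : x ≠ 1) : Sol (𝒞₁ (ι x)) := by
  rcases H.cls le_top (mem_top _) (mem_top _) (mem_top _) x2 x1 with e | e
  · exact sol_cj H.sol e.2.symm.isConj
  · exact sol_cj (sol_t (i_sq (by decide)) (sol_cj H.sol (H.aw.cj (mem_top _) 32 2).isConj) H.zst)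
      e.symm.isConj

end TS

theorem taskWS : TaskWS := by
  intro G _ _ ι s h w H
  have sh : ∀ {K : Subgroup UT}, Elem 2 (K.map ι) → ∀ a ∈ sharp (K.map ι), Sol (𝒞₁ a) := by
    rintro K hK _ ⟨⟨x, hx, rfl⟩, k⟩
    exact H.sol_all (H.inj (by rw [map_mul, sq1 hK ⟨x, hx, rfl⟩, map_one])) fun e => k (by simp [e])
  obtain ⟨eA, cA⟩ := H.elemA
  obtain ⟨eU, cU⟩ := H.elemU1
  have iA := fnc eA cA (sh eA)
  have iU := fnc eU cU (sh eU)
  have mA : ∀ n, el n ∈ Au → ι (el n) ∈ Au.map ι := fun n k => mem_map_of_mem ι k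
  have lA : ∀ x ∈ Au, x ≠ 1 → th (ι x) ≤ Gn (Au.map ι) th := fun x k k1 =>
    le_Gn ⟨mem_map_of_mem ι k, H.ne1 k1⟩
  have lU : ∀ x ∈ U1u, x ≠ 1 → th (ι x) ≤ Gn (Au.map ι) th := fun x k k1 =>
    (le_Gn ⟨mem_map_of_mem ι k, H.ne1 k1⟩).trans (gen3 eU iU (x := ι (el 8)) (y := ι (el 32))
      (mem_map_of_mem ι (by decide)) (mem_map_of_mem ι (by decide)) (H.ne1 (by decide))
      (H.ne1 (by decide)) (H.ne (by decide)) (lA _ (by decide) (by decide))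
      (lA _ (by decide) (by decide)) (map_mul ι _ _ ▸ lA _ (by decide) (by decide)))
  generalize Gn (Au.map ι) th = W at iA lA lU
  have nr : ∀ {g : G} (a b : ℕ) (x y : UT), el a ∈ Au → el b ∈ Au → el a ≠ 1 → el b ≠ 1 → el a ≠ el b →
      g * ι (el a) * g⁻¹ = ι x → g * ι (el b) * g⁻¹ = ι y → th (ι x) ≤ W → th (ι y) ≤ W →
      th (ι (x * y)) ≤ W → g ∈ 𝒩 W := fun a b x y h1 h2 h3 h4 h5 e1 e2 k1 k2 k3 =>
    nrm3 eA iA (mA a h1) (mA b h2) (H.ne1 h3) (H.ne1 h4) (H.ne h5) (e1 ▸ k1) (e2 ▸ k2)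
      (by rw [e1, e2, ← map_mul]; exact k3)
  have hS : ι.range ≤ 𝒩 W := by
    rintro _ ⟨u, rfl⟩
    have k : ∀ u : UT, (u * el 8 * u⁻¹ ∈ Au ∧ u * el 8 * u⁻¹ ≠ 1) ∧ u * el 32 * u⁻¹ = el 32 ∧
        u * el 8 * u⁻¹ * el 32 ∈ Au ∧ u * el 8 * u⁻¹ * el 32 ≠ 1 := by decide +kernel
    obtain ⟨k1, k2, k3⟩ := k u
    exact nr 8 32 (u * el 8 * u⁻¹) (el 32) (by decide) (by decide) (by decide) (by decide) (by decide)
      (by simp) (by rw [← map_inv, ← map_mul, ← map_mul, k2]) (lA _ k1.1 k1.2)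
      (lA _ (by decide) (by decide)) (lA _ k3.1 k3.2)
  have hs : s ∈ 𝒩 W := nr 8 32 _ _ (by decide) (by decide) (by decide) (by decide) (by decide)
    (H.a2 (8, 1) (by decide)) (H.a2 (32, 32) (by decide)) (lU _ (by decide) (by decide))
    (lU _ (by decide) (by decide)) (lU _ (by decide) (by decide))
  have hh : h ∈ 𝒩 W := nr 2 32 _ _ (by decide) (by decide) (by decide) (by decide) (by decide)
    (H.ah (2, 2) (by decide)) (H.ah (32, 32) (by decide)) (lA _ (by decide) (by decide))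
    (lA _ (by decide) (by decide)) (lA _ (by decide) (by decide))
  have hw : w ∈ 𝒩 W := nr 2 32 _ _ (by decide) (by decide) (by decide) (by decide) (by decide)
    (H.aw (2, 32) (by decide)) (H.aw (32, 2) (by decide)) (lA _ (by decide) (by decide))
    (lA _ (by decide) (by decide)) (lA _ (by decide) (by decide))
  have l32 := lA (el 32) (by decide) (by decide)
  have l8 := lA (el 8) (by decide) (by decide)
  have top : 𝒩 W = ⊤ := by
    refine fin (i_sq (by decide)) (i_sq (by decide)) (H.ne1 (by decide)) H.nc (fun g hg => ?_)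
      (fun g hg => ?_) fun x hx x2 x1 => ?_
    · obtain ⟨o, ho, n, hn, rfl⟩ := H.cz g hg
      exact mul_mem (le_norm W (l32 ((th_eq (ι (el 32))).le ho)))
        (sup_le (sup_le hS (zpowers_le.2 hs)) (zpowers_le.2 hh) hn)
    · obtain ⟨o, ho, n, hn, rfl, e⟩ := H.zst g hg
      have e8 : n * ι (el 8) * n⁻¹ = ι (el 8) := mul_inv_eq_iff_eq_mul.2 (mem_cent1.1 hn)
      refine mul_mem (le_norm W (l8 ho)) ?_
      rw [← map_mul] at e
      rcases e with e | e <;> exact nr 8 2 _ _ (by decide) (by decide) (by decide) (by decide)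
        (by decide) e8 e l8 (lA _ (by decide) (by decide)) (lA _ (by decide) (by decide))
    · obtain ⟨m, hm, u, u2, u1, e⟩ := H.into hS hx x2 x1
      obtain ⟨-, n, hn, f⟩ | ⟨n, hn, f⟩ := H.cls hS hs hh hw u2 u1
      · exact ⟨n * m, mul_mem hn hm, Or.inl (by rw [← f, ← e]; group)⟩
      · exact ⟨n * m, mul_mem hn hm, Or.inr (by rw [← f, ← e]; group)⟩
  have W0 := H.bot iA.odd top
  refine ⟨(th_eq _).trans (eq_bot_of_le W0 l32), fun g hg => ?_⟩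
  obtain ⟨o, ho, n, -, rfl, e⟩ := H.zst g hg
  rw [eq_one_of_mem W0 (l8 ho), one_mul]
  rwa [← map_mul] at e

end Cfsg.A8
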