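import Cfsg.Agent.A8.FD
import Cfsg.Agent.A8.W2
import Cfsg.Agent.S2775

/-! Tasks GU and GA: Goldschmidt's theorem and Burnside's transfer theorem. -/

set_option autoImplicit false
set_option maxRecDepth 100000
set_option linter.unusedSectionVars false

namespace Cfsg.A8.F

open Subgroup Cfsg.L0 Cfsg.H8 Cfsg.FT Cfsg.H5 Cht

variable {G : Type} [Group G] [Finite G] {ι : UT →* G} {n : ℕ}

theorem gk_odd (H : Hyp ι) (K : Subgroup G) [hK : K.Normal] : Op {2}ᶜ K = ⊥ :=
  H.bot (odd_Op K) (top_le_iff.1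
    ((normalizer_eq_top_iff.2 hK).ge.trans (norm_le_norm_Op _ K)))

theorem gk_syl (H : Hyp ι) {W : Subgroup UT} (ab : ∀ x ∈ W, ∀ y ∈ W, x * y = y * x)
    (sc : ∀ x ∈ W, ∀ y, IsConj (ι x) (ι y) → y ∈ W)
    (hd : ∀ x ∉ W, ∃ y ∉ W, y * y = 1 ∧ ∃ w ∈ W, ∃ s, y = x * w ∨ y = s * x * s⁻¹ * x⁻¹ * w) :
    IsSyl 2 (W.map ι) (normalClosure (W.map ι : Set G)) := by
  have sc' : IsStronglyClosed (W.map ι) (H.syl.toSylowTop : Subgroup G) := by
    rw [IsSyl.coe_toSylowTop]
    refine ⟨map_le_range ι W, ?_⟩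
    rintro _ ⟨x, hx, rfl⟩ g ⟨y, hy⟩
    exact hy ▸ mem_map_of_mem ι (sc x hx y (isConj_iff.2 ⟨g, hy.symm⟩))
  have WK : W.map ι ≤ normalClosure (W.map ι : Set G) := le_normalClosure
  obtain ⟨-, -, ⟨T, -, hT⟩, -⟩ := Cfsg.Agent.S2775.result H.syl.toSylowTop (W.map ι) (abel_iff.1 (by
    rintro _ ⟨x, hx, rfl⟩
    refine mem_cent.2 ?_
    rintro _ ⟨y, hy, rfl⟩
    rw [← map_mul, ab y hy x hx, map_mul])) sc' _ rfl _ (MonoidHom.id _) Function.surjective_id (by
      have := (OO_eq _).trans (gk_odd H (normalClosure (W.map ι : Set G)))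
      rw [MonoidHom.ker_id]
      exact ((map_eq_bot_iff_of_injective _ (subtype_injective _)).1 this).symm)
  have hn : (normalClosure (W.map ι : Set G)).Normal := inferInstance
  generalize normalClosure (W.map ι : Set G) = K at T hT WK hn
  rw [map_id] at hT
  have inv : ∀ y, y * y = 1 → ι y ∈ K → y ∈ W := fun y y2 hy => by
    obtain ⟨k, hk, e⟩ := (isSyl_map_subtype T).exists_conj_mem hy
      ⟨1, by rw [pow_one, sq, ← map_mul, y2, map_one]⟩
    obtain ⟨t, ht, e⟩ := e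
    have : t ∈ (W.map ι).subgroupOf K := hT ▸ mem_sup_right (subset_closure ⟨ht, Subtype.ext (by
      change (t : G) ^ 2 = 1
      rw [show (t : G) = _ from e, conj_pow, sq, ← map_mul, y2, map_one, mul_one, mul_inv_cancel])⟩)
    obtain ⟨x, hx, e2⟩ := mem_subgroupOf.1 this
    exact sc x hx y (isConj_iff.2 ⟨k, (e2.trans e).symm⟩).symm
  have e : ι.range ⊓ K = W.map ι := le_antisymm (by
    rintro _ ⟨⟨x, rfl⟩, hx⟩
    refine mem_map_of_mem ι ?_
    by_contra q
    obtain ⟨y, y1, y2, w, hw, s, e⟩ := hd x q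
    have kw : ι w ∈ K := WK (mem_map_of_mem ι hw)
    refine y1 (inv y y2 ?_)
    rcases e with rfl | rfl
    · rw [map_mul]; exact mul_mem hx kw
    · rw [map_mul, map_mul, map_mul, map_mul, map_inv, map_inv]
      exact mul_mem (mul_mem (hn.conj_mem _ hx _) (inv_mem hx)) kw) (le_inf (map_le_range ι W) WK)
  rw [← e]
  exact H.syl.inf le_top (le_top.trans (normalizer_eq_top_iff.2 hn).ge)

theorem ncw_mem {N : Type*} [Group N] {K : Subgroup N} [hK : K.Normal] {g a b : N} (hg : g ∈ K)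
    (ha : a * a = 1) (hb : b * b = 1) (C : List (List ℕ)) (hC : ∀ t ∈ C, ∀ l ∈ t, l ≠ 0) :
    evN [g, a, b] (ncw C) ∈ K := by
  have app : ∀ u v : List ℕ, evN [g, a, b] (u ++ v) = evN [g, a, b] u * evN [g, a, b] v := by
    intro u v
    induction u with
    | nil => exact (one_mul _).symm
    | cons l u ih =>
      change _ * evN _ (u ++ v) = _ * evN _ u * _
      rw [ih, mul_assoc]
  have rev : ∀ t : List ℕ, (∀ l ∈ t, l ≠ 0) → evN [g, a, b] t.reverse = (evN [g, a, b] t)⁻¹ := by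
    intro t ht
    induction t with
    | nil => exact inv_one.symm
    | cons l t ih =>
      rw [List.reverse_cons, app, ih fun m hm => ht m (List.mem_cons_of_mem _ hm)]
      change _ * (_ * 1) = (_ * evN _ t)⁻¹
      rw [mul_inv_rev, mul_one]
      congr 1
      refine (inv_eq_of_mul_eq_one_right ?_).symm
      match l, ht l List.mem_cons_self with
      | 1, _ => exact ha
      | 2, _ => exact hb
      | l + 3, _ => exact one_mul 1
  induction C with
  | nil => exact one_mem _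
  | cons t C ih =>
    rw [ncw, List.flatMap_cons, app, app]
    refine mul_mem ?_ (ih fun u hu => hC u (List.mem_cons_of_mem _ hu))
    change _ * (g * evN _ t.reverse) ∈ K
    rw [rev t (hC t List.mem_cons_self), ← mul_assoc]
    exact hK.conj_mem g hg _

theorem gk_fin (H : Hyp ι) (c : Cht n) (hu : c.u = 1) (ab : ∀ x ∈ c.K, ∀ y ∈ c.K, x * y = y * x)
    (hz : el 32 ∈ c.K) (sy : IsSyl 2 (c.K.map ι) (normalClosure (c.K.map ι : Set G)))
    {a b : UT} (ha : a * a = 1) (hb : b * b = 1) {NN : List (List (List ℕ))}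
    (hN : ∀ C ∈ NN, ∀ t ∈ C, ∀ l ∈ t, l ≠ 0)
    (fa : ∀ g : c.N ι, c.cd H.inj g = c.tc 1 ∨ NN.any (fun C => invo (c.tc 1)
      (evC ([g, c.io ι a, c.io ι b].map (c.cd H.inj)) (c.tc 1) (ncw C))) = true) : False := by
  have hn : (normalClosure (c.K.map ι : Set G)).Normal := inferInstance
  generalize normalClosure (c.K.map ι : Set G) = K at sy hn
  have WC : c.K.map ι ≤ 𝒞 (c.K.map ι) := by
    rintro _ ⟨x, hx, rfl⟩
    refine mem_cent.2 ?_
    rintro _ ⟨y, hy, rfl⟩
    rw [← map_mul, ab y hy x hx, map_mul]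
  have np : NPC 2 K := burnside Nat.prime_two sy fun g hg => by
    let g' : c.N ι := ⟨g, hg.2, mem_cent1.2 (by rw [hu]; simp)⟩
    rcases fa g' with q | q
    · exact cent_of_cd hu g' (q.trans cd_one.symm)
    exfalso
    obtain ⟨C, hC, q⟩ := List.any_eq_true.1 q
    rw [← cd_ev] at q
    have m : evN [g', c.io ι a, c.io ι b] (ncw C) ∈ K.subgroupOf (c.N ι) :=
      ncw_mem (K := K.subgroupOf (c.N ι)) hg.1 (by rw [← map_mul, ha, map_one])
        (by rw [← map_mul, hb, map_one]) C (hN C hC)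
    generalize evN [g', c.io ι a, c.io ι b] (ncw C) = h at q m
    rw [invo, Bool.and_eq_true, ← cd_mul, ← cd_one (hi := H.inj) (ι := ι)] at q
    have h2 : h.1 ^ 2 ∈ 𝒞 (c.K.map ι) := by
      rw [sq]
      exact cent_of_cd hu (h * h) (Nat.eq_of_beq_eq_true q.2)
    obtain ⟨m', k, co, e⟩ := exists_pow_pElt 2 h.1
    have h1 : h.1 ∈ 𝒞 (c.K.map ι) := mem_of_pow_mem co (WC (sy.mem_of_mem_normalizer
      (pow_mem (mem_subgroupOf.1 m) m') ⟨k, e⟩ (pow_mem h.2.1 m'))) h2
    have : c.cd H.inj h = c.cd H.inj 1 := cd_inj.2 (Equiv.ext fun v => by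
      have := rho_pr (hi := H.inj) h (c.secK v) (mul_inv_eq_iff_eq_mul.2
        (mem_cent.1 h1 _ (mem_map_of_mem ι (c.secK v))).symm)
      rw [c.prsec] at this
      rw [this, map_one]; rfl)
    rw [this, Nat.beq_refl] at q
    exact absurd q.1 (by simp)
  have e := (npc_sd Nat.prime_two np sy).sup
  rw [gk_odd H K, bot_sup_eq] at e
  have l := le_pCore_of_normal hn (e ▸ sy.isPGroup)
  rw [H.core, ← e] at l
  exact H.ne1 (x := el 32) (by decide +kernel) (mem_bot.1 (l (mem_map_of_mem ι hz)))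

theorem taskGU : TaskGU := by
  intro G _ _ ι H sc
  have ab : ∀ x ∈ U1u, ∀ y ∈ U1u, x * y = y * x := by decide +kernel
  have hd : ∀ x ∉ U1u, ∃ w ∈ U1u, ∃ s, el 16 = x * w ∨ el 16 = s * x * s⁻¹ * x⁻¹ * w := by
    decide +kernel
  refine gk_fin H cU rfl ab (show el 32 ∈ U1u by decide +kernel) (gk_syl (W := U1u) H ab sc fun x hx =>
    ⟨el 16, by decide +kernel, by decide +kernel, hd x hx⟩) (a := el 4) (b := el 16)
    (by decide +kernel) (by decide +kernel) (NN := NU) (by decide +kernel) fun g => ?_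
  have := factNU (cU.rho H.inj g (vv 8 1)) (cU.rho H.inj g (vv 8 2)) (cU.rho H.inj g (vv 8 4))
    (inj_cd (hi := H.inj) g)
  simp only [List.map, cd_io, tU.1, tU.2.1, tU.2.2]
  exact this

theorem taskGA : TaskGA := by
  intro G _ _ ι H sc h5
  have ab : ∀ x ∈ Au, ∀ y ∈ Au, x * y = y * x := by decide +kernel
  have hd : ∀ x ∉ Au, ∃ y ∉ Au, y * y = 1 ∧ ∃ w ∈ Au, y = x * w := by decide +kernel
  refine gk_fin H cA rfl ab (show el 32 ∈ Au by decide +kernel) (gk_syl (W := Au) H ab sc fun x hx => by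
    obtain ⟨y, y1, y2, w, hw, e⟩ := hd x hx
    exact ⟨y, y1, y2, w, hw, 1, Or.inl e⟩) (a := el 1) (b := el 4)
    (by decide +kernel) (by decide +kernel) (NN := N5) (by decide +kernel) fun g => ?_
  have k : ∀ v : V 16, bt 33066 v.val = 1 → bt 33066 (cA.rho H.inj g v).val = 1 := fun v hv => by
    obtain ⟨y, hy, e⟩ := ex g.2 (cA.secK v)
    have e1 := rho_pr (hi := H.inj) g (cA.secK v) e
    rw [cA.prsec] at e1
    rw [e1]
    exact h5 _ (cA.secK v) y hy (isConj_iff.2 ⟨_, e⟩) (by rw [cA.prsec]; exact hv)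
  have := factN5 (cA.rho H.inj g (vv 16 1)) (cA.rho H.inj g (vv 16 8)) (k _ (by decide +kernel))
    (k _ (by decide +kernel)) (cA.rho H.inj g (vv 16 2)) (cA.rho H.inj g (vv 16 4))
    (inj_cd (hi := H.inj) g) (TN.allB_iff.2 fun v hv => by
      have b : bt 33066 v = 0 ∨ bt 33066 v = 1 := by
        revert v; decide +kernel
      rcases b with b | b
      · rw [b]; rfl
      · have := k ⟨v, hv⟩ b
        rw [← ap_cd] at this
        rw [Bool.or_eq_true]
        exact Or.inr (Nat.beq_eq ▸ this))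
  rw [← LA_eq, tA.2.1]
  exact this

end Cfsg.A8.F
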