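import Cfsg.Agent.A8.E0
import Cfsg.Agent.H8.Essential

/-! The setup: an embedding of the model of the Sylow subgroup. -/

set_option autoImplicit false
set_option maxRecDepth 100000

namespace Cfsg.A8

open Subgroup Cfsg.H5 Cfsg.FT Cfsg.H8

theorem jA_gen : ∀ x : UT, ∀ i ∈ [1, 2, 4], jA (x * el i) = jA x * jA (el i) := by decide +kernel

theorem jA_mul (x y : UT) : jA (x * y) = jA x * jA y := by
  let K : Subgroup UT := mkSub {y | ∀ x, jA (x * y) = jA x * jA y}
    (fun x => by rw [mul_one, show jA 1 = 1 by decide +kernel, mul_one]) fun a ha b hb x => by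
      rw [← mul_assoc, hb, ha, hb, mul_assoc]
  have a : el 1 ∈ K := fun x => jA_gen x 1 (by simp)
  have b : el 2 ∈ K := fun x => jA_gen x 2 (by simp)
  have c : el 4 ∈ K := fun x => jA_gen x 4 (by simp)
  have : ∀ y : UT, ∃ i j k l m n : Fin 2, y = el 1 ^ i.val * el 2 ^ j.val * el 4 ^ k.val *
      (el 1 * el 2 * el 1 * el 2) ^ l.val * (el 2 * el 4 * el 2 * el 4) ^ m.val *
      (el 1 * (el 2 * el 4 * el 2 * el 4) * el 1 * (el 2 * el 4 * el 2 * el 4)) ^ n.val := by
    decide +kernel
  obtain ⟨i, j, k, l, m, n, rfl⟩ := this y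
  have e := mul_mem (mul_mem (mul_mem b c) b) c
  exact (mul_mem (mul_mem (mul_mem (mul_mem (mul_mem (pow_mem a _) (pow_mem b _)) (pow_mem c _))
    (pow_mem (mul_mem (mul_mem (mul_mem a b) a) b) _)) (pow_mem e _))
    (pow_mem (mul_mem (mul_mem (mul_mem a e) a) e) _) : _ ∈ (K : Set UT)) x

def jH : UT →* Al 8 := MonoidHom.mk' jA jA_mul

theorem jH_inj : Function.Injective jH :=
  (injective_iff_map_eq_one _).2 (show ∀ x, jA x = 1 → x = 1 by decide +kernel)

theorem jH_syl : IsSyl 2 jH.range ⊤ := by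
  have : Fact (Nat.Prime 2) := ⟨Nat.prime_two⟩
  have c : Nat.card jH.range = 64 := by
    rw [← card_UT]; exact (Nat.card_congr (MonoidHom.ofInjective jH_inj).toEquiv).symm
  refine ⟨le_top, IsPGroup.of_card (n := 6) c, ?_⟩
  have h := jH.range.card_mul_index
  have t : 2 * Nat.card (Al 8) = 40320 := by
    rw [two_mul_nat_card_alternatingGroup, Nat.card_perm, Nat.card_eq_fintype_card, Fintype.card_fin]
    rfl
  rw [relIndex_top_right]
  rw [c] at h
  change 64 * _ = Nat.card (Al 8) at h
  omega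

theorem exists_hyp {G : Type*} [Group G] [Finite G] (hO2 : pResidual 2 G = ⊤)
    (hc : pCore 2 G = ⊥) (ho : pPrimeCore 2 G = ⊥) (S : Sylow 2 G)
    (hS : ∀ P : Sylow 2 (Al 8), Nonempty ((S : Subgroup G) ≃* (P : Subgroup (Al 8))))
    (hsol : ∀ z : G, z ∈ (S : Subgroup G) → (∀ s ∈ (S : Subgroup G), s * z = z * s) →
      orderOf z = 2 → Group.IsSolvable (centralizer ({z} : Set G))) : ∃ ι : UT →* G, Hyp ι := by
  have : Fact (Nat.Prime 2) := ⟨Nat.prime_two⟩
  obtain ⟨f⟩ := hS jH_syl.toSylowTop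
  let e : UT ≃* (S : Subgroup G) := (MonoidHom.ofInjective jH_inj).trans f.symm
  have i : Function.Injective ((S : Subgroup G).subtype.comp e.toMonoidHom) :=
    (subtype_injective _).comp e.injective
  have r : ((S : Subgroup G).subtype.comp e.toMonoidHom).range = S := by
    rw [← MonoidHom.map_range, MonoidHom.range_eq_top.2 e.surjective, ← MonoidHom.range_eq_map,
      range_subtype]
  refine ⟨_, i, by rw [r]; exact isSyl_sylow S, hO2, hc, ho, hsol _ (e _).2 (fun s hs => ?_) ?_⟩
  · obtain ⟨x, rfl⟩ := r.ge hs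
    have : ∀ x : UT, x * el 32 = el 32 * x := by decide +kernel
    rw [← map_mul, ← map_mul, this]
  · rw [orderOf_injective _ i]
    exact orderOf_eq_prime (by decide +kernel) (by decide +kernel)

theorem Hyp.equiv {G H : Type*} [Group G] [Group H] [Finite G] [Finite H] {ι : UT →* G} (h : Hyp ι)
    (e : G ≃* H) : Hyp (e.toMonoidHom.comp ι) := by
  refine ⟨e.injective.comp h.inj, ?_, ?_, H7.pCore_eq_bot_of_equiv e h.core, ?_, ?_⟩
  · have := h.syl.map e.toMonoidHom
    rwa [map_top_of_surjective _ e.surjective, MonoidHom.map_range] at this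
  · refine top_le_iff.1 fun y _ => ?_
    have : pResidual 2 G ≤ (pResidual 2 H).comap e.toMonoidHom :=
      H7.pResidual_le_iff.2 fun x hx => subset_closure (show (orderOf (e x)).Coprime 2 by
        rwa [e.orderOf_eq])
    simpa using this (h.res.ge (mem_top (e.symm y)))
  · rw [← H7.map_pPrimeCore_equiv e, h.odd, Subgroup.map_bot]
  · have := h.sol
    refine Group.isSolvable_of_surjective (G := 𝒞₁ (ι (el 32)))
      (f := (e.toMonoidHom.comp (Subgroup.subtype _)).codRestrict _ fun x => mem_centralizer_singleton_iff.2 ?_) fun y => ?_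
    · simpa using congrArg e (mem_centralizer_singleton_iff.1 x.2)
    · refine ⟨⟨e.symm y.1, mem_centralizer_singleton_iff.2 (e.injective ?_)⟩, Subtype.ext (e.apply_symm_apply _)⟩
      simpa using mem_centralizer_singleton_iff.1 y.2

end Cfsg.A8
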