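import Cfsg.Agent.A8.W1

/-! General lemmas and the fusion of involutions for the type `A₈`. -/

set_option autoImplicit false
set_option maxRecDepth 100000
set_option linter.unusedSectionVars false

namespace Cfsg.A8.V

open Subgroup Cfsg.L0 Cfsg.H8 Cfsg.FT Cfsg.GS.SFx
open scoped commutatorElement

variable {G : Type} [Group G] [Finite G] {B E H K M P S T W Y : Subgroup G} {g t u x y z : G}

/-- an odd subgroup normalized by a subgroup of index at most two of a Sylow subgroup -/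
theorem le_O (hs : Sol H) (hY : Y ≤ H) (ho : Odd ♯Y) (hP : IsSyl 2 P H) (hT : Hy P T)
    (hn : T ≤ 𝒩 Y) : Y ≤ Op {2}ᶜ H := by
  obtain ⟨Q, _, _, f, -, e⟩ := exists_quo (Op_nrm {2}ᶜ H)
  have nR := Op_nrm {2} (down f H)
  have pR := Op_pgroup Nat.prime_two (down f H)
  have lR := Op_le_syl Nat.prime_two (hP.down f le_rfl)
  have cR := cent_Op_le Nat.prime_two (hs.down f) (Op_down_eq_bot le_rfl e)
  generalize Op {2} (down f H) = R at nR pR lR cR
  have oY := odd_down f ho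
  have h1 : Hy (down f P) (down f T) := ⟨down_mono f hT.le, fun a ha b hb k l => by
    obtain ⟨a, ha', rfl⟩ := exists_of_mem_down ha
    obtain ⟨b, hb', rfl⟩ := exists_of_mem_down hb
    rw [← map_mul]
    exact mem_down_of_mem (hT.mul _ ha' _ hb' (fun q => k (mem_down_of_mem q))
      fun q => l (mem_down_of_mem q))⟩
  have h2 := h1.inf lR
  have cop := cop_of_pgroup Nat.prime_two pR oY.not_two_dvd_nat
  have nY : down f Y ≤ 𝒩 R := (down_mono f hY).trans nR.norm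
  have c0 : down f Y ≤ 𝒞 (down f T ⊓ R) := cent_symm fun r hr => mem_cent.2 fun a ha => by
    have k1 : ⁅r, a⁆ ∈ down f Y :=
      mul_mem (conj_mem_of_norm (down_le_norm f hn hr.1) ha) (inv_mem ha)
    have k2 : ⁅r, a⁆ ∈ R := by
      rw [commutatorElement_def, mul_assoc, mul_assoc, ← mul_assoc a]
      exact mul_mem hr.2 (conj_mem_of_norm (nY ha) (inv_mem hr.2))
    exact (commutatorElement_eq_one_iff_mul_comm.1
      (eq_one_of_mem (inf_eq_bot_of_cop cop) ⟨k2, k1⟩)).symm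
  have c1 : down f Y ≤ 𝒞 R := cent_of_stable nY cop (commutator_le.2 fun r hr a ha => by
    have k := mem_cent.1 (c0 ha)
    by_cases q : r ∈ down f T ⊓ R
    · rw [commutatorElement_eq_one_iff_mul_comm.2 (k r q)]
      exact one_mem _
    · rw [commutatorElement_def, mul_assoc, mul_assoc, ← mul_assoc a]
      refine h2.mul r hr _ (conj_mem_of_norm (nY ha) (inv_mem hr)) q fun l => q ?_
      have := k _ l
      rw [inv_mul_cancel_right, mul_assoc, mul_right_inj] at this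
      rw [← inv_mem_iff, this, ← mul_assoc]
      exact l) c0
  have c2 : down f Y ≤ R := (le_inf (down_mono f hY) c1).trans cR
  rw [← e, ← down_eq_bot_iff hY]
  exact eq_bot_of_le (inf_eq_bot_of_cop cop) (le_inf c2 le_rfl)

theorem le_th (hS : IsSyl 2 S ⊤) (hs : Sol (𝒞₁ x)) (h : Hy S (S ⊓ 𝒞₁ x)) (ho : Odd ♯Y)
    (hn : S ≤ 𝒩 Y) : Y ⊓ 𝒞₁ x ≤ th x := by
  have : Fact (Nat.Prime 2) := ⟨Nat.prime_two⟩
  obtain ⟨R, hR, le⟩ := exists_isSyl_ge (hS.isPGroup.to_inf_left (K := 𝒞₁ x)) inf_le_right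
  refine le_O hs inf_le_right (odd_of_le ho inf_le_left) hR (hy_of_dvd le ?_)
    (le_norm_inf (inf_le_left.trans hn) (le_norm_cent1 inf_le_right))
  have c1 := card_mul_ri le
  have c2 := h.card
  have c3 := hS.card_le hR.isPGroup le_top
  have c4 := card_pos' R
  generalize (S ⊓ 𝒞₁ x).relIndex R = k at c1
  have : k = 0 ∨ k = 1 ∨ k = 2 := by
    by_contra q
    have : 3 ≤ k := by omega
    nlinarith
  rcases this with rfl | rfl | rfl
  · omega
  · norm_num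
  · norm_num

theorem nGn (hg : ∀ a ∈ E, g * a * g⁻¹ ∈ E) : g ∈ 𝒩 (Gn E th) :=
  mem_norm_of_cj_le ((cj_le_iff g).2 (Gn_le fun a ha => by
    rw [← cj_le_iff, cj_th]
    exact le_Gn ⟨hg a ha.1, by simpa using ha.2⟩))

theorem sylH (hT : IsSyl 2 T H) (hy : y ∈ H) (y2 : y * y = 1)
    (hZ : ∀ g ∈ H, g * y * g⁻¹ ∈ T → ¬ T ≤ 𝒞₁ (g * y * g⁻¹)) (h : Hy T (T ⊓ 𝒞₁ y)) :
    IsSyl 2 (T ⊓ 𝒞₁ y) (H ⊓ 𝒞₁ y) := by
  have : Fact (Nat.Prime 2) := ⟨Nat.prime_two⟩
  obtain ⟨R, hR, le⟩ := exists_isSyl_ge (hT.isPGroup.to_inf_left (K := 𝒞₁ y))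
    (inf_le_inf_right _ hT.le)
  by_cases e : T ⊓ 𝒞₁ y = R
  · rwa [e]
  exfalso
  obtain ⟨k, hk⟩ := card_dvd le
  have c1 := card_lt (lt_of_le_of_ne le e)
  have c2 := h.card
  have hR' : IsSyl 2 R H := hT.of_card_ge hR.isPGroup (hR.le.trans inf_le_left) (by
    have : 2 ≤ k := by
      by_contra q
      have : k = 0 ∨ k = 1 := by omega
      rcases this with rfl | rfl <;> omega
    nlinarith)
  obtain ⟨g, hg, e⟩ := hR'.exists_cj_eq hT
  have tR : y ∈ R := hR.mem_of_mem_normalizer ⟨hy, self_mem_cent1 y⟩ ⟨1, by rw [pow_one, sq, y2]⟩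
    (cent_le_norm R (le_cent1_iff.1 (hR.le.trans inf_le_right)))
  exact hZ g hg (e ▸ conj_mem_cj tR)
    (by rw [← e, ← cj_cent1]; exact cj_mono g (hR.le.trans inf_le_right))

theorem rank_two {Q : Type} [Group Q] [Finite Q] {a b : Q} (ha : a * a = 1) (hb : b * b = 1)
    (h : a * b = b * a) (a1 : a ≠ 1) (b1 : b ≠ 1) (ab : a ≠ b) : PRankAtLeast 2 2 Q := by
  have : Fact (Nat.Prime 2) := ⟨Nat.prime_two⟩
  refine ⟨four a b ha hb h, abel_iff.1 (four_elem ha hb h).1, (four_elem ha hb h).2, ?_⟩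
  have c1 := four_card ha hb h a1 b1 ab
  have c2 := H9.dvd_card_of_mem (K := four a b ha hb h) (p := 2) (Or.inr (Or.inl rfl)) a1
    (by rw [sq, ha])
  omega

/-- Bender's theorem modulo a central `2`-subgroup -/
theorem se_mod (hB : B ≤ H ⊓ 𝒞 H) (pB : IsPGroup 2 B) (BM : B ≤ M) (hM : ¬ H ≤ M)
    (hx : x ∈ M ⊓ H) (hy : y ∈ H) (x2 : x * x = 1) (y2 : y * y = 1) (c : x * y = y * x)
    (x1 : x ∉ B) (y1 : y ∉ B) (xy : x * y ∉ B)
    (ti : ∀ g ∈ H, ∀ u ∈ M ⊓ H, u ∉ B → u * u ∈ B → g⁻¹ * u * g ∈ M → g ∈ M)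
    (hY : Y ⊴ M ⊓ H) (ho : Odd ♯Y) : Y ≤ Op {2}ᶜ H := by
  have : Fact (Nat.Prime 2) := ⟨Nat.prime_two⟩
  have BH : B ≤ H := hB.trans inf_le_left
  have HB : H ≤ 𝒞 B := cent_symm (hB.trans inf_le_right)
  obtain ⟨Q, _, _, f, fs, e⟩ := exists_quo (M := H) ⟨BH, HB.trans (cent_le_norm _)⟩
  have k1 : ∀ a : H, f a = 1 ↔ a.1 ∈ B := fun a => by rw [← mem_bot, ← coe_mem_up, e]
  have kX : up f ⊥ ≤ M ⊓ H := e ▸ le_inf BM BH
  have sp : H9.SPE 2 (down f (M ⊓ H)) ⊤ := H9.spe_of_ti le_top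
    (fun q => hM ((le_of_down_le le_rfl inf_le_right kX (q ▸ le_top)).trans inf_le_left))
    (H9.dvd_card_of_mem (x := f ⟨x, hx.2⟩) (mem_down_of_mem hx) (fun q => x1 ((k1 _).1 q))
      (by rw [← map_pow, k1]; change x ^ 2 ∈ B; rw [sq, x2]; exact one_mem _)) fun a _ hd => by
    obtain ⟨a, rfl⟩ := fs a
    obtain ⟨_, ⟨h1, h2⟩, h3, h4⟩ := H9.exists_mem_pow_eq_one_of_dvd hd
    obtain ⟨u, hu, rfl⟩ := exists_of_mem_down h1
    have h5 := H7.mem_cj.1 h2
    rw [← map_inv, ← map_mul, ← map_mul, ← coe_mem_up, up_down_of_le f inf_le_right kX] at h5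
    rw [sq, ← map_mul, k1] at h4
    exact mem_down_of_mem ⟨ti a a.2 u hu (fun q => h3 ((k1 _).2 q)) h4 h5.1, a.2⟩
  have rk : PRankAtLeast 2 2 Q := rank_two (a := f ⟨x, hx.2⟩) (b := f ⟨y, hy⟩)
    (by rw [← map_mul, k1]; change x * x ∈ B; rw [x2]; exact one_mem _)
    (by rw [← map_mul, k1]; change y * y ∈ B; rw [y2]; exact one_mem _)
    (by rw [← map_mul, ← map_mul]; exact congrArg f (Subtype.ext c))
    (fun q => x1 ((k1 _).1 q)) (fun q => y1 ((k1 _).1 q)) fun q => xy ((k1 (⟨x, hx.2⟩ * ⟨y, hy⟩)).1 (by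
      rw [map_mul, q, ← map_mul, k1]; change y * y ∈ B; rw [y2]; exact one_mem _))
  have l1 := se_odd sp rk (hY.down f) (odd_down f ho)
  have YH : Y ≤ H := hY.le.trans inf_le_right
  have oO : Odd ♯(pPrimeCore 2 Q) := Nat.coprime_two_right.1 (H7.coprime_card_pPrimeCore 2 Q)
  have nK : up f (pPrimeCore 2 Q) ⊴ H := nrm_up le_rfl (up_le f ⊥) (by
    rw [down_top fs]; exact nrm_top_iff.2 inferInstance)
  have cK := card_up (f := f) (H := H) (Y := pPrimeCore 2 Q) (by rw [down_top fs]; exact le_top)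
  have tK : B ≤ up f (pPrimeCore 2 Q) := e ▸ ker_le_up f _
  have YK : Y ≤ up f (pPrimeCore 2 Q) := (down_le_iff' YH).1 l1
  rw [e] at cK
  generalize up f (pPrimeCore 2 Q) = K at nK cK tK YK
  have ri : B.relIndex K = ♯(pPrimeCore 2 Q) :=
    Nat.eq_of_mul_eq_mul_left (card_pos' _) ((card_mul_ri tK).trans cK)
  obtain ⟨L, hL⟩ := exists_sd (K := B) (M := K) ⟨tK, nK.le.trans (HB.trans (cent_le_norm _))⟩
    (cop_of_pgroup Nat.prime_two pB (ri ▸ oO.not_two_dvd_nat))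
  exact (npc_le_Op Nat.prime_two (npc_of_sd Nat.prime_two
    (hL.dp (hL.le_right.trans (nK.le.trans HB))).symm.sd
    (by rw [← hL.ri, ri]; exact oO.not_two_dvd_nat) pB) YK ho.not_two_dvd_nat).trans
    (Op_le_Op_of_nrm _ nK)

/-! ### The fusion table -/

def LL (k : ℕ) : List (ℕ × ℕ) :=
  if k = 64 then [(2, 8), (8, 2), (4, 4), (16, 32), (32, 16)]
  else if k = 65 then [(1, 8), (8, 1), (4, 16), (16, 4), (32, 32)]
  else [(1, 1), (2, 16), (16, 2), (8, 32), (32, 8)]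

def p1 (w : List (ℕ × ℕ)) : UT := (w.map fun p => el p.1).prod
def p2 (w : List (ℕ × ℕ)) : UT := (w.map fun p => el p.2).prod

def ok : UT → List (ℕ × ℕ) → UT → Bool
  | a, [], b => a == b
  | a, (k, n) :: r, b => (if k < 64 then el k * a * (el k)⁻¹ == el n
      else (LL k).sublists.any fun w => p1 w == a && p2 w == el n) && ok (el n) r b

def ch (a : UT) : List (ℕ × ℕ) := ([[],[(65,8),(66,32)],[(64,8),(66,32)],[],[(65,16),(64,32)],[(65,24)],[],[],[(66,32)],[(2,1),(65,8),(66,32)],[(1,2),(64,8),(66,32)],[],[],[],[],[],[(64,32)],[],[(4,2),(64,8),(66,32)],[],[(2,4),(65,16),(64,32)],[],[],[],[],[],[(5,34),(64,24)],[],[],[(2,5),(65,24)],[],[],[],[(16,1),(65,8),(66,32)],[(64,24)],[],[(8,4),(65,16),(64,32)],[(8,5),(65,24)],[],[],[(4,8),(66,32)],[(18,1),(65,8),(66,32)],[(1,34),(64,24)],[],[],[],[],[],[(1,16),(64,32)],[],[(4,34),(64,24)],[],[(3,4),(65,16),(64,32)],[],[],[],[(1,24)],[],[(5,2),(64,8),(66,32)],[],[],[(3,5),(65,24)],[],[]]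 : List (List (ℕ × ℕ))).getD a.val []

/-- the class of `z` -/
def zc (a : UT) : Bool := Nat.testBit 293018830896432918 a.val

/-- the class of `t` -/
def tc (a : UT) : Bool := a * a == 1 && !(a == 1) && !zc a

theorem hz : ∀ a : UT, zc a = true → ok a (ch a) (el 32) = true := by decide +kernel

theorem ht : ∀ a : UT, tc a = true → ok a (ch a) (el 24) = true := by decide +kernel

theorem zt : ∀ a : UT, a * a = 1 → a ≠ 1 → zc a = true ∨ tc a = true := by decide +kernel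

variable {ι : UT →* G} {s₁ s₂ s₃ : G}

theorem acts {L : List (ℕ × ℕ)} (h : Acts ι g L) :
    ∀ w : List (ℕ × ℕ), (∀ p ∈ w, p ∈ L) → g * ι (p1 w) * g⁻¹ = ι (p2 w)
  | [], _ => by simp [p1, p2]
  | p :: w, k => by
    have := acts h w fun q hq => k q (List.mem_cons_of_mem _ hq)
    simp only [p1, p2, List.map_cons, List.prod_cons, map_mul] at this ⊢
    rw [← this, ← h p (k p List.mem_cons_self), conj_mul]

theorem ok_spec (h : T8 ι s₁ s₂ s₃) (hS : ι.range ≤ M) (h1 : s₁ ∈ M) (h2 : s₂ ∈ M) (h3 : s₃ ∈ M) :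
    ∀ (c : List (ℕ × ℕ)) (a b : UT), ok a c b = true → ∃ m ∈ M, m * ι a * m⁻¹ = ι b
  | [], a, b, k => ⟨1, one_mem _, by rw [beq_iff_eq.1 k]; simp⟩
  | (k, n) :: r, a, b, e => by
    rw [ok, Bool.and_eq_true] at e
    obtain ⟨m, hm, e2⟩ := ok_spec h hS h1 h2 h3 r _ _ e.2
    suffices ∃ c ∈ M, c * ι a * c⁻¹ = ι (el n) by
      obtain ⟨c, hc, e3⟩ := this
      exact ⟨m * c, mul_mem hm hc, by rw [← e2, ← e3]; group⟩
    have e1 := e.1
    split_ifs at e1 with q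
    · exact ⟨ι (el k), hS ⟨_, rfl⟩, by rw [← beq_iff_eq.1 e1, map_mul, map_mul, map_inv]⟩
    · simp only [List.any_eq_true, List.mem_sublists, Bool.and_eq_true, beq_iff_eq] at e1
      obtain ⟨w, hw, rfl, e3⟩ := e1
      rw [← e3]
      unfold LL at hw
      split_ifs at hw
      exacts [⟨_, h1, acts h.a1 w hw.subset⟩, ⟨_, h2, acts h.a2 w hw.subset⟩,
        ⟨_, h3, acts h.a3 w hw.subset⟩]

end Cfsg.A8.V
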