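import Cfsg.Agent.A8.D0
import Cfsg.Agent.GS.E3
import Cfsg.Agent.GS.R1
import Cfsg.Agent.GW.L2
import Cfsg.Agent.BS.All

/-! Signalizer lemmas for groups with Sylow `2`-subgroups of type `A₈`. -/

set_option autoImplicit false
set_option linter.unusedSectionVars false

namespace Cfsg.A8

open Subgroup Cfsg.L0 Cfsg.H8 Cfsg.FT Cfsg.GS.SFx
open scoped commutatorElement

variable {G : Type} [Group G] [Finite G] {E K M S T W : Subgroup G} {g t u x y z : G}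

/-- `O(C(x))` -/
def th (x : G) : Subgroup G := Op {2}ᶜ (𝒞₁ x)

theorem OO_eq (H : Subgroup G) : OO H = Op {2}ᶜ H := (Op_compl_eq Nat.prime_two H).symm

theorem th_eq (x : G) : OO (𝒞₁ x) = th x := OO_eq _

theorem odd_Op (H : Subgroup G) : Odd ♯(Op {2}ᶜ H) :=
  Nat.odd_iff.2 (Nat.two_dvd_ne_zero.1 (not_dvd_Op_compl Nat.prime_two H))

theorem le_Op2 {N H : Subgroup G} (h : Odd ♯N) (hn : N ⊴ H) : N ≤ Op {2}ᶜ H :=
  le_Op_compl Nat.prime_two h.not_two_dvd_nat hn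

theorem th_odd (x : G) : Odd ♯(th x) := odd_Op _

theorem th_nrm (x : G) : th x ⊴ 𝒞₁ x := Op_nrm _ _

theorem cj_th (g x : G) : cj g (th x) = th (g * x * g⁻¹) := by rw [th, cj_Op, cj_cent1]; rfl

theorem sol_cj (h : Sol (𝒞₁ x)) (k : IsConj x y) : Sol (𝒞₁ y) := by
  obtain ⟨g, rfl⟩ := isConj_iff.1 k
  rw [← cj_cent1]; exact h.cj g

theorem sq_pg (h : x * x = 1) : IsPGroup 2 (zpowers x) :=
  isPGroup_zpowers (k := 1) (by rw [pow_one, sq, h])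

/-- balance -/
theorem bal (hs : Sol (𝒞₁ u)) (hx : x * x = 1) (h : x ∈ 𝒞₁ u) : th x ⊓ 𝒞₁ u ≤ th u := by
  refine le_trans ?_ (Op_cent_le Nat.prime_two hs (sq_pg hx) (zpowers_le.2 h))
  rw [cent_zpowers]
  exact (le_inf inf_le_left (le_inf inf_le_right (inf_le_left.trans (th_nrm x).le))).trans
    (Op_inf_le _ inf_le_right)

/-- completeness -/
theorem fnc (hE : Elem 2 E) (h8 : 8 ≤ ♯E) (hs : ∀ a ∈ sharp E, Sol (𝒞₁ a)) : In E th (Gn E th) :=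
  GS.T4.sfg G E th ⟨hE, h8, fun a _ => th_odd a, fun a _ => (th_nrm a).le,
    fun a ha => (hE.abel.trans (cent_le_cent1 ha.1)).trans (th_nrm a).norm,
    fun _ ha b hb => bal (hs b hb) (sq1 hE ha.1) (cent_le_cent1 hb.1 (hE.abel ha.1))⟩

/-- the four-group generated by two commuting involutions -/
def four (x y : G) (hx : x * x = 1) (hy : y * y = 1) (h : x * y = y * x) : Subgroup G where
  carrier := {a | a = 1 ∨ a = x ∨ a = y ∨ a = x * y}
  one_mem' := Or.inl rfl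
  mul_mem' := by
    have e1 : x * (x * y) = y := by rw [← mul_assoc, hx, one_mul]
    have e2 : y * (x * y) = x := by rw [h, ← mul_assoc, hy, one_mul]
    have e3 : x * y * x = y := by rw [mul_assoc, ← h, e1]
    have e4 : x * y * y = x := by rw [mul_assoc, hy, mul_one]
    have e5 : x * y * (x * y) = 1 := by rw [mul_assoc, e2, hx]
    rintro a b (ha | ha | ha | ha) (hb | hb | hb | hb) <;> rw [ha, hb] <;>
      simp only [Set.mem_ofPred_eq, one_mul, mul_one, hx, hy, e1, e2, e3, e4, e5, ← h, true_or, or_true]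
  inv_mem' := by
    have e5 : x * y * (x * y) = 1 := by rw [mul_assoc, h, ← mul_assoc y, hy, one_mul, hx]
    rintro _ (rfl | rfl | rfl | rfl)
    · simp
    · simp [inv_eq_of_mul_eq_one_right hx]
    · simp [inv_eq_of_mul_eq_one_right hy]
    · simp only [inv_eq_of_mul_eq_one_right e5]; simp

theorem four_elem (hx : x * x = 1) (hy : y * y = 1) (h : x * y = y * x) :
    Elem 2 (four x y hx hy h) := by
  have c : Commute x y := h
  refine ⟨?_, ?_⟩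
  · rintro _ (rfl | rfl | rfl | rfl) _ (rfl | rfl | rfl | rfl) <;>
      first
      | simp
      | exact h
      | exact h.symm
      | exact ((Commute.refl _).mul_right c).eq
      | exact ((Commute.refl _).mul_right c).eq.symm
      | exact (c.symm.mul_right (Commute.refl _)).eq
      | exact (c.symm.mul_right (Commute.refl _)).eq.symm
  · rintro _ (rfl | rfl | rfl | rfl)
    · simp
    · rw [sq, hx]
    · rw [sq, hy]
    · rw [c.mul_pow, sq, sq, hx, hy, one_mul]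

theorem four_card (hx : x * x = 1) (hy : y * y = 1) (h : x * y = y * x) (x1 : x ≠ 1) (y1 : y ≠ 1)
    (xy : x ≠ y) : 2 < ♯(four x y hx hy h) := by
  have o : orderOf x = 2 := orderOf_eq_prime (by rw [sq, hx]) x1
  rw [← o, ← card_zpow]
  refine card_lt (lt_of_le_of_ne (zpowers_le.2 (Or.inr (Or.inl rfl))) fun e => ?_)
  obtain ⟨i, hi⟩ := mem_zpowers_iff.1 (e.ge (show y ∈ four x y hx hy h from Or.inr (Or.inr (Or.inl rfl))))
  rcases Int.emod_two_eq_zero_or_one i with e | e <;>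
    rw [← zpow_mod_orderOf, o, Nat.cast_ofNat, e] at hi
  exacts [y1 (by simpa using hi.symm), xy (by simpa using hi)]

/-- generation by the fixed points of a four-group -/
theorem gen4 (hx : x * x = 1) (hy : y * y = 1) (h : x * y = y * x) (x1 : x ≠ 1) (y1 : y ≠ 1)
    (xy : x ≠ y) (ho : Odd ♯W) (nx : x ∈ 𝒩 W) (ny : y ∈ 𝒩 W) (h1 : W ⊓ 𝒞₁ x ≤ K)
    (h2 : W ⊓ 𝒞₁ y ≤ K) (h3 : W ⊓ 𝒞₁ (x * y) ≤ K) : W ≤ K := by
  refine gen1 (four_elem hx hy h) (four_card hx hy h x1 y1 xy) ho ?_ ?_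
  · rintro _ (rfl | rfl | rfl | rfl)
    exacts [one_mem _, nx, ny, mul_mem nx ny]
  · rintro _ ⟨rfl | rfl | rfl | rfl, k⟩
    exacts [absurd rfl k, h1, h2, h3]

theorem gen3 (hE : Elem 2 E) (hI : In E th W) (hx : x ∈ E) (hy : y ∈ E) (x1 : x ≠ 1) (y1 : y ≠ 1)
    (xy : x ≠ y) (h1 : th x ≤ K) (h2 : th y ≤ K) (h3 : th (x * y) ≤ K) : W ≤ K :=
  gen4 (sq1 hE hx) (sq1 hE hy) (hE.abel.comm hx hy) x1 y1 xy hI.odd (hI.inv hx) (hI.inv hy)
    ((hI.le x ⟨hx, x1⟩).trans h1) ((hI.le y ⟨hy, y1⟩).trans h2)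
    ((hI.le _ ⟨mul_mem hx hy, fun e => xy (by
      rw [← inv_eq_of_mul_eq_one_right e, inv_eq_of_mul_eq_one_right (sq1 hE hx)])⟩).trans h3)

/-- an element normalizes `W` if it maps generators into `W` -/
theorem nrm_of (h : ∀ K, th x ≤ K → th y ≤ K → th (x * y) ≤ K → W ≤ K)
    (h1 : th (g * x * g⁻¹) ≤ W) (h2 : th (g * y * g⁻¹) ≤ W)
    (h3 : th (g * x * g⁻¹ * (g * y * g⁻¹)) ≤ W) : g ∈ 𝒩 W := by
  refine mem_norm_of_cj_le ((cj_le_iff g).2 (h _ ?_ ?_ ?_)) <;> rw [← cj_le_iff, cj_th]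
  exacts [h1, h2, by rwa [conj_mul] at h3]

theorem nrm3 (hE : Elem 2 E) (hI : In E th W) (hx : x ∈ E) (hy : y ∈ E) (x1 : x ≠ 1) (y1 : y ≠ 1)
    (xy : x ≠ y) (h1 : th (g * x * g⁻¹) ≤ W) (h2 : th (g * y * g⁻¹) ≤ W)
    (h3 : th (g * x * g⁻¹ * (g * y * g⁻¹)) ≤ W) : g ∈ 𝒩 W :=
  nrm_of (fun _ => gen3 hE hI hx hy x1 y1 xy) h1 h2 h3

theorem cent_le_of_cj (h : 𝒞₁ z ≤ M) (hg : g ∈ M) (e : g * x * g⁻¹ = z) : 𝒞₁ x ≤ M := fun c hc => by
  have : g * c * g⁻¹ ∈ M := h (e ▸ mem_cent1_conj.2 hc)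
  rwa [mul_mem_cancel_right (inv_mem hg), mul_mem_cancel_left hg] at this

/-- a subgroup containing both involution centralisers and controlling fusion is everything -/
theorem fin (z2 : z * z = 1) (t2 : t * t = 1) (z1 : z ≠ 1) (nc : ¬ IsConj z t) (hz : 𝒞₁ z ≤ M)
    (ht : 𝒞₁ t ≤ M)
    (h : ∀ x ∈ M, x * x = 1 → x ≠ 1 → ∃ m ∈ M, m * x * m⁻¹ = z ∨ m * x * m⁻¹ = t) : M = ⊤ := by
  refine eq_top_iff.2 fun g _ => ?_
  have y2 : g * z * g⁻¹ * (g * z * g⁻¹) = 1 := by rw [conj_mul, z2, mul_one, mul_inv_cancel]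
  have cz : IsConj z (g * z * g⁻¹) := isConj_iff.2 ⟨g, rfl⟩
  have hy : g * z * g⁻¹ ∈ M := by
    rcases GW.two_inv y2 t2 with ⟨c, -, e⟩ | ⟨s, -, s2, s1, e1, e2⟩
    · exact absurd (cz.trans (isConj_iff.2 ⟨c, e⟩)) nc
    · obtain ⟨m, hm, e | e⟩ := h s (ht (mem_cent1.2 e2)) s2 s1
      · exact cent_le_of_cj hz hm e (mem_cent1.2 e1.symm)
      · exact cent_le_of_cj ht hm e (mem_cent1.2 e1.symm)
  obtain ⟨m, hm, e | e⟩ := h _ hy y2 (by simpa using z1)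
  · have : m * g ∈ M := hz (mem_cent1.2 (by rw [← mul_inv_eq_iff_eq_mul]; exact Eq.trans (by group) e))
    rwa [mul_mem_cancel_left hm] at this
  · exact absurd (cz.trans (isConj_iff.2 ⟨m, e⟩)) nc

/-- the centraliser in a Sylow subgroup of an involution that is not central -/
theorem sylT (hS : IsSyl 2 S ⊤) (hZ : ∀ x ∈ S, S ≤ 𝒞₁ x → x = 1 ∨ x = z) (t2 : t * t = 1)
    (t1 : t ≠ 1) (nc : ¬ IsConj z t) (h : Hy S (S ⊓ 𝒞₁ t)) : IsSyl 2 (S ⊓ 𝒞₁ t) (𝒞₁ t) := by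
  have : Fact (Nat.Prime 2) := ⟨Nat.prime_two⟩
  obtain ⟨R, hR, le⟩ := exists_isSyl_ge (hS.isPGroup.to_inf_left (K := 𝒞₁ t)) inf_le_right
  by_cases e : S ⊓ 𝒞₁ t = R
  · rwa [e]
  exfalso
  obtain ⟨k, hk⟩ := card_dvd le
  have c1 := card_lt (lt_of_le_of_ne le e)
  have c2 := h.card
  have hR' : IsSyl 2 R ⊤ := hS.of_card_ge hR.isPGroup le_top (by
    have : 2 ≤ k := by
      by_contra q
      have : k = 0 ∨ k = 1 := by omega
      rcases this with rfl | rfl <;> omega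
    nlinarith)
  obtain ⟨g, -, hg⟩ := hR'.exists_cj_eq hS
  have tR : t ∈ R := hR.mem_of_mem_normalizer (self_mem_cent1 t) ⟨1, by rw [pow_one, sq, t2]⟩
    (cent_le_norm R (le_cent1_iff.1 hR.le))
  rcases hZ (g * t * g⁻¹) (hg ▸ conj_mem_cj tR) (by rw [← hg, ← cj_cent1]; exact cj_mono g hR.le) with q | q
  · exact t1 (by simpa using q)
  · exact nc (isConj_iff.2 ⟨g, q⟩).symm

/-- the `Z*`-theorem modulo a central involution -/
theorem zs (t2 : t * t = 1) (y2 : y * y = 1) (hT : IsSyl 2 T (𝒞₁ t)) (hy : y ∈ T)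
    (h : ∀ g ∈ 𝒞₁ t, g * y * g⁻¹ ∈ T → g * y * g⁻¹ = y ∨ g * y * g⁻¹ = y * t) :
    ∀ g ∈ 𝒞₁ t, ∃ o ∈ th t, ∃ n ∈ 𝒞₁ t, g = o * n ∧ (n * y * n⁻¹ = y ∨ n * y * n⁻¹ = y * t) := by
  have : Fact (Nat.Prime 2) := ⟨Nat.prime_two⟩
  have zt : zpowers t ≤ 𝒞₁ t := zpowers_le.2 (self_mem_cent1 t)
  have ct : 𝒞₁ t ≤ 𝒞 (zpowers t) := (cent_zpowers t).ge
  have mz : ∀ a ∈ zpowers t, a = 1 ∨ a = t := fun a ha => by
    obtain ⟨i, rfl⟩ := mem_zpowers_iff.1 ha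
    obtain ⟨j, rfl | rfl⟩ := Int.even_or_odd' i <;> simp [zpow_add, zpow_mul, zpow_ofNat, sq, t2]
  obtain ⟨Q, _, _, f, fs, e⟩ := exists_quo (M := 𝒞₁ t) ⟨zt, ct.trans (cent_le_norm _)⟩
  have tT : zpowers t ≤ T := hT.le_of_normalizes (sq_pg t2) zt (hT.le.trans (ct.trans (cent_le_norm _)))
  have yH := hT.le hy
  have z1 := GS.zstarA (x := f ⟨y, yH⟩) (hT.down f le_rfl) (mem_down_of_mem hy) (by
    intro g _ hg
    obtain ⟨g, rfl⟩ := fs g
    rw [← map_inv, ← map_mul, ← map_mul] at hg ⊢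
    have k := coe_mem_up.2 hg
    rw [up_down_of_le f hT.le (e.le.trans tT)] at k
    rw [← mul_inv_eq_one, ← map_inv, ← map_mul, ← mem_bot, ← coe_mem_up, e]
    change g.1 * y * g.1⁻¹ * y⁻¹ ∈ _
    rcases h g g.2 k with q | q <;> rw [q]
    · simp
    · rw [mem_cent1.1 yH]; simp)
  have nK : up f (Op {2}ᶜ (down f (𝒞₁ t))) ⊴ 𝒞₁ t := nrm_up le_rfl (up_le f ⊥) (Op_nrm _ _)
  have cK := card_up (f := f) (Op_le {2}ᶜ (down f (𝒞₁ t)))
  have tK : zpowers t ≤ up f (Op {2}ᶜ (down f (𝒞₁ t))) := e ▸ ker_le_up f _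
  have oK := odd_Op (down f (𝒞₁ t))
  rw [e] at cK
  have z2 : ∀ g ∈ 𝒞₁ t, g * y * g⁻¹ * y⁻¹ ∈ up f (Op {2}ᶜ (down f (𝒞₁ t))) := fun g hg =>
    (coe_mem_up (x := ⁅(⟨g, hg⟩ : 𝒞₁ t), ⟨y, yH⟩⁆)).2 (by
      rw [map_commutatorElement]; exact z1 _ (mem_down_of_mem hg))
  generalize up f (Op {2}ᶜ (down f (𝒞₁ t))) = K at nK cK tK z2
  have ri : (zpowers t).relIndex K = ♯(Op {2}ᶜ (down f (𝒞₁ t))) :=
    Nat.eq_of_mul_eq_mul_left (card_pos' _) ((card_mul_ri tK).trans cK)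
  obtain ⟨L, hL⟩ := exists_sd (K := zpowers t) (M := K) ⟨tK, nK.le.trans (ct.trans (cent_le_norm _))⟩
    (cop_of_pgroup Nat.prime_two (sq_pg t2) (ri ▸ oK.not_two_dvd_nat))
  have LO : L ≤ th t := (le_Op2 (by rw [← hL.ri, ri]; exact oK)
    (hL.dp (hL.le_right.trans (nK.le.trans ct))).nrm_right).trans (Op_le_Op_of_nrm _ nK)
  intro g hg
  obtain ⟨o, ho, a, ha, q⟩ := hL.mem' (z2 g hg)
  have ao : ∀ c ∈ 𝒞₁ t, a * c = c * a := fun c hc => mem_cent.1 (ct hc) a ha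
  have a2 : a * a = 1 := by rcases mz a ha with rfl | rfl <;> simp [t2]
  have oH := (th_nrm t).le (LO ho)
  rw [eq_comm, mul_inv_eq_iff_eq_mul] at q
  have i1 : y * o = o⁻¹ * y := by
    have : o * a * y * (o * a * y) = 1 := by rw [← q, conj_mul, y2, mul_one, mul_inv_cancel]
    rw [mul_assoc o a, ao y yH, mul_assoc o, mul_assoc y a, ← mul_assoc a, ao o oH, mul_assoc o a,
      ← mul_assoc a, ao y yH, mul_assoc y a, a2, mul_one] at this
    rw [eq_inv_mul_iff_mul_eq, ← mul_left_inj y, y2, ← this]; group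
  obtain ⟨p, hp, rfl⟩ := BS.exists_sqrt_of_odd ((th_odd t).of_dvd_nat (orderOf_dvd (LO ho)))
  have i2 : y * p * y⁻¹ = p⁻¹ := by
    obtain ⟨i, hi⟩ := mem_zpowers_iff.1 hp
    rw [← hi, ← conj_zpow, i1, mul_inv_cancel_right, inv_zpow]
  have pO : p ∈ th t := zpowers_le.2 (LO ho) hp
  have pH := (th_nrm t).le pO
  refine ⟨p, pO, p⁻¹ * g, mul_mem (inv_mem pH) hg, by group, ?_⟩
  have : p⁻¹ * g * y * (p⁻¹ * g)⁻¹ = y * a := by
    calc _ = p⁻¹ * (g * y * g⁻¹) * p := by group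
      _ = p * (a * (y * p * y⁻¹)) * y := by rw [q]; group
      _ = _ := by rw [i2, ao _ (inv_mem pH), mul_inv_cancel_left, ao y yH]
  rcases mz a ha with rfl | rfl
  · exact Or.inl (by rw [this, mul_one])
  · exact Or.inr this

/-- an odd normal subgroup of a strongly embedded subgroup lies in the core -/
theorem se_odd {X Y : Subgroup G} (hX : H9.SPE 2 X ⊤) (hr : PRankAtLeast 2 2 G) (hY : Y ⊴ X)
    (ho : Odd ♯Y) : Y ≤ pPrimeCore 2 G := by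
  obtain ⟨Z, _, _, e, Q, D, s, h⟩ := BS.bender.exists_A3 hX hr
  set f := e.toMonoidHom.comp (QuotientGroup.mk' (pPrimeCore 2 G))
  have q2 := (BS.suzuki oddOrder Z _ Q D s h).two
  have n : Y.map f ⊴ X.map f := ⟨map_mono hY.le, (map_mono hY.norm).trans (le_normalizer_map f)⟩
  have o : Odd ♯(Y.map f) := ho.of_dvd_nat (card_map_dvd Y f)
  have c := n.cent_of_cop h.Q_nrm (cop_of_pgroup Nat.prime_two q2 o.not_two_dvd_nat).symm
  have hD : Hall {2}ᶜ D (X.map f) := SD.hall_right ⟨h.QD_sup, h.D_le_norm, h.QD_bot⟩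
    (by rw [compl_compl]; exact (piG_single Nat.prime_two).2 q2)
    ((piG_compl_single Nat.prime_two).2 h.odd_D.not_two_dvd_nat)
  have l := hD.le_of_nrm ((piG_compl_single Nat.prime_two).2 o.not_two_dvd_nat) n
  intro a ha
  have : f a = 1 := h.eq_one_of_cent (l (mem_map_of_mem f ha)) fun x hx =>
    (mem_cent.1 (c (mem_map_of_mem f ha)) x hx).symm
  simpa [f] using this

end Cfsg.A8
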